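import Cfsg.Agent.H11.Pearl
import Cfsg.Agent.H9.CenSq
import Cfsg.Agent.H9.TwoTv
import Cfsg.Agent.H9.RankFour

/-! Fusion systems over `p`-groups with a unique abelian subgroup of index `p` (Oliver). -/

set_option autoImplicit false
set_option linter.unusedSectionVars false

namespace H11

open Subgroup Cfsg Cfsg.FusionSystem H92 H9
open scoped commutatorElement

variable {Ω : Type*} [Group Ω] {S : Subgroup Ω} {p : ℕ}

theorem relIndex_le_of_mulOn {N Y V W : Subgroup Ω} [Finite N] [Finite W] {f : Ω → Ω}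
    (hf : MulOn N f) (hW : ∀ a ∈ N, f a ∈ W) (hY : ∀ a ∈ N, f a ∈ V → a ∈ Y) :
    Y.relIndex N ≤ V.relIndex W :=
  calc Y.relIndex N ≤ (V.comap hf.hom).index :=
        Nat.le_of_dvd (Nat.pos_of_ne_zero index_ne_zero_of_finite)
          (index_dvd_of_le fun a ha => hY a a.2 ha)
    _ = V.relIndex hf.hom.range := index_comap _ _
    _ ≤ V.relIndex W := relIndex_le_of_le_right (by rintro _ ⟨a, rfl⟩; exact hW a a.2)
        index_ne_zero_of_finite

theorem relIndex_eq_of_le [hp : Fact p.Prime] {N Y : Subgroup Ω} [Finite N] (hN : IsPGroup p N)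
    (h1 : Y.relIndex N ≤ p) (h2 : ¬ N ≤ Y) : Y.relIndex N = p := by
  obtain ⟨k, hk⟩ := hN.index (Y.subgroupOf N)
  change Y.relIndex N = _ at hk
  rw [hk] at h1
  have h3 : k ≤ 1 := (Nat.pow_le_pow_iff_right hp.out.one_lt).mp (by rwa [pow_one])
  interval_cases k
  · exact absurd (relIndex_eq_one.mp hk) h2
  · rw [hk, pow_one]

/-- The automorphisms of `E` that are trivial on `W` and modulo `W`. -/
def tv2 (E W : Subgroup Ω) : Subgroup (MulAut E) := fixSub E W ⊓ modFix E W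

theorem conj_mem_tv2 {E W : Subgroup Ω} {b n : MulAut E} (hb : ∀ y ∈ W, af b y ∈ W)
    (hb' : ∀ y ∈ W, af b⁻¹ y ∈ W) (hn : n ∈ tv2 E W) : b * n * b⁻¹ ∈ tv2 E W :=
  ⟨conj_mem_fixSub hb' hn.1, conj_mem_modFix (fun y _ hy => hb y hy) hn.2⟩

theorem eq_one_of_mem_tv2 {E W : Subgroup Ω} (hE : IsPGroup p E) {α : MulAut E}
    (h : α ∈ tv2 E W) (hα : (orderOf α).Coprime p) : α = 1 :=
  eq_one_of_mem_modFix hE hα h.2 fun y _ hy => h.1 y hy

variable [Finite S] [hp : Fact p.Prime] {F : FusionSystem S}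

theorem mem_of_tv2 (hS : IsPGroup p S) {E W : Subgroup Ω} (hC : centralizerIn S E ≤ E)
    (hr : F.IsRadical p E) (hW : ∀ α ∈ F.autGroup E, ∀ y ∈ W, af α y ∈ W) {x : Ω}
    (hx : x ∈ normalizerIn S E) (h : cAut E x hx.2 ∈ tv2 E W) : x ∈ E :=
  (cAut_mem_Inn_iff hC hr.1 hx).mp (mem_Inn_of_normal hr (K := F.autGroup E ⊓ tv2 E W) inf_le_left
    (fun b hb _ hn => ⟨mul_mem (mul_mem hb hn.1) (Subgroup.inv_mem _ hb),
      conj_mem_tv2 (hW b hb) (hW _ (Subgroup.inv_mem _ hb)) hn.2⟩)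
    (fun _ hα => eq_one_of_mem_tv2 (hS.to_le hr.1) hα.2)
    ⟨autInducedBy_le_autGroup F hr.1 (cAut_mem hx.2 hx.1), h⟩)

theorem mem_of_tv2_conj (hS : IsPGroup p S) (hF : F.IsSaturated p) {E W : Subgroup Ω}
    (hE : F.IsEssential p E) {α : MulAut E} (hα : α ∈ F.autGroup E) (hα' : α ∉ extSub F E)
    (hW : ∀ t ∈ autInducedBy S E, ∀ y ∈ W, af (α * t * α⁻¹) y ∈ W) {x : Ω}
    (hx : x ∈ normalizerIn S E) (h : cAut E x hx.2 ∈ tv2 E W) : x ∈ E := by
  have := finite_mulAut hE.1.1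
  have hxS := cAut_mem hx.2 hx.1
  have hT := (sylIn_of_fn hS hF hE.2.1).conj hα
  have hK : IsPGroup p (F.autGroup E ⊓ tv2 E W : Subgroup (MulAut E)) :=
    isPGroup_of_forall_coprime fun _ hα => eq_one_of_mem_tv2 (hS.to_le hE.1.1) hα.2
  have h1 := hT.2.2 _ le_sup_left (sup_le hT.1 inf_le_left)
    (hT.2.1.to_sup_of_normal_right' hK (by
      rintro _ ⟨t, ht, rfl⟩
      refine mem_normalizer_of_finite fun n hn => ⟨?_, conj_mem_tv2 (hW t ht) (fun y hy => ?_) hn.2⟩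
      · have := hT.1 ⟨t, ht, rfl⟩
        exact mul_mem (mul_mem this hn.1) (Subgroup.inv_mem _ this)
      · simpa [mul_assoc] using hW _ (Subgroup.inv_mem _ ht) y hy))
  obtain ⟨t, ht, e⟩ := h1.le (mem_sup_right ⟨autInducedBy_le_autGroup F hE.1.1 hxS, h⟩)
  by_contra hxE
  refine hα' (inv_mem_iff.mp (mem_extSub_of_conj hS hF hE.2.1 (Subgroup.inv_mem _ hα) hxS
    (fun h' => hxE ((cAut_mem_Inn_iff (centralizerIn_le_of_centric hE.1) hE.1.1 hx).mp h')) ?_))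
  rw [← e]
  simpa [mul_assoc] using ht

/-- `A` is the unique abelian subgroup of index `p` of the nonabelian `p`-group `S`. -/
structure AbI (p : ℕ) (S A : Subgroup Ω) : Prop where
  hS : IsPGroup p S
  le : A ≤ S
  comm : ∀ a ∈ A, ∀ b ∈ A, a * b = b * a
  idx : A.relIndex S = p
  na : ¬ IsMulCommutative S
  uniq : ∀ B : Subgroup Ω, B ≤ S → IsMulCommutative B → B.relIndex S = p → B = A

/-- The commutator `x⁻¹ a x a⁻¹`. -/
def dc (x a : Ω) : Ω := x⁻¹ * (a * x * a⁻¹)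

theorem zc_one (S : Subgroup Ω) : zc S 1 = centralizerIn S S := by
  ext x
  rw [mem_zc_succ, zc_zero, mem_centralizerIn]
  refine and_congr_right fun _ => forall₂_congr fun y _ => ?_
  rw [mem_bot, mul_inv_eq_one, mul_inv_eq_iff_eq_mul, eq_comm]

namespace AbI

variable {A : Subgroup Ω} (h : AbI p S A)
include h

theorem conj_mem {s a : Ω} (hs : s ∈ S) (ha : a ∈ A) : s * a * s⁻¹ ∈ A :=
  (H3.normal_of_index_eq_pgroup h.hS h.idx).conj_mem ⟨a, h.le ha⟩ ha ⟨s, hs⟩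

theorem relIndex_eq {H : Subgroup Ω} (hH : H ≤ S) (hHA : ¬ H ≤ A) : A.relIndex H = p := by
  have := H3.normal_of_index_eq_pgroup h.hS h.idx
  have h1 := relIndex_dvd_index_of_normal (A.subgroupOf S) (H.subgroupOf S)
  rw [relIndex_subgroupOf hH] at h1
  exact ((Nat.dvd_prime hp.out).mp (h.idx ▸ h1)).resolve_left fun e => hHA (relIndex_eq_one.mp e)

theorem gen {H : Subgroup Ω} (hH : H ≤ S) {x : Ω} (hx : x ∈ H) (hxA : x ∉ A) :
    A ⊓ H ⊔ zpowers x = H :=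
  sup_zpowers_eq_of_relIndex_prime hp.out (by
    rw [inf_relIndex_right]; exact h.relIndex_eq hH fun e => hxA (e hx)) inf_le_right hx
    fun e => hxA e.1

theorem mem_cen {x a : Ω} (hx : x ∈ S) (hxA : x ∉ A) (ha : a ∈ A) (e : x * a = a * x) :
    a ∈ centralizerIn S S := by
  have : A ⊓ S ⊔ zpowers x ≤ centralizer {a} := sup_le
    (fun b hb => mem_centralizer_singleton_iff.mpr (h.comm b hb.1 a ha))
    (zpowers_le.mpr (mem_centralizer_singleton_iff.mpr e))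
  exact ⟨h.le ha, fun s hs => mem_centralizer_singleton_iff.mp (this ((h.gen le_rfl hx hxA).ge hs))⟩

theorem cen_le : centralizerIn S S ≤ A := fun z hz => by
  by_contra hzA
  refine h.na (isMulCommutative_iff_forall.mpr fun a ha b hb => ?_)
  have h1 : A ⊓ S ⊔ zpowers z ≤ centralizerIn S S :=
    sup_le (fun a ha => h.mem_cen hz.1 hzA ha.1 (hz.2 a ha.2).symm) (zpowers_le.mpr hz)
  exact (h1 ((h.gen le_rfl hz.1 hzA).ge hb)).2 a ha

theorem pow_mem_cen {x : Ω} (hx : x ∈ S) (hxA : x ∉ A) : x ^ p ∈ centralizerIn S S := by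
  have := H3.normal_of_index_eq_pgroup h.hS h.idx
  exact h.mem_cen hx hxA (h.idx ▸ (A.subgroupOf S).pow_index_mem ⟨x, hx⟩) (Commute.self_pow x p)

theorem dc_mem {x a : Ω} (hx : x ∈ S) (ha : a ∈ A) : dc x a ∈ A := by
  simpa [dc, mul_assoc] using A.mul_mem (h.conj_mem (S.inv_mem hx) ha) (A.inv_mem ha)

theorem mulOn_dc {x : Ω} (hx : x ∈ S) : MulOn A (dc x) := fun a ha b hb => by
  have h1 := h.comm _ (h.dc_mem hx hb) _ (A.inv_mem ha)
  have h2 := h.comm _ (h.conj_mem (S.inv_mem hx) ha) _ (h.dc_mem hx hb)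
  calc dc x (a * b) = x⁻¹ * a * x⁻¹⁻¹ * (dc x b * a⁻¹) := by simp only [dc]; group
    _ = dc x a * dc x b := by rw [h1]; simp only [dc]; group

theorem dc_of_mem {x a : Ω} (hx : x ∈ A) (ha : a ∈ A) : dc x a = 1 := by
  rw [dc, h.comm a ha x hx]; group

theorem dc_eq_one_iff {x a : Ω} (hx : x ∈ S) (hxA : x ∉ A) (ha : a ∈ A) :
    dc x a = 1 ↔ a ∈ centralizerIn S S := by
  rw [dc, inv_mul_eq_one, eq_mul_inv_iff_mul_eq]
  exact ⟨h.mem_cen hx hxA ha, fun e => e.2 x hx⟩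

theorem dc_mem_of_gen {P W : Subgroup Ω} (hP : P ≤ S) (hW : ∀ y ∈ P, ∀ w ∈ W, y * w * y⁻¹ ∈ W)
    {x a : Ω} (hx : x ∈ P) (hxA : x ∉ A) (ha : a ∈ A) (e : dc x a ∈ W) :
    ∀ y ∈ P, dc y a ∈ W := by
  let M : Subgroup Ω :=
    { carrier := {y | y ∈ P ∧ dc y a ∈ W}
      one_mem' := ⟨one_mem _, by simp [dc]⟩
      mul_mem' := fun {y z} hy hz => ⟨mul_mem hy.1 hz.1, by
        have := W.mul_mem (hW _ (P.inv_mem hz.1) _ hy.2) hz.2
        convert this using 1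
        simp only [dc]; group⟩
      inv_mem' := fun {y} hy => ⟨inv_mem hy.1, by
        have := hW _ hy.1 _ (W.inv_mem hy.2)
        convert this using 1
        simp only [dc]; group⟩ }
  have : A ⊓ P ⊔ zpowers x ≤ M := sup_le
    (fun b hb => ⟨hb.2, by rw [h.dc_of_mem hb.1 ha]; exact one_mem _⟩) (zpowers_le.mpr ⟨hx, e⟩)
  exact fun y hy => (this ((h.gen hP hx hxA).ge hy)).2

omit h in
theorem conj_cen {y w : Ω} (hy : y ∈ S) (hw : w ∈ centralizerIn S S) : y * w * y⁻¹ = w := by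
  rw [hw.2 y hy, mul_inv_cancel_right]

theorem mem_zc_iff {x a : Ω} (hx : x ∈ S) (hxA : x ∉ A) (ha : a ∈ A) :
    a ∈ zc S 2 ↔ dc x a ∈ centralizerIn S S := by
  rw [mem_zc_succ, zc_one]
  constructor
  · intro e
    have h1 := e.2 x hx
    rw [← conj_cen (S.inv_mem hx) h1] at h1
    convert h1 using 1
    simp only [dc]; group
  · refine fun e => ⟨h.le ha, fun y hy => ?_⟩
    have h1 := h.dc_mem_of_gen le_rfl (fun y hy w hw => (conj_cen hy hw).symm ▸ hw) hx hxA ha e y hy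
    rw [← conj_cen hy h1] at h1
    convert h1 using 1
    simp only [dc]; group

theorem mem_normalizer_of_dc {P : Subgroup Ω} (hP : P ≤ S) {x a : Ω} (hx : x ∈ P) (hxA : x ∉ A)
    (ha : a ∈ A) (e : dc x a ∈ P) : a ∈ normalizerIn S P :=
  mem_normalizerIn_of hP (h.le ha) fun y hy => by
    simpa [dc] using P.mul_mem hy (h.dc_mem_of_gen hP
      (fun y hy w hw => P.mul_mem (P.mul_mem hy hw) (P.inv_mem hy)) hx hxA ha e y hy)

omit h in
theorem dc_mem_of_normalizer {P : Subgroup Ω} {x a : Ω} (hx : x ∈ P)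
    (ha : a ∈ normalizerIn S P) : dc x a ∈ P :=
  P.mul_mem (P.inv_mem hx) (conj_mem_of_normalizerIn ha hx)

theorem cAut_mem_tv2 {P W : Subgroup Ω} (hP : P ≤ S) (hWA : W ≤ A)
    (hW : ∀ y ∈ P, ∀ w ∈ W, y * w * y⁻¹ ∈ W) {x a : Ω} (hx : x ∈ P) (hxA : x ∉ A) (ha : a ∈ A)
    (hn : a ∈ normalizerIn S P) (e : dc x a ∈ W) : cAut P a hn.2 ∈ tv2 P W :=
  ⟨fun y hy => by
    by_cases hyP : y ∈ P
    · rw [af_cAut _ hyP, h.comm a ha y (hWA hy), mul_inv_cancel_right]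
    · exact af_of_not_mem _ hyP,
   fun y hy => by rw [af_cAut _ hy]; exact h.dc_mem_of_gen hP hW hx hxA ha e y hy⟩

section Ess

variable (hF : F.IsSaturated p) {P : Subgroup Ω} (hP : F.IsEssential p P)
include hF hP

omit h hF in
theorem cen_le_ess : centralizerIn S S ≤ P :=
  (centralizerIn_anti S hP.1.1).trans (centralizerIn_le_of_centric hP.1)

omit hF in
theorem exists_notMem (hPA : P ≠ A) : ∃ x ∈ P, x ∉ A :=
  SetLike.not_le_iff_exists.mp fun e => hPA (le_antisymm e fun a ha =>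
    centralizerIn_le_of_centric hP.1 ⟨h.le ha, fun y hy => h.comm y (e hy) a ha⟩)

theorem exists_normalizes {x : Ω} (hx : x ∈ P) (hxA : x ∉ A) :
    ∃ a ∈ A, a ∈ normalizerIn S P ∧ a ∉ P := by
  obtain ⟨a, h1, h2, h3, -⟩ := exists_normalizes_pow_mem h.hS hP.1.1 h.le
    (fun y hy q hq => h.conj_mem (hP.1.1 hy) hq) fun e => (essential_lt h.hS hF hP).not_ge (by
      rw [← h.gen le_rfl (hP.1.1 hx) hxA]
      exact sup_le (inf_le_left.trans e) (zpowers_le.mpr hx))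
  exact ⟨a, h1, h2, h3⟩

omit hF in
theorem af_mem_cen {x : Ω} (hx : x ∈ P) (hxA : x ∉ A) (hna : ¬ A ⊓ P ≤ centralizerIn S S)
    (α : MulAut P) {z : Ω} (hz : z ∈ centralizerIn S S) : af α z ∈ centralizerIn S S := by
  have h1 := af_mem_centralizerIn α (y := z) ⟨cen_le_ess hP hz, fun y hy => hz.2 y (hP.1.1 hy)⟩
  by_cases h2 : af α z ∈ A
  · exact h.mem_cen (hP.1.1 hx) hxA h2 (h1.2 x hx)
  · exact absurd (fun a ha => h.mem_cen (hP.1.1 h1.1) h2 ha.1 (h1.2 a ha.2).symm) hna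

/-- A nonabelian essential subgroup not inside `A`. -/
theorem nonab {x : Ω} (hx : x ∈ P) (hxA : x ∉ A) (hna : ¬ A ⊓ P ≤ centralizerIn S S) :
    A ⊓ P = A ⊓ zc S 2 ∧ (centralizerIn S S).relIndex (A ⊓ P) = p := by
  have hC := centralizerIn_le_of_centric hP.1
  have hr := essential_radical h.hS hF hP
  have hPS := hP.1.1
  have := finite_of_le hPS
  have := finite_of_le (inf_le_right.trans hPS : A ⊓ P ≤ S)
  have hZ : centralizerIn S S ≤ A ⊓ P := le_inf h.cen_le (cen_le_ess hP)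
  have hn : ∀ y ∈ P, ∀ w ∈ A ⊓ P, y * w * y⁻¹ ∈ A ⊓ P := fun y hy w hw =>
    ⟨h.conj_mem (hPS hy) hw.1, P.mul_mem (P.mul_mem hy hw.2) (P.inv_mem hy)⟩
  obtain ⟨α, -, y, hy, hy'⟩ : ∃ α ∈ F.autGroup P, ∃ y ∈ A ⊓ P, af α y ∉ A ⊓ P := by
    by_contra hc
    push Not at hc
    obtain ⟨a, h1, h2, h3⟩ := h.exists_normalizes hF hP hx hxA
    exact h3 (mem_of_tv2 h.hS hC hr hc h2 (h.cAut_mem_tv2 hPS inf_le_left hn hx hxA h1 h2
      ⟨h.dc_mem (hPS hx) h1, dc_mem_of_normalizer hx h2⟩))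
  have h1 : (centralizerIn S S).relIndex (A ⊓ P) ≤ p := by
    rw [← h.relIndex_eq hPS fun e => hxA (e hx)]
    refine relIndex_le_of_mulOn ((mulOn_af α⁻¹).mono inf_le_right) (fun a ha => af_mem _ ha.2)
      fun a ha e => h.mem_cen (hPS (af_mem α hy.2)) (fun e => hy' ⟨e, af_mem α hy.2⟩) ha.1 ?_
    have h2 := congrArg (af α) (h.comm y hy.1 _ e)
    rwa [(mulOn_af α).map_mul hy.2 (af_mem _ ha.2), (mulOn_af α).map_mul (af_mem _ ha.2) hy.2,
      af_af_inv] at h2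
  refine ⟨le_antisymm (fun a ha => ?_) (fun a ha => ?_), ?_⟩
  · have h2 := inv_mul_conj_mem_of_relIndex_le (h.hS.to_le hPS) inf_le_right hZ hn
      (fun y hy w hw => (conj_cen (hPS hy) hw).symm ▸ hw) h1 (P.inv_mem hx) ha
    refine ⟨ha.1, (h.mem_zc_iff (hPS hx) hxA ha.1).mpr ?_⟩
    rw [← conj_cen (h.le ha.1) h2] at h2
    convert h2 using 1
    simp only [dc]; group
  · have h2 := (h.mem_zc_iff (hPS hx) hxA ha.1).mp ha.2
    have h3 := h.mem_normalizer_of_dc hPS hx hxA ha.1 (cen_le_ess hP h2)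
    exact ⟨ha.1, mem_of_tv2 h.hS hC hr (fun α _ z hz => h.af_mem_cen hP hx hxA hna α hz) h3
      (h.cAut_mem_tv2 hPS h.cen_le (fun y hy w hw => (conj_cen (hPS hy) hw).symm ▸ hw) hx hxA ha.1
        h3 h2)⟩
  · exact relIndex_eq_of_le (h.hS.to_le (inf_le_right.trans hPS : A ⊓ P ≤ S)) h1 hna

/-- The subgroup `Z ∩ α(Z)`. -/
def cenInf (S P : Subgroup Ω) (α : MulAut P) : Subgroup Ω where
  carrier := {z | z ∈ centralizerIn S S ∧ z ∈ P ∧ af α⁻¹ z ∈ centralizerIn S S}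
  one_mem' := ⟨one_mem _, one_mem _, by rw [(mulOn_af _).map_one]; exact one_mem _⟩
  mul_mem' := fun {a b} ha hb => ⟨mul_mem ha.1 hb.1, mul_mem ha.2.1 hb.2.1, by
    rw [(mulOn_af _).map_mul ha.2.1 hb.2.1]; exact mul_mem ha.2.2 hb.2.2⟩
  inv_mem' := fun {a} ha => ⟨inv_mem ha.1, inv_mem ha.2.1, by
    rw [(mulOn_af _).map_inv ha.2.1]; exact inv_mem ha.2.2⟩

theorem mem_of_dc_cenInf {x : Ω} (hx : x ∈ P) (hxA : x ∉ A) {α : MulAut P}
    (hα : α ∈ F.autGroup P) (hα' : α ∉ extSub F P) {a : Ω} (ha : a ∈ A)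
    (e : dc x a ∈ cenInf S P α) : a ∈ P := by
  have h3 := h.mem_normalizer_of_dc hP.1.1 hx hxA ha e.2.1
  refine mem_of_tv2_conj h.hS hF hP hα hα' (W := cenInf S P α) (fun t ht y hy => ?_) h3
    (h.cAut_mem_tv2 (W := cenInf S P α) hP.1.1 (fun z hz => h.cen_le hz.1)
      (fun y hy w hw => (conj_cen (hP.1.1 hy) hw.1).symm ▸ hw) hx hxA ha h3 e)
  obtain ⟨s, hs, es⟩ := mem_autInducedBy.mp ht
  rwa [af_mul_apply, af_mul_apply, es _ (af_mem _ hy.2.1), conj_cen hs hy.2.2, af_af_inv]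

theorem norm_eq {x : Ω} (hx : x ∈ P) (hxA : x ∉ A) (hab : A ⊓ P ≤ centralizerIn S S) :
    A ⊓ normalizerIn S P = A ⊓ zc S 2 := by
  ext a
  rw [mem_inf, mem_inf]
  refine and_congr_right fun ha => ?_
  rw [h.mem_zc_iff (hP.1.1 hx) hxA ha]
  exact ⟨fun e => hab ⟨h.dc_mem (hP.1.1 hx) ha, dc_mem_of_normalizer hx e⟩,
    fun e => h.mem_normalizer_of_dc hP.1.1 hx hxA ha (cen_le_ess hP e)⟩

theorem relIndex_norm_le {x : Ω} (hx : x ∈ P) (hxA : x ∉ A) :
    (A ⊓ P).relIndex (A ⊓ normalizerIn S P) ≤ p := by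
  have hPS := hP.1.1
  have := finite_of_le hPS
  have := finite_of_le (inf_le_right.trans hPS : A ⊓ P ≤ S)
  have := finite_of_le (inf_le_left.trans h.le : A ⊓ normalizerIn S P ≤ S)
  have := finite_of_le (centralizerIn_le S S)
  have hm := (h.mulOn_dc (hPS hx)).mono (inf_le_left (b := normalizerIn S P))
  by_cases hab : A ⊓ P ≤ centralizerIn S S
  · obtain ⟨α, hα, hα'⟩ := SetLike.not_le_iff_exists.mp ((isEssential_iff h.hS hF).mp hP).2.2
    refine (relIndex_le_of_mulOn (Y := A ⊓ P) (V := cenInf S P α) (W := centralizerIn S S) hm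
      (fun a ha => hab ⟨h.dc_mem (hPS hx) ha.1, dc_mem_of_normalizer hx ha.2⟩)
      fun a ha e => ⟨ha.1, h.mem_of_dc_cenInf hF hP hx hxA hα hα' ha.1 e⟩).trans ?_
    rw [← h.relIndex_eq hPS fun e => hxA (e hx)]
    exact relIndex_le_of_mulOn ((mulOn_af α⁻¹).mono (cen_le_ess hP))
      (fun a ha => af_mem _ (cen_le_ess hP ha))
      fun a ha e => ⟨ha, cen_le_ess hP ha, hab ⟨e, af_mem _ (cen_le_ess hP ha)⟩⟩
  · obtain ⟨h1, h2⟩ := h.nonab hF hP hx hxA hab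
    rw [← h2]
    exact relIndex_le_of_mulOn hm
      (fun a ha => ⟨h.dc_mem (hPS hx) ha.1, dc_mem_of_normalizer hx ha.2⟩)
      fun a ha e => h1.ge ⟨ha.1, (h.mem_zc_iff (hPS hx) hxA ha.1).mpr e⟩

theorem relIndex_norm {x : Ω} (hx : x ∈ P) (hxA : x ∉ A) :
    (A ⊓ P).relIndex (A ⊓ normalizerIn S P) = p := by
  have := finite_of_le (inf_le_left.trans h.le : A ⊓ normalizerIn S P ≤ S)
  obtain ⟨a, h1, h2, h3⟩ := h.exists_normalizes hF hP hx hxA
  exact relIndex_eq_of_le (h.hS.to_le (inf_le_left.trans h.le : A ⊓ normalizerIn S P ≤ S))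
    (h.relIndex_norm_le hF hP hx hxA) fun e => h3 (e ⟨h1, h2⟩).2

theorem relIndex_normalizerIn : P.relIndex (normalizerIn S P) = p := by
  by_cases hPA : P = A
  · subst hPA
    rw [le_antisymm (normalizerIn_le S P) fun s hs =>
      mem_normalizerIn_of h.le hs fun y hy => h.conj_mem hs hy, h.idx]
  obtain ⟨x, hx, hxA⟩ := h.exists_notMem hP hPA
  have hN := le_normalizerIn hP.1.1
  have h1 := relIndex_mul_relIndex (A ⊓ P) P _ inf_le_right hN
  have h2 := relIndex_mul_relIndex (A ⊓ P) (A ⊓ normalizerIn S P) _ (inf_le_inf_left A hN)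
    inf_le_right
  rw [h.relIndex_norm hF hP hx hxA, inf_relIndex_right,
    h.relIndex_eq (normalizerIn_le S P) fun e => hxA (e (hN hx)), ← h1, inf_relIndex_right,
    h.relIndex_eq hP.1.1 fun e => hxA (e hx)] at h2
  exact (Nat.eq_of_mul_eq_mul_left hp.out.pos h2).symm

theorem relIndex_cen (hPA : P ≠ A) : (centralizerIn S S).relIndex (A ⊓ zc S 2) = p := by
  obtain ⟨x, hx, hxA⟩ := h.exists_notMem hP hPA
  by_cases hab : A ⊓ P ≤ centralizerIn S S
  · rw [← h.norm_eq hF hP hx hxA hab, ← le_antisymm hab (le_inf h.cen_le (cen_le_ess hP))]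
    exact h.relIndex_norm hF hP hx hxA
  · obtain ⟨h1, h2⟩ := h.nonab hF hP hx hxA hab
    rwa [← h1]

theorem zc_le (hPA : P ≠ A) : zc S 2 ≤ A := fun y hy => by
  by_contra hyA
  have hyS := H92.zc_le S 2 hy
  have h1 : A ≤ zc S 2 := fun a ha => (h.mem_zc_iff hyS hyA ha).mpr (by
    have := (mem_zc_succ.mp ((zc S 2).inv_mem hy)).2 a (h.le ha)
    rw [zc_one] at this
    simpa [dc, mul_assoc] using this)
  have h2 := h.relIndex_cen hF hP hPA
  rw [inf_eq_left.mpr h1] at h2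
  have hB : centralizerIn S S ⊔ zpowers y ≤ S := sup_le (centralizerIn_le S S) (zpowers_le.mpr hyS)
  have h3 := relIndex_mul_relIndex _ _ S (le_sup_left (b := zpowers y)) hB
  have h4 : A ⊓ (centralizerIn S S ⊔ zpowers y) = centralizerIn S S :=
    le_antisymm (fun a ha => h.mem_cen hyS hyA ha.1 (mem_centralizer_singleton_iff.mp
      ((sup_le (fun z hz => mem_centralizer_singleton_iff.mpr (hz.2 y hyS).symm)
        (zpowers_le.mpr (mem_centralizer_singleton_iff.mpr rfl)) : _ ≤ centralizer {y})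
          ha.2)).symm) (le_inf h.cen_le le_sup_left)
  have h5 := h.relIndex_eq hB fun e => hyA (e (mem_sup_right (mem_zpowers y)))
  rw [← inf_relIndex_right, h4] at h5
  rw [← relIndex_mul_relIndex _ A S h.cen_le h.le, h2, h.idx, h5] at h3
  refine hyA (h.uniq _ hB (isMulCommutative_sup_zpowers
    ((isMulCommutative_iff_forall (A := centralizerIn S S)).mpr
    fun a ha b hb => hb.2 a ha.1) fun a ha => ?_) (Nat.eq_of_mul_eq_mul_left hp.out.pos h3) ▸
      mem_sup_right (mem_zpowers y))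
  exact (ha.2 y hyS).symm

end Ess

end AbI

end H11
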