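import Cfsg.Agent.H11.AbIdx

/-! Unique abelian subgroup of index `p`: the structure of `S` when an essential subgroup other
than `A` exists. -/

set_option autoImplicit false
set_option linter.unusedSectionVars false

namespace H11

open Subgroup Cfsg Cfsg.FusionSystem H92 H9
open scoped commutatorElement

variable {Ω : Type*} [Group Ω] {S : Subgroup Ω} {p : ℕ}

theorem card_img_eq_relIndex {N K : Subgroup Ω} {f : Ω → Ω} (hf : MulOn N f)
    (hK : ∀ a ∈ N, f a = 1 ↔ a ∈ K) : Nat.card (img N f) = K.relIndex N := by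
  rw [← hf.range_hom, ← index_ker, Subgroup.relIndex]
  congr 1
  ext a
  exact hK a a.2

variable [Finite S] [hp : Fact p.Prime] {F : FusionSystem S}

namespace AbI

variable {A : Subgroup Ω} (h : AbI p S A)
include h

theorem mem_comm_iff {x : Ω} (hx : x ∈ S) (hxA : x ∉ A) {y : Ω} :
    y ∈ ⁅S, S⁆ ↔ ∃ a ∈ A, dc x a = y := by
  constructor
  · intro hy
    have := H3.normal_of_index_eq_pgroup h.hS h.idx
    rw [← (⁅S, S⁆).inv_mem_iff, ← map_subtype_commutator] at hy
    obtain ⟨c, hc, e⟩ := hy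
    obtain ⟨a, ha, rfl⟩ := ((card_commutator_mul_card_inf_center (A := A.subgroupOf S)
      (isMulCommutative_iff_forall.mpr fun a ha b hb => Subtype.ext (h.comm a ha b hb))
      (sup_zpowers_eq_top_of_index h.hS h.idx (x := (⟨x, hx⟩ : S)⁻¹)
        fun e => hxA ((A.subgroupOf S).inv_mem_iff.mp e))).2 c).mp hc
    refine ⟨a, ha, inv_injective ?_⟩
    rw [← e]
    simp [dc, commutatorElement_def, mul_assoc]
  · rintro ⟨a, ha, rfl⟩
    simpa [dc, commutatorElement_def, mul_assoc] using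
      commutator_mem_commutator (S.inv_mem hx) (h.le ha)

theorem exists_out : ∃ x ∈ S, x ∉ A := SetLike.not_le_iff_exists.mp fun e =>
  hp.out.one_lt.ne' (h.idx.symm.trans (relIndex_eq_one.mpr e))

theorem comm_le : ⁅S, S⁆ ≤ A := fun y hy => by
  obtain ⟨x, hx, hxA⟩ := h.exists_out
  obtain ⟨a, ha, rfl⟩ := (h.mem_comm_iff hx hxA).mp hy
  exact h.dc_mem hx ha

theorem card_comm : Nat.card ↥⁅S, S⁆ = (centralizerIn S S).relIndex A := by
  obtain ⟨x, hx, hxA⟩ := h.exists_out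
  rw [← card_img_eq_relIndex (h.mulOn_dc hx) fun a ha => h.dc_eq_one_iff hx hxA ha]
  congr 3
  ext y
  rw [h.mem_comm_iff hx hxA, (h.mulOn_dc hx).mem_img]

theorem card_cen_inf : Nat.card ↥(centralizerIn S S ⊓ ⁅S, S⁆) =
    (centralizerIn S S).relIndex (A ⊓ zc S 2) := by
  obtain ⟨x, hx, hxA⟩ := h.exists_out
  have hm := (h.mulOn_dc hx).mono (inf_le_left (b := zc S 2))
  rw [← card_img_eq_relIndex hm fun a ha => h.dc_eq_one_iff hx hxA ha.1]
  congr 3
  ext y
  rw [mem_inf, h.mem_comm_iff hx hxA, hm.mem_img]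
  exact ⟨fun ⟨h1, a, ha, e⟩ => ⟨a, ⟨ha, (h.mem_zc_iff hx hxA ha).mpr (e ▸ h1)⟩, e⟩,
    fun ⟨a, ha, e⟩ => ⟨e ▸ (h.mem_zc_iff hx hxA ha.1).mp ha.2, a, ha.1, e⟩⟩

theorem relIndex_cen_sup : (centralizerIn S S ⊔ ⁅S, S⁆).relIndex A =
    Nat.card ↥(centralizerIn S S ⊓ ⁅S, S⁆) := by
  have := finite_of_le h.le
  have hB : centralizerIn S S ⊔ ⁅S, S⁆ ≤ A := sup_le h.cen_le h.comm_le
  have := finite_of_le hB
  have := finite_of_le h.comm_le
  have h1 := relIndex_mul_relIndex _ _ A (le_sup_left (b := ⁅S, S⁆)) hB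
  have h2 : (centralizerIn S S).relIndex (centralizerIn S S ⊔ ⁅S, S⁆) =
      (centralizerIn S S).relIndex ⁅S, S⁆ := by
    have : ((centralizerIn S S).subgroupOf S).Normal := centralizerIn_subgroupOf S ▸ inferInstance
    rw [← relIndex_subgroupOf (hB.trans h.le), ← relIndex_subgroupOf (h.comm_le.trans h.le),
      subgroupOf_sup (centralizerIn_le S S) (h.comm_le.trans h.le), relIndex_sup_left]
  rw [← h.card_comm, ← relIndex_mul_card_inf (centralizerIn S S) ⁅S, S⁆, h2] at h1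
  exact Nat.eq_of_mul_eq_mul_left (Nat.pos_of_ne_zero index_ne_zero_of_finite) h1

theorem lcs_le (k : ℕ) : S.lowerCentralSeries (k + 1) ≤ ⁅S, S⁆ :=
  S.lowerCentralSeries_antitone (show 1 ≤ k + 1 by omega)

theorem card_lcs_le (k : ℕ) : Nat.card (S.lowerCentralSeries (k + 1)) ≤
    Nat.card (S.lowerCentralSeries (k + 2)) * Nat.card ↥(centralizerIn S S ⊓ ⁅S, S⁆) := by
  obtain ⟨x, hx, hxA⟩ := h.exists_out
  have hA := (h.lcs_le k).trans h.comm_le
  have := finite_of_le (hA.trans h.le)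
  have := finite_of_le (((h.lcs_le (k + 1)).trans h.comm_le).trans h.le)
  have := finite_of_le (inf_le_left.trans (centralizerIn_le S S) : _ ⊓ ⁅S, S⁆ ≤ S)
  rw [← relIndex_mul_card_inf (centralizerIn S S) (S.lowerCentralSeries (k + 1)),
    ← relIndex_bot_left (S.lowerCentralSeries (k + 2))]
  refine Nat.mul_le_mul (relIndex_le_of_mulOn ((h.mulOn_dc hx).mono hA) (fun a ha => ?_)
    fun a ha e => (h.dc_eq_one_iff hx hxA (hA ha)).mp e) (card_le_of_le
      (inf_le_inf_left _ (h.lcs_le k)))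
  simpa [dc, commutatorElement_def, mul_assoc] using
    (S.lowerCentralSeries (k + 2)).inv_mem (commutator_mem_commutator ha (S.inv_mem hx))

theorem not_lcs_le (h0 : Nat.card ↥(centralizerIn S S ⊓ ⁅S, S⁆) = p) {m : ℕ}
    (hm : (centralizerIn S S).relIndex S = p ^ (m + 3)) :
    ¬ S.lowerCentralSeries (m + 1) ≤ centralizerIn S S := fun hle => by
  have := finite_of_le (inf_le_left.trans (centralizerIn_le S S) : _ ⊓ ⁅S, S⁆ ≤ S)
  have h1 : ∀ k, Nat.card ↥⁅S, S⁆ ≤ Nat.card (S.lowerCentralSeries (k + 1)) * p ^ k := fun k => by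
    induction k with
    | zero => exact (mul_one _).ge
    | succ k ih =>
      refine ih.trans ((Nat.mul_le_mul_right _ (h.card_lcs_le k)).trans_eq ?_)
      rw [h0]; ring
  have h2 := (h1 m).trans (Nat.mul_le_mul_right _ (card_le_of_le (le_inf hle (h.lcs_le m))))
  rw [← relIndex_mul_relIndex _ A S h.cen_le h.le, h.idx, ← h.card_comm, pow_succ] at hm
  rw [h0, Nat.eq_of_mul_eq_mul_right hp.out.pos hm, ← pow_succ',
    Nat.pow_le_pow_iff_right hp.out.one_lt] at h2
  omega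

end AbI

end H11
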