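import Cfsg.Agent.H11.AbIdx2
import Cfsg.Agent.H93.NC

/-! Unique abelian subgroup `A` of index `p`, not essential, and `O_p(F) = 1`. -/

set_option autoImplicit false
set_option linter.unusedSectionVars false

namespace H11

open Subgroup Cfsg Cfsg.FusionSystem H92 H9
open scoped commutatorElement

variable {Ω : Type*} [Group Ω] {S : Subgroup Ω} {p : ℕ}
variable [Finite S] [hp : Fact p.Prime] {F : FusionSystem S}

theorem eq_one_of_pow_coprime (hS : IsPGroup p S) {t : Ω} (ht : t ∈ S) {n : ℕ} (hn : n.Coprime p)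
    (e : t ^ n = 1) : t = 1 := by
  obtain ⟨k, hk⟩ := hS ⟨t, ht⟩
  exact orderOf_eq_one_iff.mp (Nat.eq_one_of_dvd_coprimes (hn.pow_right k)
    (orderOf_dvd_of_pow_eq_one e) (orderOf_dvd_of_pow_eq_one (congrArg Subtype.val hk)))

theorem fix_cen_of_tv (hS : IsPGroup p S) (hF : F.IsSaturated p) {ε : MulAut S}
    (hε : ε ∈ F.autGroup S) {w : Ω} (hw : w ∈ centralizerIn S S)
    (e : af ε (w⁻¹ * af ε w) = w⁻¹ * af ε w) : af ε w = w := by
  obtain ⟨n, hn, h1⟩ := exists_pow_mem_Inn hS hF hε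
  obtain ⟨g, hg, h2⟩ := mem_Inn.mp h1
  have h3 := af_pow_of_fix hw.1 e n
  rw [h2 w hw.1, AbI.conj_cen hg hw, left_eq_mul] at h3
  exact (inv_mul_eq_one.mp (eq_one_of_pow_coprime hS (S.mul_mem (S.inv_mem hw.1) (af_mem _ hw.1))
    hn h3)).symm

omit hp in
theorem af_mem_cen_comm (α : MulAut S) {z : Ω} (hz : z ∈ centralizerIn S S ⊓ ⁅S, S⁆) :
    af α z ∈ centralizerIn S S ⊓ ⁅S, S⁆ := ⟨af_mem_centralizerIn α hz.1, by
  have := mem_img_of_mem (af α) hz.2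
  rwa [(mulOn_af α).img_commutator le_rfl le_rfl, img_af] at this⟩

/-- The automorphisms in `F` of `S` that are trivial on `Z(S)` modulo `Z(S) ∩ S'`. -/
def cenTriv (F : FusionSystem S) : Set (MulAut S) :=
  {δ | δ ∈ F.autGroup S ∧ ∀ c ∈ centralizerIn S S, c⁻¹ * af δ c ∈ centralizerIn S S ⊓ ⁅S, S⁆}

theorem fix_of_cenTriv (hS : IsPGroup p S) (hF : F.IsSaturated p) (hp2 : p ≠ 2) {β δ : MulAut S}
    (hβ : β ∈ F.autGroup S) (hδ : δ ∈ cenTriv F)
    (hi : ∀ c ∈ centralizerIn S S ⊓ ⁅S, S⁆, af β c = c⁻¹) {w : Ω} (hw : w ∈ centralizerIn S S)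
    (e : af β w = w) : af δ w = w := by
  have hc := hδ.2 w hw
  have hcS : w⁻¹ * af δ w ∈ S := hc.1.1
  have h1 : af β (af δ w) = af δ w * ((w⁻¹ * af δ w) ^ 2)⁻¹ := by
    conv_lhs => rw [← mul_inv_cancel_left w (af δ w), (mulOn_af β).map_mul hw.1 hcS, e, hi _ hc]
    rw [pow_two]; group
  have h2 : af β⁻¹ w = w := by conv_lhs => rw [← e, af_inv_af]
  have h3 := fix_cen_of_tv hS hF (ε := δ⁻¹ * β * δ * β⁻¹) (mul_mem (mul_mem (mul_mem
    (Subgroup.inv_mem _ hδ.1) hβ) hδ.1) (Subgroup.inv_mem _ hβ)) hw (by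
      have h4 : ∀ t ∈ centralizerIn S S ⊓ ⁅S, S⁆, af (δ⁻¹ * β * δ * β⁻¹) t = t := fun t ht => by
        have h5 : af β⁻¹ t = t⁻¹ := by
          conv_lhs => rw [← inv_inv t, ← hi _ (Subgroup.inv_mem _ ht), af_inv_af]
        rw [af_mul_apply, af_mul_apply, af_mul_apply, h5,
          hi _ (af_mem_cen_comm δ (Subgroup.inv_mem _ ht)), (mulOn_af δ).map_inv ht.1.1, inv_inv,
          af_inv_af]
      refine h4 _ ?_
      rw [af_mul_apply, af_mul_apply, af_mul_apply, h2, h1, (mulOn_af _).map_mul (af_mem _ hw.1)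
        (S.inv_mem (S.pow_mem hcS 2)), af_inv_af, inv_mul_cancel_left]
      exact af_mem_cen_comm _ (Subgroup.inv_mem _ (pow_mem hc 2)))
  rw [af_mul_apply, af_mul_apply, af_mul_apply, h2] at h3
  have h4 := congrArg (af δ) h3
  rw [af_af_inv, h1, mul_eq_left, inv_eq_one] at h4
  exact (inv_mul_eq_one.mp (eq_one_of_pow_coprime hS hcS
    ((Nat.coprime_primes Nat.prime_two hp.out).mpr hp2.symm) h4)).symm

/-- The centralizer in `Z(S)` of `cenTriv F`. -/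
def cenFix (F : FusionSystem S) : Subgroup Ω where
  carrier := {z | z ∈ centralizerIn S S ∧ ∀ δ ∈ cenTriv F, af δ z = z}
  one_mem' := ⟨one_mem _, fun δ _ => (mulOn_af δ).map_one⟩
  mul_mem' := fun {a b} ha hb => ⟨mul_mem ha.1 hb.1, fun δ hδ => by
    rw [(mulOn_af δ).map_mul ha.1.1 hb.1.1, ha.2 δ hδ, hb.2 δ hδ]⟩
  inv_mem' := fun {a} ha => ⟨Subgroup.inv_mem _ ha.1, fun δ hδ => by
    rw [(mulOn_af δ).map_inv ha.1.1, ha.2 δ hδ]⟩

omit hp in
theorem af_mem_cenFix {α : MulAut S} (hα : α ∈ F.autGroup S) {x : Ω} (hx : x ∈ cenFix F) :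
    af α x ∈ cenFix F := ⟨af_mem_centralizerIn α hx.1, fun δ hδ => by
  have h1 := hx.2 (α⁻¹ * δ * α) ⟨mul_mem (mul_mem (Subgroup.inv_mem _ hα) hδ.1) hα, fun c hc => by
    have h2 := af_mem_cen_comm α⁻¹ (hδ.2 _ (af_mem_centralizerIn α hc))
    rwa [(mulOn_af _).map_mul (S.inv_mem (af_mem _ hc.1)) (af_mem _ (af_mem _ hc.1)),
      (mulOn_af _).map_inv (af_mem _ hc.1), af_inv_af, ← af_mul_apply, ← af_mul_apply] at h2⟩
  conv_rhs => rw [← h1, af_mul_apply, af_mul_apply, af_af_inv]⟩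

namespace AbI

variable {A : Subgroup Ω} (h : AbI p S A) (hF : F.IsSaturated p)
include h hF

omit hF in
theorem card_eq {P : Subgroup Ω} (hP : P ≤ S) (hPA : ¬ P ≤ A) :
    Nat.card P = p * Nat.card ↥(A ⊓ P) := by
  rw [← relIndex_mul_card_inf A P, h.relIndex_eq hP hPA]

theorem exists_fix {P : Subgroup Ω} (hP : F.IsEssential p P) {x : Ω} (hx : x ∈ P) (hxA : x ∉ A)
    (hna : ¬ A ⊓ P ≤ centralizerIn S S) {α : MulAut P} (hα : α ∈ F.autGroup P) :
    ∃ k ∈ fixSub P (centralizerIn S S), k * α ∈ extSub F P := by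
  obtain ⟨a, -, h2, h3⟩ := h.exists_normalizes hF hP hx hxA
  obtain ⟨k, hk, -, e⟩ := exists_mul_mem_extSub h.hS hF hP.2.1 (centralizerIn_le_of_centric hP.1)
    (K := fixSub P (centralizerIn S S))
    (fun b _ n hn => conj_mem_fixSub (fun y hy => h.af_mem_cen hP hx hxA hna _ hy) hn) h2 h3
    (fun y hy => by rw [af_cAut _ (cen_le_ess hP hy), conj_cen h2.1 hy]) hα
  exact ⟨k, hk, e⟩

theorem exists_top_on_cen (hAe : ¬ F.IsEssential p A) : ∀ R f, Mor F R f →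
    centralizerIn S S ≤ R → p * Nat.card (centralizerIn S S) < Nat.card R →
      ∃ β ∈ F.autGroup S, ∀ z ∈ centralizerIn S S, f z = af β z := by
  refine alperin_induction' h.hS hF _ ?_ ?_ (fun α hα _ _ => ⟨α, hα, fun _ _ => rfl⟩) ?_
  · intro P Q f g hf hC hQ e h1 h2
    obtain ⟨β, hβ, e'⟩ := hC (h1.trans hQ) (h2.trans_le (card_le_of_le' hf.le hQ))
    exact ⟨β, hβ, fun z hz => (e z (h1 hz)).symm.trans (e' z hz)⟩
  · intro P Q f g hf hC hg hC' hm h1 h2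
    obtain ⟨β, hβ, e⟩ := hC h1 h2
    obtain ⟨γ, hγ, e'⟩ := hC' (fun z hz => by
      have := hm _ (h1 (af_mem_centralizerIn β⁻¹ hz))
      rwa [e _ (af_mem_centralizerIn β⁻¹ hz), af_af_inv] at this)
      (h2.trans_le (hf.card_img ▸ card_le_of_le' hg.le (img_le_iff.2 hm)))
    exact ⟨γ * β, mul_mem hγ hβ, fun z hz => by
      simp only [af_mul_apply, e z hz, e' _ (af_mem_centralizerIn β hz)]⟩
  · intro P hP _ hext α hα h1 h2
    obtain ⟨x, hx, hxA⟩ := h.exists_notMem hP fun e => hAe (e ▸ hP)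
    have hna : ¬ A ⊓ P ≤ centralizerIn S S := fun hab => by
      rw [h.card_eq hP.1.1 fun e => hxA (e hx)] at h2
      exact (Nat.lt_of_mul_lt_mul_left h2).not_ge (card_le_of_le' (centralizerIn_le S S) hab)
    obtain ⟨k, hk, e⟩ := h.exists_fix hF hP hx hxA hna hα
    obtain ⟨β, hβ, e'⟩ := hext _ e h1 h2
    exact ⟨β, hβ, fun z hz => by
      rw [← e' z hz, af_mul_apply, hk _ (h.af_mem_cen hP hx hxA hna α hz)]⟩

theorem exists_inv (hAe : ¬ F.IsEssential p A) {P : Subgroup Ω} (hP : F.IsEssential p P) {x : Ω}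
    (hx : x ∈ P) (hxA : x ∉ A) (hab : A ⊓ P ≤ centralizerIn S S) {a : Ω} (ha : a ∈ A)
    (hn : a ∈ normalizerIn S P) (haP : a ∉ P) {α : MulAut P} (hα : α ∈ F.autGroup P)
    (hα' : α ∉ extSub F P) : ∃ β ∈ F.autGroup S,
      (∀ c ∈ centralizerIn S S ⊓ ⁅S, S⁆, af β c = c⁻¹) ∧ ∀ c ∈ centralizerIn S S,
        ∃ c₀ ∈ centralizerIn S S, af β c₀ = c₀ ∧ af (α * cAut P a hn.2 * α⁻¹) c₀ = c₀ ∧
          c₀⁻¹ * c ∈ centralizerIn S S ⊓ ⁅S, S⁆ := by
  have hPS := hP.1.1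
  have hZP := cen_le_ess hP
  have h0 := h.card_cen_inf.trans (h.relIndex_cen hF hP fun e => hxA (e ▸ hx))
  have := finite_of_le (inf_le_left.trans (centralizerIn_le S S) : _ ⊓ ⁅S, S⁆ ≤ S)
  set z := dc x a
  set u := cAut P a hn.2
  have hz : z ∈ centralizerIn S S ⊓ ⁅S, S⁆ :=
    ⟨hab ⟨h.dc_mem (hPS hx) ha, dc_mem_of_normalizer hx hn⟩,
      (h.mem_comm_iff (hPS hx) hxA).mpr ⟨a, ha, rfl⟩⟩
  have hzP := hZP hz.1
  have hzp : z ^ p = 1 := orderOf_dvd_iff_pow_eq_one.mp (h0 ▸ orderOf_dvd_natCard _ hz)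
  have hz0 : zpowers z = centralizerIn S S ⊓ ⁅S, S⁆ := eq_of_le_of_card_ge (zpowers_le.mpr hz) (by
    rw [h0, Nat.card_zpowers, orderOf_eq_prime hzp fun e =>
      haP (hZP ((h.dc_eq_one_iff (hPS hx) hxA ha).mp e))])
  have hfix : ∀ c ∈ P, af u c = c → c ∈ centralizerIn S S := fun c hc e => by
    by_contra hc'
    rw [af_cAut _ hc, mul_inv_eq_iff_eq_mul] at e
    exact haP (hZP (h.mem_cen (hPS hc) (fun e => hc' (hab ⟨e, hc⟩)) ha e.symm))
  have hu : u ∈ F.autGroup P := autInducedBy_le_autGroup F hPS (cAut_mem hn.2 hn.1)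
  have htv := h.cAut_mem_tv2 (W := zpowers z) hPS (hz0.le.trans (inf_le_left.trans h.cen_le))
    (fun y hy w hw => (conj_cen (hPS hy) (hz0.le hw).1).symm ▸ hw) hx hxA ha hn (mem_zpowers z)
  have hy : af α z ∉ centralizerIn S S := fun e => haP (h.mem_of_dc_cenInf hF hP hx hxA
    (Subgroup.inv_mem _ hα) (fun e => hα' (inv_mem_iff.mp e)) ha ⟨hz.1, hzP, by rwa [inv_inv]⟩)
  have hyp : af α z ^ p = 1 := by rw [← (mulOn_af α).map_pow hzP, hzp, (mulOn_af α).map_one]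
  obtain ⟨β, hβ, h1, -, h2, h3, h4⟩ := exists_inv_of_two_tv (p := p) (u := u) (u' := α * u * α⁻¹)
    (isMulCommutative_iff_forall.mp (h.gen hPS hx hxA ▸ isMulCommutative_sup_zpowers
      ((isMulCommutative_iff_forall (A := A ⊓ P)).mpr fun b hb c hc => h.comm b hb.1 c hc.1)
        fun b hb => ((hab hb).2 x (hPS hx)).symm)) hzP (af_mem α hzP) hzp hyp htv.2
    (fun c hc => by
      obtain ⟨k, hk⟩ := htv.2 _ (af_mem α⁻¹ hc)
      refine ⟨k, ?_⟩
      simp only at hk ⊢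
      rw [← (mulOn_af α).map_zpow hzP, hk, (mulOn_af α).map_mul (P.inv_mem (af_mem _ hc))
        (af_mem _ (af_mem _ hc)), (mulOn_af α).map_inv (af_mem _ hc), af_af_inv, af_mul_apply,
        af_mul_apply])
    (htv.1 z (mem_zpowers z))
    (by rw [af_mul_apply, af_mul_apply, af_inv_af, htv.1 z (mem_zpowers z)])
    (fun e => hy (hfix _ (af_mem α hzP) e))
    (fun e => haP (h.mem_of_dc_cenInf hF hP hx hxA hα hα' ha ⟨hz.1, hzP, hfix (af α⁻¹ z) (af_mem _ hzP)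
      (by conv_rhs => rw [← e, af_mul_apply, af_mul_apply, af_inv_af])⟩))
  obtain ⟨γ, hγ, e1, -⟩ := exists_ext_of_conj h.hS hF hP.1 (g := β) ((closure_le _).mpr (by
    rintro _ (rfl | rfl)
    exacts [hu, mul_mem (mul_mem hα hu) (Subgroup.inv_mem _ hα)]) hβ) hn (k := 1) (by
      rw [h2, mul_inv_cancel_right, pow_one, inv_mul_cancel]; exact one_mem _)
  have hR : P ⊔ zpowers a ≤ S := sup_le hPS (zpowers_le.mpr hn.1)
  obtain ⟨β', hβ', e2⟩ := h.exists_top_on_cen hF hAe _ _ (mor_af hR hγ) (hZP.trans le_sup_left) (by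
    rw [← le_antisymm hab (le_inf h.cen_le hZP), ← h.card_eq hPS fun e => hxA (e hx)]
    exact card_lt_of_lt' hR (lt_of_le_not_ge le_sup_left
      fun e => haP (e (mem_sup_right (mem_zpowers a)))))
  have e3 : ∀ c ∈ centralizerIn S S, af β' c = af β c := fun c hc => by
    rw [← e2 c hc, e1 c (hZP hc)]
  refine ⟨β', hβ', fun c hc => ?_, fun c hc => ?_⟩
  · obtain ⟨k, rfl⟩ := hz0.ge hc
    rw [e3 _ hc.1, (mulOn_af β).map_zpow hzP, h1, inv_zpow]
  · obtain ⟨m, n, c₀, h5, h6, h7, rfl⟩ := h4 c (hZP hc)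
    have h8 := hfix c₀ h5 h6
    refine ⟨c₀, h8, by rw [e3 _ h8, h3 _ h5 h6 h7], h7, ?_⟩
    have h9 : af α z ^ n = 1 := by
      by_contra h9
      obtain ⟨i, hi⟩ := exists_pow_eq_of_mem_zpowers hyp ⟨n, rfl⟩ h9
      exact hy (hi ▸ pow_mem ((Subgroup.mul_mem_cancel_left _
        (mul_mem h8 ((centralizerIn S S).zpow_mem hz.1 m))).mp hc) i)
    rw [h9, mul_one, inv_mul_cancel_left]
    exact zpow_mem hz m

theorem isNormal_cenFix (hp2 : p ≠ 2) (hAe : ¬ F.IsEssential p A) : F.IsNormal (cenFix F) := by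
  refine isNormal_of_stronglyClosed h.hS hF (stronglyClosed_of_extSub h.hS hF (fun z hz => hz.1.1)
    (fun α hα x hx => af_mem_cenFix hα hx) fun P hP α hα => ?_) fun P hP z hz => cen_le_ess hP hz.1
  obtain ⟨x, hx, hxA⟩ := h.exists_notMem hP fun e => hAe (e ▸ hP)
  by_cases hab : A ⊓ P ≤ centralizerIn S S
  swap
  · obtain ⟨k, hk, e⟩ := h.exists_fix hF hP hx hxA hab hα
    exact ⟨k, fun y _ hy => by rwa [Subgroup.inv_mem _ hk y hy.1], e⟩
  by_cases hα' : α ∈ extSub F P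
  · exact ⟨1, fun y _ hy => by simpa using hy, by simpa using hα'⟩
  obtain ⟨a, ha, hn, haP⟩ := h.exists_normalizes hF hP hx hxA
  obtain ⟨β, hβ, h1, h2⟩ := h.exists_inv hF hAe hP hx hxA hab ha hn haP hα hα'
  have := finite_mulAut hP.1.1
  have hu := cAut_mem hn.2 hn.1
  have hT := sylIn_of_fn h.hS hF hP.2.1
  have h3 : ∀ {c₀ c : Ω}, c ∈ centralizerIn S S → c₀ ∈ centralizerIn S S → af β c₀ = c₀ →
      c₀⁻¹ * c ∈ centralizerIn S S ⊓ ⁅S, S⁆ → c⁻¹ * af β c = ((c₀⁻¹ * c) ^ 2)⁻¹ :=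
    fun {c₀ c} hc h4 h5 h6 => by
      conv_lhs => rw [← mul_inv_cancel_left c₀ c, (mulOn_af β).map_mul h4.1 h6.1.1, h5, h1 _ h6]
      rw [pow_two]; group
  have hD : β ∈ cenTriv F := ⟨hβ, fun c hc => by
    obtain ⟨c₀, h4, h5, -, h6⟩ := h2 c hc
    rw [h3 hc h4 h5 h6]
    exact Subgroup.inv_mem _ (pow_mem h6 2)⟩
  obtain ⟨k, hk, e⟩ := (hT.mono (C := F.autGroup P ⊓ fixSub P (cenFix F)) (le_inf hT.1
    fun t ht y hy => by
      obtain ⟨s, hs, es⟩ := mem_autInducedBy.mp ht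
      rw [es y (cen_le_ess hP hy.1), conj_cen hs hy.1]) inf_le_left).exists_conj
    (C := zpowers (α * cAut P a hn.2 * α⁻¹))
    ((hT.conj hα).2.1.to_le (zpowers_le.mpr ⟨_, hu, rfl⟩)) (zpowers_le.mpr
      ⟨mul_mem (mul_mem hα (hT.1 hu)) (Subgroup.inv_mem _ hα), fun y hy => by
        obtain ⟨c₀, h4, h5, h6, h7⟩ := h2 y hy.1
        have h8 := h3 hy.1 h4 h5 h7
        rw [hy.2 β hD, inv_mul_cancel, eq_comm, inv_eq_one] at h8
        rwa [← inv_mul_eq_one.mp (eq_one_of_pow_coprime h.hS h7.1.1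
          ((Nat.coprime_primes Nat.prime_two hp.out).mpr hp2.symm) h8)]⟩)
  refine ⟨k, fun y _ hy => by rwa [Subgroup.inv_mem _ hk.2 y hy], mem_extSub_of_conj h.hS hF hP.2.1
    (mul_mem hk.1 hα) hu (fun e => haP ((cAut_mem_Inn_iff (centralizerIn_le_of_centric hP.1)
      hP.1.1 hn).mp e)) ?_⟩
  simpa [mul_assoc] using e _ (mem_zpowers _)

theorem exists_ab (hcore : F.core = ⊥) (hAe : ¬ F.IsEssential p A) :
    ∃ P, F.IsEssential p P ∧ A ⊓ P ≤ centralizerIn S S := by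
  by_contra hc
  push Not at hc
  have h1 := H93.le_core (isNormal_of_essential h.hS hF (Q := centralizerIn S S) (by
    rintro P (rfl | hP)
    · exact ⟨centralizerIn_le _ _, fun α _ x hx => af_mem_centralizerIn α hx⟩
    · obtain ⟨x, hx, hxA⟩ := h.exists_notMem hP fun e => hAe (e ▸ hP)
      exact ⟨cen_le_ess hP, fun α _ z hz => h.af_mem_cen hP hx hxA (hc P hP) α hz⟩))
  have : Nontrivial S := by
    by_contra hn
    have := not_nontrivial_iff_subsingleton.mp hn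
    exact h.na ⟨⟨fun a b => Subsingleton.elim _ _⟩⟩
  obtain ⟨⟨z, hz⟩, h2⟩ := (nontrivial_iff_exists_ne 1).mp h.hS.center_nontrivial
  rw [← centralizerIn_subgroupOf] at hz
  exact h2 (Subtype.ext (Subtype.ext (mem_bot.mp (hcore ▸ h1 hz))))

theorem cen_le_comm (hp2 : p ≠ 2) (hcore : F.core = ⊥) (hAe : ¬ F.IsEssential p A)
    {P : Subgroup Ω} (hP : F.IsEssential p P) (hab : A ⊓ P ≤ centralizerIn S S) :
    centralizerIn S S ≤ ⁅S, S⁆ := fun c hc => by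
  obtain ⟨x, hx, hxA⟩ := h.exists_notMem hP fun e => hAe (e ▸ hP)
  obtain ⟨a, ha, hn, haP⟩ := h.exists_normalizes hF hP hx hxA
  obtain ⟨α, hα, hα'⟩ := SetLike.not_le_iff_exists.mp ((isEssential_iff h.hS hF).mp hP).2.2
  obtain ⟨β, hβ, h1, h2⟩ := h.exists_inv hF hAe hP hx hxA hab ha hn haP hα hα'
  obtain ⟨c₀, h4, h5, -, h6⟩ := h2 c hc
  have h7 : c₀ = 1 := mem_bot.mp (hcore ▸ H93.le_core (h.isNormal_cenFix hF hp2 hAe)
    ⟨h4, fun δ hδ => fix_of_cenTriv h.hS hF hp2 hβ hδ h1 h4 h5⟩)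
  simpa [h7] using h6.2

end AbI

end H11
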