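/- The automorphism group `W` of the lattice `E8` (construction A from the extended Hamming code):
orthogonal rational matrices, sign changes, permutations, reflections. -/
import Cfsg.Agent.H72.Perm
import Cfsg.Agent.H72.Orbit

set_option autoImplicit false

open Matrix

namespace H11.E8

abbrev M8 : Type := Matrix (Fin 8) (Fin 8) ℚ
abbrev Z8 : Type := Matrix (Fin 8) (Fin 8) ℤ

/-- an integral matrix as a rational one -/
def cz (A : Z8) : M8 := A.map (Int.castRingHom ℚ)

theorem cz_apply (A : Z8) (i j : Fin 8) : cz A i j = (A i j : ℚ) := rfl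
theorem cz_mul (A B : Z8) : cz (A * B) = cz A * cz B := Matrix.map_mul
theorem cz_one : cz 1 = 1 := Matrix.map_one _ (map_zero _) (map_one _)
theorem cz_transpose (A : Z8) : cz Aᵀ = (cz A)ᵀ := rfl
theorem cz_smul (n : ℤ) (A : Z8) : cz (n • A) = (n : ℚ) • cz A := by
  ext i j; rw [Matrix.smul_apply, cz_apply, cz_apply, Matrix.smul_apply]; simp
theorem cz_inj : Function.Injective cz := fun A B h => by
  ext i j
  exact_mod_cast (show (A i j : ℚ) = B i j from congrFun (congrFun h i) j)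

/-- the columns are simple roots (of squared length four), numbered as in `CoxeterMatrix.E₈` -/
def Pz : Z8 := !![2, 0, -1, 0, 0, 0, 0, 0; 0, 2, 0, -1, 0, 0, 0, 0; 0, 0, 1, 0, 0, -1, 0, 0;
  0, 0, 0, 1, -2, 1, 0, 0; 0, 0, 1, -1, 0, 1, 0, -1; 0, 0, 0, 0, 0, 1, -2, 1;
  0, 0, 1, -1, 0, 0, 0, 1; 0, 0, 0, 0, 0, 0, 0, 1]
/-- the Cartan matrix -/
def Cz : Z8 := !![2, 0, -1, 0, 0, 0, 0, 0; 0, 2, 0, -1, 0, 0, 0, 0; -1, 0, 2, -1, 0, 0, 0, 0;
  0, -1, -1, 2, -1, 0, 0, 0; 0, 0, 0, -1, 2, -1, 0, 0; 0, 0, 0, 0, -1, 2, -1, 0;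
  0, 0, 0, 0, 0, -1, 2, -1; 0, 0, 0, 0, 0, 0, -1, 2]
/-- its inverse -/
def Ci : Z8 := !![4, 5, 7, 10, 8, 6, 4, 2; 5, 8, 10, 15, 12, 9, 6, 3; 7, 10, 14, 20, 16, 12, 8, 4;
  10, 15, 20, 30, 24, 18, 12, 6; 8, 12, 16, 24, 20, 15, 10, 5; 6, 9, 12, 18, 15, 12, 8, 4;
  4, 6, 8, 12, 10, 8, 6, 3; 2, 3, 4, 6, 5, 4, 3, 2]

theorem Pz_gram : Pzᵀ * Pz = (2 : ℤ) • Cz := by decide +kernel
theorem Cz_Ci : Cz * Ci = 1 := by decide +kernel
theorem Ci_Cz : Ci * Cz = 1 := by decide +kernel
theorem Pz_Ci : Pz * Ci * Pzᵀ = (2 : ℤ) • (1 : Z8) := by decide +kernel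

/-- the basis of the lattice -/
def P : M8 := cz Pz

theorem P_gram : Pᵀ * P = (2 : ℚ) • cz Cz := by
  rw [P, ← cz_transpose, ← cz_mul, Pz_gram, cz_smul]; rfl

theorem P_Ci : P * cz Ci * Pᵀ = (2 : ℚ) • (1 : M8) := by
  rw [P, ← cz_transpose, ← cz_mul, ← cz_mul, Pz_Ci, cz_smul, cz_one]; rfl

/-- orthogonal matrices preserving the lattice -/
def WS : Submonoid M8 where
  carrier := {g | gᵀ * g = 1 ∧ ∃ a : Z8, Pᵀ * g * P = (2 : ℚ) • cz a}
  one_mem' := ⟨by simp, Cz, by rw [mul_one, P_gram]⟩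
  mul_mem' := by
    rintro g h ⟨g1, a, g2⟩ ⟨h1, b, h2⟩
    refine ⟨by rw [transpose_mul, mul_assoc, ← mul_assoc gᵀ, g1, one_mul, h1], a * Ci * b, ?_⟩
    have e : (2 : ℚ) • (Pᵀ * (g * h) * P) = Pᵀ * g * P * cz Ci * (Pᵀ * h * P) := by
      calc _ = Pᵀ * g * ((2 : ℚ) • (1 : M8)) * h * P := by simp [mul_assoc]
        _ = _ := by rw [← P_Ci]; simp only [mul_assoc]
    rw [g2, h2] at e
    refine smul_right_injective M8 (two_ne_zero (α := ℚ)) (e.trans ?_)
    simp [cz_mul]

/-- the Weyl group of type `E8` -/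
def W : Type := WS

instance : Monoid W := inferInstanceAs (Monoid WS)

/-- the matrix of an element -/
def W.m (g : W) : M8 := g.1

theorem W.orth (g : W) : g.mᵀ * g.m = 1 := g.2.1
theorem W.orth' (g : W) : g.m * g.mᵀ = 1 := mul_eq_one_comm.1 g.orth
theorem W.int (g : W) : ∃ a : Z8, Pᵀ * g.m * P = (2 : ℚ) • cz a := g.2.2
theorem W.ext {g h : W} (e : g.m = h.m) : g = h := Subtype.ext e
@[simp] theorem m_mul (g h : W) : (g * h).m = g.m * h.m := rfl
@[simp] theorem m_one : (1 : W).m = 1 := rfl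

/-- an element from its matrix -/
def W.mk (g : M8) (h1 : gᵀ * g = 1) (h2 : ∃ a : Z8, Pᵀ * g * P = (2 : ℚ) • cz a) : W := ⟨g, h1, h2⟩
@[simp] theorem m_mk (g : M8) (h1 h2) : (W.mk g h1 h2).m = g := rfl

instance : Group W :=
  { (inferInstance : Monoid W) with
    inv := fun g => W.mk g.mᵀ (by rw [transpose_transpose, g.orth']) (by
      obtain ⟨a, h⟩ := g.int
      refine ⟨aᵀ, ?_⟩
      have := congrArg transpose h
      rwa [transpose_mul, transpose_mul, transpose_transpose, ← mul_assoc, transpose_smul] at this)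
    inv_mul_cancel := fun g => W.ext g.orth }

@[simp] theorem m_inv (g : W) : (g⁻¹).m = g.mᵀ := rfl

/-- the inclusion -/
def W.hom : W →* M8 := ⟨⟨W.m, rfl⟩, fun _ _ => rfl⟩

/-- the matrix in the basis of simple roots is integral -/
theorem W.exists_int (g : W) : ∃ h : Z8, g.m * P = P * cz h := by
  obtain ⟨a, e⟩ := g.int
  refine ⟨Ci * a, smul_right_injective M8 (two_ne_zero (α := ℚ)) ?_⟩
  calc (2 : ℚ) • (g.m * P) = ((2 : ℚ) • (1 : M8)) * g.m * P := by simp
    _ = P * cz Ci * (Pᵀ * g.m * P) := by rw [← P_Ci]; simp only [mul_assoc]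
    _ = _ := by rw [e, cz_mul]; simp [mul_assoc]

/-- determinant and trace -/
def dt (g : W) : ℚ := g.m.det
def tr (g : W) : ℚ := g.m.trace

theorem dt_mul (g h : W) : dt (g * h) = dt g * dt h := det_mul _ _
theorem dt_one : dt 1 = 1 := det_one
theorem dt_inv (g : W) : dt g⁻¹ = dt g := det_transpose _
theorem dt_sq (g : W) : dt g * dt g = 1 := by
  have := congrArg det g.orth
  rwa [det_mul, det_transpose, det_one] at this
theorem dt_cases (g : W) : dt g = 1 ∨ dt g = -1 := mul_self_eq_one_iff.1 (dt_sq g)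
theorem dt_conj (g h : W) : dt (g * h * g⁻¹) = dt h := by
  rw [dt_mul, dt_mul, dt_inv, mul_right_comm, dt_sq, one_mul]
theorem tr_conj (g h : W) : tr (g * h * g⁻¹) = tr h := by
  rw [tr, m_mul, trace_mul_comm, ← m_mul, ← mul_assoc, inv_mul_cancel, one_mul]; rfl

/-- the rotation subgroup -/
def W' : Subgroup W where
  carrier := {g | dt g = 1}
  one_mem' := dt_one
  mul_mem' := fun {a b} ha hb => by
    change dt _ = 1 at *
    rw [dt_mul, ha, hb, one_mul]
  inv_mem' := fun {a} ha => (dt_inv a).trans ha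

theorem mem_W' {g : W} : g ∈ W' ↔ dt g = 1 := Iff.rfl

instance : W'.Normal := ⟨fun n hn g => (dt_conj g n).trans hn⟩

/-! ### sign changes -/

def sg (x : ℕ) (i : Fin 8) : ℤ := if x.testBit i then -1 else 1

theorem sg_xor (x y : ℕ) (i : Fin 8) : sg (x ^^^ y) i = sg x i * sg y i := by
  simp only [sg, Nat.testBit_xor]
  cases x.testBit i <;> cases y.testBit i <;> simp

theorem sg_sq (x : ℕ) (i : Fin 8) : sg x i * sg x i = 1 := by
  unfold sg; split <;> rfl

/-- the sign change on the mask `x` -/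
def ep (x : ℕ) : W := W.mk (diagonal fun i => (sg x i : ℚ))
  (by rw [diagonal_transpose, diagonal_mul_diagonal, ← diagonal_one]
      exact congrArg diagonal (funext fun i => by exact_mod_cast sg_sq x i))
  ⟨Cz - Pzᵀ * diagonal (fun i : Fin 8 => if x.testBit i then 1 else 0) * Pz, by
    have e : diagonal (fun i => (sg x i : ℚ)) =
        1 - (2 : ℚ) • cz (diagonal fun i : Fin 8 => if x.testBit i then 1 else 0) := by
      ext i j
      by_cases h : i = j
      · subst h; simp only [sg, cz_apply, diagonal_apply_eq, Matrix.sub_apply, one_apply_eq,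
          Matrix.smul_apply]
        split <;> norm_num
      · simp [cz_apply, h]
    have e2 : ∀ A B : Z8, cz (A - B) = cz A - cz B := fun A B => by ext i j; simp [cz_apply]
    rw [e, e2, cz_mul, cz_mul, smul_sub, ← P_gram, mul_sub, sub_mul, mul_one, cz_transpose]
    simp [P]⟩

theorem m_ep (x : ℕ) : (ep x).m = diagonal fun i => (sg x i : ℚ) := rfl

theorem ep_xor (x y : ℕ) : ep (x ^^^ y) = ep x * ep y := W.ext (by
  rw [m_mul, m_ep, m_ep, m_ep, diagonal_mul_diagonal]
  exact congrArg diagonal (funext fun i => by rw [sg_xor]; push_cast; rfl))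

theorem ep_zero : ep 0 = 1 := W.ext (by
  rw [m_ep, m_one, ← diagonal_one]; exact congrArg diagonal (funext fun i => by simp [sg]))

theorem ep_sq (x : ℕ) : ep x * ep x = 1 := by rw [← ep_xor, Nat.xor_self, ep_zero]
theorem ep_inv (x : ℕ) : (ep x)⁻¹ = ep x := inv_eq_of_mul_eq_one_right (ep_sq x)
theorem ep_comm (x y : ℕ) : ep x * ep y = ep y * ep x := by rw [← ep_xor, ← ep_xor, Nat.xor_comm]

theorem ep_inj {x y : ℕ} (hx : x < 256) (hy : y < 256) (h : ep x = ep y) : x = y := by
  refine Nat.eq_of_testBit_eq fun i => ?_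
  rcases lt_or_ge i 8 with hi | hi
  · have := congrArg (fun g : W => g.m ⟨i, hi⟩ ⟨i, hi⟩) h
    simp only [m_ep, diagonal_apply_eq, sg] at this
    revert this
    cases x.testBit i <;> cases y.testBit i <;> norm_num
  · have := Nat.pow_le_pow_right (n := 2) (by norm_num) hi
    rw [Nat.testBit_lt_two_pow (by omega), Nat.testBit_lt_two_pow (by omega)]

/-- the central involution -/
def neg : W := ep 255

theorem m_neg : neg.m = -1 := by
  ext i j
  by_cases h : i = j
  · subst h; rw [neg, m_ep, diagonal_apply_eq]; fin_cases i <;> simp [sg] <;> decide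
  · simp [neg, m_ep, h]

theorem neg_comm (g : W) : neg * g = g * neg := W.ext (by simp [m_neg])
theorem neg_sq : neg * neg = 1 := ep_sq _
theorem neg_ne_one : neg ≠ 1 := fun h => absurd (ep_inj (by norm_num) (by norm_num)
  (h.trans ep_zero.symm)) (by norm_num)
theorem dt_neg : dt neg = 1 := by rw [dt, m_neg, det_neg]; norm_num
theorem tr_neg_mul (g : W) : tr (neg * g) = - tr g := by simp [tr, m_neg]

/-- the number of points of a mask -/
def wt (x : ℕ) : ℕ := ((List.range 8).filter fun i => H72.tb x i).length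

theorem tr_ep {x : ℕ} (hx : x < 256) : tr (ep x) = 8 - 2 * (wt x : ℚ) := by
  have h : ∀ x < 256, ∑ i, sg x i = 8 - 2 * (wt x : ℤ) := by decide +kernel
  rw [tr, m_ep, trace_diagonal]
  exact_mod_cast congrArg (Int.cast : ℤ → ℚ) (h x hx)

theorem dt_ep {x : ℕ} (hx : x < 256) : dt (ep x) = if wt x % 2 = 0 then 1 else -1 := by
  have h : ∀ x < 256, ∏ i, sg x i = if wt x % 2 = 0 then 1 else -1 := by decide +kernel
  rw [dt, m_ep, det_diagonal]
  exact_mod_cast congrArg (Int.cast : ℤ → ℚ) (h x hx)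

/-- membership in the extended Hamming code -/
def isH (x : ℕ) : Bool := [0, 15, 51, 60, 85, 90, 102, 105, 150, 153, 165, 170, 195, 204, 240,
  255].any fun y => Nat.beq x y

/-! ### coded matrices: twice the matrix is integral -/

def okZ (A : Z8) : Prop := Aᵀ * A = (4 : ℤ) • (1 : Z8) ∧ ∀ i j, (Pzᵀ * A * Pz) i j % 4 = 0

instance (A : Z8) : Decidable (okZ A) := inferInstanceAs (Decidable (_ ∧ _))

/-- the element with matrix `A / 2` -/
def mkZ (A : Z8) (h : okZ A) : W := W.mk ((2⁻¹ : ℚ) • cz A)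
  (by rw [transpose_smul, smul_mul_smul_comm, ← cz_transpose, ← cz_mul, h.1, cz_smul, cz_one,
        smul_smul]; norm_num)
  ⟨fun i j => (Pzᵀ * A * Pz) i j / 4, by
    rw [Matrix.mul_smul, Matrix.smul_mul, P, ← cz_transpose, ← cz_mul, ← cz_mul]
    ext i j
    obtain ⟨c, hc⟩ := Int.dvd_of_emod_eq_zero (h.2 i j)
    show (2⁻¹ : ℚ) * (((Pzᵀ * A * Pz) i j : ℤ) : ℚ) = 2 * (((Pzᵀ * A * Pz) i j / 4 : ℤ) : ℚ)
    rw [hc, Int.mul_ediv_cancel_left c (show (4 : ℤ) ≠ 0 by norm_num)]
    push_cast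
    ring⟩

theorem m_mkZ (A : Z8) (h : okZ A) : (mkZ A h).m = (2⁻¹ : ℚ) • cz A := rfl

theorem mkZ_mul {A B C : Z8} (hA : okZ A) (hB : okZ B) (hC : okZ C) (h : A * B = (2 : ℤ) • C) :
    mkZ A hA * mkZ B hB = mkZ C hC := W.ext (by
  rw [m_mul, m_mkZ, m_mkZ, m_mkZ, smul_mul_smul_comm, ← cz_mul, h, cz_smul, smul_smul]; norm_num)

theorem mkZ_mul_eq {A B C D : Z8} (hA : okZ A) (hB : okZ B) (hC : okZ C) (hD : okZ D)
    (h : A * B = C * D) : mkZ A hA * mkZ B hB = mkZ C hC * mkZ D hD := W.ext (by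
  simp only [m_mul, m_mkZ, smul_mul_smul_comm, ← cz_mul, h])

theorem eq_mkZ {g : W} {A : Z8} (h : okZ A) (e : ∀ i j, 2 * g.m i j = A i j) : g = mkZ A h :=
  W.ext (by ext i j; rw [m_mkZ, Matrix.smul_apply, cz_apply, ← e, smul_eq_mul]; ring)

/-- the reflection in the `i`-th simple root -/
def srZ (i : Fin 8) : Z8 := fun j k => (if j = k then 2 else 0) - Pz j i * Pz k i

theorem ok_srZ : ∀ i, okZ (srZ i) := by decide +kernel

def sr (i : Fin 8) : W := mkZ (srZ i) (ok_srZ i)

/-! ### permutations of the coordinates -/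

/-- image of the point `i` under the packed map `a` (three bits per point) -/
def ap (a i : ℕ) : ℕ := Nat.land (Nat.shiftRight a (Nat.mul 3 i)) 7

/-- image of a mask -/
def act (a x : ℕ) : ℕ :=
  H72.orN (fun i => Nat.shiftLeft (Nat.land (Nat.shiftRight x i) 1) (ap a i)) 8

theorem ap_lt (a i : ℕ) : ap a i < 8 := Nat.lt_succ_of_le Nat.and_le_right

theorem testBit_act (a x j : ℕ) :
    (act a x).testBit j = true ↔ ∃ i < 8, x.testBit i = true ∧ ap a i = j := by
  rw [act, H72.testBit_orN]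
  refine exists_congr fun i => and_congr_right fun _ => ?_
  show ((x >>> i &&& 1) <<< ap a i).testBit j = true ↔ _
  rw [Nat.testBit_shiftLeft, Nat.testBit_and, Nat.testBit_shiftRight]
  have h1 : (1 : ℕ).testBit (j - ap a i) = decide (j - ap a i = 0) := by
    have := Nat.testBit_two_pow (n := 0) (m := j - ap a i)
    simpa [eq_comm] using this
  simp only [h1, Bool.and_eq_true, decide_eq_true_eq, ge_iff_le]
  constructor
  · rintro ⟨h1, h2, h3⟩
    rw [h3] at h2
    exact ⟨h2, by omega⟩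
  · rintro ⟨h2, rfl⟩
    simpa using h2

theorem act_lt (a x : ℕ) : act a x < 256 := Nat.lt_pow_two_of_testBit (n := 8) _ fun j hj => by
  rw [← Bool.not_eq_true, testBit_act]
  rintro ⟨i, -, -, rfl⟩
  exact absurd (ap_lt a i) (by omega)

def pmZ (a : ℕ) : Z8 := fun i j => if ap a j = i then 2 else 0

/-- `a` codes an affine permutation of the eight points -/
def okA (a : ℕ) : Bool := Nat.beq (act a 255) 255 && isH (act a 15) && isH (act a 51) &&
  isH (act a 85)

theorem okA_inj {a : ℕ} (h : okA a = true) {i j : ℕ} (hi : i < 8) (hj : j < 8)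
    (e : ap a i = ap a j) : i = j := by
  simp only [okA, Bool.and_eq_true, Nat.beq_eq] at h
  have hs : Function.Surjective fun i : Fin 8 => (⟨ap a i, ap_lt a i⟩ : Fin 8) := fun k => by
    obtain ⟨i, h1, -, h2⟩ := (testBit_act a 255 k).1 (by
      rw [h.1.1.1]; fin_cases k <;> rfl)
    exact ⟨⟨i, h1⟩, Fin.ext h2⟩
  exact congrArg Fin.val (Finite.injective_iff_surjective.2 hs (a₁ := ⟨i, hi⟩) (a₂ := ⟨j, hj⟩)
    (Fin.ext e))

theorem testBit_act_ap {a : ℕ} (h : okA a = true) (x : ℕ) {j : ℕ} (hj : j < 8) :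
    (act a x).testBit (ap a j) = x.testBit j := by
  rw [Bool.eq_iff_iff, testBit_act]
  exact ⟨fun ⟨i, h1, h2, h3⟩ => okA_inj h h1 hj h3 ▸ h2, fun h1 => ⟨j, hj, h1, rfl⟩⟩

/-- the permutation coded by `a` -/
noncomputable def pe {a : ℕ} (h : okA a = true) : Equiv.Perm (Fin 8) :=
  Equiv.ofBijective (fun i => ⟨ap a i, ap_lt a i⟩) (Finite.injective_iff_bijective.1
    fun i j e => Fin.ext (okA_inj h i.2 j.2 (congrArg Fin.val e)))

theorem pe_val {a : ℕ} (h : okA a = true) (i : Fin 8) : (pe h i : ℕ) = ap a i := rfl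

theorem eq_of_bits {x y : ℕ} (hx : x < 256) (hy : y < 256)
    (h : ∀ i : Fin 8, x.testBit i = y.testBit i) : x = y := by
  refine Nat.eq_of_testBit_eq fun i => ?_
  rcases lt_or_ge i 8 with hi | hi
  · exact h ⟨i, hi⟩
  · have := Nat.pow_le_pow_right (n := 2) (by norm_num) hi
    rw [Nat.testBit_lt_two_pow (by omega), Nat.testBit_lt_two_pow (by omega)]

theorem xor_lt {x y : ℕ} (hx : x < 256) (hy : y < 256) : x ^^^ y < 256 :=
  Nat.xor_lt_two_pow (n := 8) hx hy

theorem act_xor {a : ℕ} (h : okA a = true) (x y : ℕ) : act a (x ^^^ y) = act a x ^^^ act a y :=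
  eq_of_bits (act_lt _ _) (xor_lt (act_lt _ _) (act_lt _ _)) fun i => by
    obtain ⟨j, rfl⟩ := (pe h).surjective i
    rw [Nat.testBit_xor, pe_val, testBit_act_ap h _ j.2, testBit_act_ap h _ j.2,
      testBit_act_ap h _ j.2, Nat.testBit_xor]

theorem act_full {a : ℕ} (h : okA a = true) : act a 255 = 255 := by
  simp only [okA, Bool.and_eq_true, Nat.beq_eq] at h; exact h.1.1.1

theorem act_zero (a : ℕ) : act a 0 = 0 := Nat.eq_of_testBit_eq fun j => by
  rw [Nat.zero_testBit, ← Bool.not_eq_true, testBit_act]; simp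

theorem isH_lt {x : ℕ} (h : isH x = true) : x < 256 := by
  simp only [isH, List.any_eq_true, Nat.beq_eq] at h
  obtain ⟨y, hy, rfl⟩ := h
  revert x; decide

theorem isH_xor {x y : ℕ} (hx : isH x = true) (hy : isH y = true) : isH (x ^^^ y) = true := by
  have h : ∀ x < 256, isH x = true → ∀ y < 256, isH y = true → isH (x ^^^ y) = true := by
    decide +kernel
  exact h x (isH_lt hx) hx y (isH_lt hy) hy

theorem isH_act {a x : ℕ} (h : okA a = true) (hx : isH x = true) : isH (act a x) = true := by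
  have h0 := act_full h
  have h' := h
  simp only [okA, Bool.and_eq_true] at h'
  obtain ⟨⟨⟨-, h1⟩, h2⟩, h3⟩ := h'
  have h4 : isH (act a 255) = true := by rw [h0]; rfl
  have h5 : isH (act a 0) = true := by rw [act_zero]; rfl
  have k : ∀ x < 256, isH x = true → ∃ p ∈ [0, 15], ∃ q ∈ [0, 51], ∃ r ∈ [0, 85], ∃ s ∈ [0, 255],
      x = p ^^^ q ^^^ r ^^^ s := by decide +kernel
  obtain ⟨p, hp, q, hq, r, hr, s, hs, rfl⟩ := k x (isH_lt hx) hx
  simp only [List.mem_cons, List.not_mem_nil, or_false] at hp hq hr hs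
  rw [act_xor h, act_xor h, act_xor h]
  refine isH_xor (isH_xor (isH_xor ?_ ?_) ?_) ?_
  · rcases hp with rfl | rfl <;> assumption
  · rcases hq with rfl | rfl <;> assumption
  · rcases hr with rfl | rfl <;> assumption
  · rcases hs with rfl | rfl <;> assumption

theorem pmZ_eq {a : ℕ} (h : okA a = true) (i j : Fin 8) :
    pmZ a i j = if pe h j = i then 2 else 0 := by
  simp only [pmZ, Fin.ext_iff, pe_val]

theorem ok_pmZ {a : ℕ} (h : okA a = true) : okZ (pmZ a) := by
  refine ⟨?_, fun j k => ?_⟩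
  · ext i j
    simp only [mul_apply, transpose_apply, pmZ_eq h, Matrix.smul_apply, one_apply]
    rw [Finset.sum_eq_single (pe h i) (fun b _ hb => by rw [if_neg hb.symm, zero_mul]) (by simp)]
    by_cases e : i = j
    · simp [e]
    · simp [e, Ne.symm e]
  · let c : Fin 8 → ℕ := ![0, 0, 85, 90, 0, 60, 0, 240]
    let b : ℕ → ℕ → ℤ := fun x i => if x.testBit i then 1 else 0
    have h1 : ∀ i k : Fin 8, Pz i k % 2 = b (c k) i % 2 := by decide +kernel
    have h2 : ∀ k, isH (c k) = true := by decide +kernel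
    have h3 : ∀ x < 256, isH x = true → ∀ j, ∑ i : Fin 8, b (c j) i * b x i ≡ 0 [ZMOD 2] := by
      decide +kernel
    have h4 : (Pzᵀ * pmZ a * Pz) j k = 2 * ∑ i, Pz (pe h i) j * Pz i k := by
      rw [mul_apply, Finset.mul_sum]
      refine Finset.sum_congr rfl fun i _ => ?_
      simp only [mul_apply, transpose_apply, pmZ_eq h]
      rw [Finset.sum_eq_single (pe h i) (fun b _ hb => by rw [if_neg hb.symm, mul_zero]) (by simp)]
      simp; ring
    have h5 : ∑ i, Pz (pe h i) j * Pz i k ≡ 0 [ZMOD 2] := by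
      refine Int.ModEq.trans ?_ (h3 _ (act_lt a (c k)) (isH_act h (h2 k)) j)
      rw [← Equiv.sum_comp (pe h) fun i : Fin 8 => b (c j) i * b (act a (c k)) i]
      refine Int.ModEq.sum fun i _ => Int.ModEq.mul (h1 _ _) ?_
      simp only [b, pe_val, testBit_act_ap h _ i.2]
      exact h1 i k
    obtain ⟨d, hd⟩ := Int.modEq_zero_iff_dvd.1 h5
    rw [h4, hd]; omega

/-- the permutation matrix -/
def pm (a : ℕ) : W := if h : okA a = true then mkZ (pmZ a) (ok_pmZ h) else 1

theorem pm_eq {a : ℕ} (h : okA a = true) : pm a = mkZ (pmZ a) (ok_pmZ h) := dif_pos h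

theorem m_pm {a : ℕ} (h : okA a = true) (i j : Fin 8) :
    (pm a).m i j = if pe h j = i then 1 else 0 := by
  rw [pm_eq h, m_mkZ, Matrix.smul_apply, cz_apply, pmZ_eq h]
  split <;> simp

theorem pm_conj {a : ℕ} (h : okA a = true) (x : ℕ) : pm a * ep x * (pm a)⁻¹ = ep (act a x) := by
  rw [mul_inv_eq_iff_eq_mul]
  refine W.ext ?_
  ext i j
  rw [m_mul, m_mul, m_ep, m_ep, mul_diagonal, diagonal_mul, m_pm h]
  split
  · next e => subst e; simp only [sg, pe_val, testBit_act_ap h _ j.2, one_mul, mul_one]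
  · simp

/-- the sign change as a coded matrix -/
def epZ (x : ℕ) : Z8 := fun i j => if i = j then 2 * sg x i else 0

theorem ep_eq {x : ℕ} (h : okZ (epZ x)) : ep x = mkZ (epZ x) h := eq_mkZ h fun i j => by
  rw [m_ep, epZ, diagonal_apply]
  split <;> simp

/-- the translation `i ↦ i xor 1` -/
def tau : ℕ := 0o67452301

theorem ok_tau : okA tau = true := by decide +kernel

/-- the identity -/
def idA : ℕ := 0o76543210

theorem ok_idA : okA idA = true := by decide +kernel

theorem pm_mul {a b c : ℕ} (ha : okA a = true) (hb : okA b = true) (hc : okA c = true)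
    (h : ∀ i < 8, ap c i = ap a (ap b i)) : pm a * pm b = pm c := W.ext (by
  ext i j
  rw [m_mul, mul_apply, Finset.sum_eq_single (pe hb j) (fun k _ hk => by
    rw [m_pm hb, if_neg hk.symm, mul_zero]) (by simp), m_pm hb, if_pos rfl, mul_one, m_pm ha,
    m_pm hc]
  simp only [Fin.ext_iff, pe_val, h j j.2])

theorem pm_id : pm idA = 1 :=
  left_eq_mul.1 (pm_mul ok_idA ok_idA ok_idA (by decide +kernel)).symm

theorem pm_ep {a : ℕ} (h : okA a = true) (x : ℕ) : pm a * ep x = ep (act a x) * pm a := by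
  rw [← pm_conj h, inv_mul_cancel_right]

theorem tr_ep_pm {a : ℕ} (h : okA a = true) (x : ℕ) :
    tr (ep x * pm a) = ((∑ i : Fin 8, if ap a i = i then sg x i else 0 : ℤ) : ℚ) := by
  rw [tr, m_mul, m_ep, trace]
  push_cast
  refine Finset.sum_congr rfl fun i _ => ?_
  rw [diag_apply, diagonal_mul, m_pm h]
  simp only [Fin.ext_iff, pe_val]
  split <;> simp

theorem dt_ep_one : dt (ep 1) = -1 := by rw [dt_ep (by norm_num)]; exact if_neg (by decide)

theorem pm_tau_sq : pm tau * pm tau = 1 :=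
  (pm_mul ok_tau ok_tau ok_idA (by decide +kernel)).trans pm_id

theorem dt_pm_tau : dt (pm tau) = 1 := by
  rw [← pm_mul (a := 0o45760132) (b := 0o45760132) (by decide +kernel) (by decide +kernel) ok_tau
    (by decide +kernel), dt_mul, dt_sq]

/-- an element with square `-1` -/
def J0 : W := ep 85 * pm tau

theorem J0_sq : J0 * J0 = neg := by
  rw [J0, mul_assoc, ← mul_assoc (pm tau), pm_ep ok_tau, mul_assoc, pm_tau_sq, mul_one, ← ep_xor]
  exact congrArg ep (by decide +kernel)

theorem dt_J0 : dt J0 = 1 := by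
  rw [J0, dt_mul, dt_pm_tau, dt_ep (by norm_num), if_pos (by decide), one_mul]

theorem sr_zero : sr 0 = ep 1 := ((ep_eq (by decide +kernel)).trans
  (eq_mkZ _ fun i j => by
    rw [m_mkZ, Matrix.smul_apply, cz_apply,
      show epZ 1 = srZ 0 by decide +kernel, smul_eq_mul]; ring)).symm

theorem sr_one : sr 1 = ep 2 := ((ep_eq (by decide +kernel)).trans
  (eq_mkZ _ fun i j => by
    rw [m_mkZ, Matrix.smul_apply, cz_apply,
      show epZ 2 = srZ 1 by decide +kernel, smul_eq_mul]; ring)).symm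

/-- a conjugating element may be taken in the rotation subgroup -/
theorem exists_rot (g : W) : ∃ g' : W, dt g' = 1 ∧ ∀ x, g' * ep x * g'⁻¹ = g * ep x * g⁻¹ := by
  rcases dt_cases g with h | h
  · exact ⟨g, h, fun _ => rfl⟩
  · refine ⟨g * ep 1, by rw [dt_mul, h, dt_ep_one]; norm_num, fun x => ?_⟩
    rw [mul_assoc g, ep_comm]; group

theorem exists_pm {a : ℕ} (h : okA a = true) :
    ∃ g : W, dt g = 1 ∧ ∀ x, g * ep x * g⁻¹ = ep (act a x) := by
  obtain ⟨g, h1, h2⟩ := exists_rot (pm a)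
  exact ⟨g, h1, fun x => (h2 x).trans (pm_conj h x)⟩

/-- an element commuting with the even sign changes is a sign change -/
theorem eq_ep_of_comm {g : W} (h : ∀ x < 256, wt x % 2 = 0 → g * ep x = ep x * g) :
    ∃ y < 256, g = ep y := by
  have h1 : ∀ i j : Fin 8, i ≠ j → g.m i j = 0 := fun i j hij => by
    have k : ∀ i j : Fin 8, i ≠ j → ∃ x ∈ [3, 5, 12, 17, 48, 80, 192],
        x < 256 ∧ wt x % 2 = 0 ∧ sg x i + sg x j = 0 := by
      decide +kernel
    obtain ⟨x, -, hx, hw, e⟩ := k i j hij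
    have := congrArg (fun w : W => w.m i j) (h x hx hw)
    simp only [m_mul, m_ep, mul_diagonal, diagonal_mul] at this
    have e1 : (sg x i : ℚ) + sg x j = 0 := by exact_mod_cast e
    have e2 : (sg x i : ℚ) * sg x i = 1 := by exact_mod_cast sg_sq x i
    linear_combination (-(sg x i : ℚ) / 2) * this + (g.m i j * sg x i / 2) * e1 - g.m i j * e2
  have h2 : ∀ i, g.m i i = 1 ∨ g.m i i = -1 := fun i => by
    have := congrFun (congrFun g.orth i) i
    rw [mul_apply, Finset.sum_eq_single i (fun b _ hb => by rw [h1 b i hb, mul_zero]) (by simp),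
      transpose_apply, one_apply_eq] at this
    exact mul_self_eq_one_iff.1 this
  have k : ∀ f : Fin 8 → Bool, ∃ y < 256, ∀ i : Fin 8, y.testBit i = f i := by decide +kernel
  obtain ⟨y, hy, e⟩ := k fun i => decide (g.m i i = -1)
  refine ⟨y, hy, W.ext ?_⟩
  ext i j
  rw [m_ep, diagonal_apply]
  split
  · next h => subst h; rcases h2 i with h | h <;> norm_num [sg, e, h]
  · next h => exact h1 i j h

/-- the centraliser of the rotation subgroup -/
theorem cenW {g : W} (h : ∀ y, dt y = 1 → g * y = y * g) : g = 1 ∨ g = neg := by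
  obtain ⟨y, hy, rfl⟩ := eq_ep_of_comm fun x hx e => h _ (by rw [dt_ep hx, if_pos e])
  have k : ∀ a, okA a = true → act a y = y := fun a ha => by
    obtain ⟨g, h1, h2⟩ := exists_pm ha
    refine ep_inj (act_lt _ _) hy ?_
    rw [← h2, ← h g h1, mul_inv_cancel_right]
  have k2 : ∀ y < 256, act tau y = y → act 0o54761032 y = y → act 0o32107654 y = y →
      y = 0 ∨ y = 255 := by decide +kernel
  rcases k2 y hy (k _ ok_tau) (k _ (by decide +kernel)) (k _ (by decide +kernel)) with rfl | rfl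
  exacts [Or.inl ep_zero, Or.inr rfl]

/-- a Sylow `2`-subgroup of the affine group -/
def T64 : List ℕ := [342391, 342846, 343525, 343980, 371070, 371511, 372204, 372645, 2177406,
  2177847, 2178540, 2178981, 2206071, 2206526, 2207205, 2207660, 4987255, 4987710, 4988389, 4988844,
  5015934, 5016375, 5017068, 5017509, 6822270, 6822711, 6823404, 6823845, 6850935, 6851390, 6852069,
  6852524, 9924691, 9925146, 9925825, 9926280, 9953370, 9953811, 9954504, 9954945, 11759706,
  11760147, 11760840, 11761281, 11788371, 11788826, 11789505, 11789960, 14569555, 14570010,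
  14570689, 14571144, 14598234, 14598675, 14599368, 14599809, 16404570, 16405011, 16405704,
  16406145, 16433235, 16433690, 16434369, 16434824]

theorem ok_T64 : ∀ a ∈ T64, okA a = true := by decide +kernel

end H11.E8
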