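/- Standard subgroups of type `2·Ω₈⁺(2)`: the statements of the jobs about the Weyl group `W` of
type `E8` (blueprint `STDO8.md`). -/
import Cfsg.Agent.H11.E8M
import Cfsg.Agent.H50.CoO8
import Cfsg.Agent.H55.Transport
import Cfsg.Agent.H56.OutD4

set_option autoImplicit false

open Cfsg H50.Co

namespace H11.E8

universe u

/-- reduction of the lattice modulo two -/
structure Bar (bar : W →* O8) : Prop where
  sur : Function.Surjective bar
  ker : ∀ g, bar g = 1 ↔ g = 1 ∨ g = neg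
  om : ∀ g, bar g ∈ Om ↔ dt g = 1
  sr : ∀ i, bar (sr i) = rf (aS i)

def JobQ : Prop := ∃ bar, Bar bar

/-- the monomial group contains a Sylow `2`-subgroup -/
def Syl : Prop := ∀ A : Subgroup W, IsPGroup 2 A →
  ∃ g : W, ∀ a ∈ A, ∃ x < 256, ∃ b ∈ T64, g * a * g⁻¹ = ep x * pm b

def JobSYL : Prop := Nat.card W = 696729600 → Syl

/-- the classes of the elements with square `±1` -/
def Cls : Prop :=
  (∀ w : W, w * w = 1 → ∃ g : W, ∃ S ∈ [0, 1, 3, 7, 15, 23, 31, 63, 127, 255], g * w * g⁻¹ = ep S) ∧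
    ∀ w : W, w * w = neg → ∃ g : W, g * w * g⁻¹ = J0

def JobCLS : Prop := Syl → Cls

/-- simultaneous diagonalisation -/
def JobWT : Prop := ∀ A : Set W, A.Finite → (∀ a ∈ A, a * a = 1) →
  (∀ a ∈ A, ∀ b ∈ A, a * b = b * a) →
    ∃ V : M8, V.det ≠ 0 ∧ ∀ a ∈ A, ∃ y < 256, a.m * V = V * (ep y).m

/-- frames are conjugate -/
def Frm : Prop := ∀ A : Subgroup W, (∀ a ∈ A, a * a = 1) → 256 ≤ Nat.card A →
  ∃ g : W, ∀ y < 256, g * ep y * g⁻¹ ∈ A

def JobF : Prop := Syl → JobWT → Frm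

def JobINV : Prop := ∀ (g : W) (x y : ℕ), x < 256 → y < 256 → g * ep x * g⁻¹ = ep y → isH x = isH y

def JobCD : Prop := ∀ g : W, g * J0 = J0 * g ∨ g * J0 = neg * (J0 * g) → dt g = 1

/-- the masks used for the involution `ep S` of the rotation subgroup -/
def inE (S x : ℕ) : Prop := x < 256 ∧ wt x % 2 = 0 ∧ (S = 15 → wt (x &&& 15) % 2 = 0)

def NoII : Prop := ∀ S ∈ [3, 15, 23, 63], ∀ ψ : ℕ → W,
  (∀ x y, inE S x → inE S y → ψ (x ^^^ y) = ψ x * ψ y) → (∀ x, inE S x → dt (ψ x) = 1) →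
  (∀ x, inE S x → ψ x = 1 → x = 0) → ψ S = neg →
  (∀ a, okA a = true → act a S = S → ∃ l : W, ∀ x, inE S x → ψ (act a x) = l * ψ x * l⁻¹) → False

def JobII : Prop := JobWT → NoII

def JobSQ : Prop := ∀ S ∈ [1, 7], ∀ w : ℕ → W,
  (∀ x < 256, ∀ y < 256, w (x ^^^ y) = w x * w y ∨ w (x ^^^ y) = neg * (w x * w y)) →
  (w S = 1 ∨ w S = neg) → (∀ a, okA a = true → w (act a S) * w (act a S) = 1) →
  w 255 * w 255 = 1 →
  (∀ a, okA a = true → act a S = S → ∀ x < 256, w (act a x) * w (act a x) = w x * w x) →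
  ∀ x < 256, w x * w x = 1

/-- the class of `± ep x` -/
def ty (x : ℕ) : ℕ := if wt x = 4 then (if isH x then 4 else 5) else min (wt x) (8 - wt x)

def TyEq (x y : ℕ) : Prop := ty y = ty x ∧ (wt x % 2 = 0 → wt y = wt x)

def JobI : Prop := ∀ S ∈ [1, 7], ∀ (θ : ℕ → ℕ) (R : (ℕ → ℕ) → Prop),
  (∀ y < 256, θ y < 256) → (∀ x < 256, ∀ y < 256, θ (x ^^^ y) = θ x ^^^ θ y) →
  (∀ y < 256, θ y = 0 → y = 0) → θ 255 = S →
  (∀ σ, R σ → ∀ x < 256, σ x < 256) → (∀ σ ρ, R σ → R ρ → R (σ ∘ ρ)) →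
  (∀ a, okA a = true → R (act a)) →
  (∀ a, okA a = true → ∃ σ, R σ ∧ ∀ y < 256, σ (θ y) = θ (act a y)) →
  (∀ σ, R σ → σ 255 = 255 → ∀ x < 256, TyEq x (σ x)) →
  (∀ σ, R σ → σ S = S → ∀ y < 256, ∀ y' < 256, σ (θ y) = θ y' → TyEq y y') → False

/-- triality -/
def Tri (bar : W →* O8) : Prop :=
  ∃ τ : MulAut Om, ∀ x : Om, (x : O8) = bar (ep 3) → (τ x : O8) = bar J0

def JobTRI : Prop := ∀ bar, Bar bar → Tri bar

/-- a central extension of `Om` by a group of order at most two -/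
structure Cov {X : Type u} [Group X] (π : X →* O8) (z : X) : Prop where
  cen : ∀ x, z * x = x * z
  sq : z * z = 1
  ker : ∀ x, π x = 1 ↔ x = 1 ∨ x = z
  rng : π.range = Om

def JobABC : Prop := ∀ bar, Bar bar → ∀ (X : Type u) [Group X] (π : X →* O8) (z : X), Cov π z →
  ∃ w ∈ [ep 3, J0, ep 1 * J0 * ep 1], ∀ x, π x = bar w → x * x = 1

def JobLIFT : Prop := ∀ bar, Bar bar → ∀ (X : Type u) [Group X] (π : X →* O8) (z : X), Cov π z →
  z ≠ 1 → commutator X = ⊤ → (∀ x, π x = bar (ep 3) → x * x = 1) → Nonempty (X ≃* W')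

/-- automorphisms of the rotation subgroup -/
def Aut : Prop := ∀ α : MulAut W', ∃ g : W, ∀ x : W', ((α x : W') : W) = g * x * g⁻¹

def JobAUT : Prop := ∀ bar, Bar bar → Tri bar → Aut

/-! ### a small kit -/

theorem Bar.card {bar : W →* O8} (h : Bar bar) : Nat.card W = 696729600 := by
  have h1 : Nat.card bar.ker = 2 := (Nat.card_eq_two_iff' (1 : bar.ker)).2
    ⟨⟨neg, (h.ker _).2 (Or.inr rfl)⟩, fun e => neg_ne_one (congrArg Subtype.val e), fun y hy =>
      Subtype.ext (((h.ker _).1 y.2).resolve_left fun e => hy (Subtype.ext e))⟩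
  rw [Subgroup.card_eq_card_quotient_mul_card_subgroup bar.ker, h1,
    Nat.card_congr (QuotientGroup.quotientKerEquivOfSurjective bar h.sur).toEquiv, card_O8]

theorem Bar.finite {bar : W →* O8} (h : Bar bar) : Finite W :=
  Nat.finite_of_card_ne_zero (by rw [h.card]; decide)

theorem index_W' : W'.index = 2 := Subgroup.index_eq_two_iff.2 ⟨ep 1, fun b => by
  simp only [mem_W', dt_mul, dt_ep_one]
  rcases dt_cases b with h | h <;> rw [h] <;> norm_num [Xor]⟩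

theorem Bar.card' {bar : W →* O8} (h : Bar bar) : Nat.card W' = 348364800 := by
  have := W'.card_mul_index
  rw [index_W', h.card] at this
  omega

theorem Bar.neg {bar : W →* O8} (h : Bar bar) : bar neg = 1 := (h.ker _).2 (Or.inr rfl)

theorem Bar.eq_iff {bar : W →* O8} (h : Bar bar) {a b : W} :
    bar a = bar b ↔ a = b ∨ a = E8.neg * b := by
  rw [← mul_inv_eq_one, ← map_inv, ← map_mul, h.ker, mul_inv_eq_one, mul_inv_eq_iff_eq_mul]

theorem center_Om : Subgroup.center Om = ⊥ := by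
  refine eq_bot_iff.2 fun c hc => Subtype.ext ?_
  exact (H56.eq_one_or_negOne_of_commute nd8 (by simp)
    (H58.exists_singular_of_three_le _ (by simp)) fun u v hu huv => congrArg Subtype.val
      (Subgroup.mem_center_iff.1 hc ⟨_, H56.EG_le_commutator nd8 ne8x
        (H56.eich_mem_EG u v)⟩)).elim id fun k => k.trans (H56.O.negOne_eq_one_iff.2 rfl)

theorem exists_equiv_Om {F : Type*} [Field F] [Fintype F] (hF : Fintype.card F = 2) :
    Nonempty (POmega F (quadFormPlus 4 F) ≃* Om) :=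
  ⟨((H55.pOmegaCongr (FiniteField.ringEquivOfCardEq (K' := ZMod 2) (by rw [hF, ZMod.card]))
    (H55.quadFormPlus_comp _ 4)).trans (H56.pOmegaEquiv _ (H58.coe_qPlus 4 (ZMod 2)))).trans
    ((QuotientGroup.quotientMulEquivOfEq center_Om).trans QuotientGroup.quotientBot)⟩

theorem simple_Om : IsSimpleGroup Om := by
  obtain ⟨e⟩ := exists_equiv_Om (ZMod.card 2)
  have := H56.isSimpleGroup_POmega _ (H58.coe_qPlus 4 (ZMod 2)) nd8 (by simp)
  exact e.symm.isSimpleGroup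

theorem card_aut_Om : Nat.card (MulAut Om) = 6 * 174182400 := by
  obtain ⟨e⟩ := exists_equiv_Om (ZMod.card 2)
  obtain ⟨o⟩ := H56.out_qPlus_four_two (F := ZMod 2) (p := 2) (f := 1) (by simp) rfl le_rfl
  rw [H56.card_mulAut_eq _ center_Om, card_Om, ← Nat.card_congr (H56.outCongr e).toEquiv,
    Nat.card_congr o.toEquiv]
  simp [Fintype.card_perm, Nat.factorial]

/-- the translation is conjugate to a sign change -/
theorem conj_tau : ∃ g : W, dt g = 1 ∧ g * ep 15 * g⁻¹ = pm tau := by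
  obtain ⟨g, h1, h2⟩ := exists_rot (mkZ !![1, -1, 0, 0, 1, 1, 0, 0; -1, 1, 0, 0, 1, 1, 0, 0;
    1, 1, 0, 0, 1, -1, 0, 0; -1, -1, 0, 0, 1, -1, 0, 0; 0, 0, 1, 1, 0, 0, 1, 1;
    0, 0, -1, -1, 0, 0, 1, 1; 0, 0, -1, 1, 0, 0, -1, 1; 0, 0, 1, -1, 0, 0, -1, 1]
    (by decide +kernel))
  refine ⟨g, h1, (h2 15).trans (mul_inv_eq_iff_eq_mul.2 ?_)⟩
  rw [ep_eq (by decide +kernel), pm_eq ok_tau]
  exact mkZ_mul_eq _ _ _ _ (by decide +kernel)

end H11.E8
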