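/- Double covers of `Ω₈⁺(2)`. -/
import Cfsg.Agent.H11.E8Spec

set_option autoImplicit false

open Cfsg H50.Co
open scoped commutatorElement

namespace H11.E8

universe u

theorem card_rot_le' {D : Type*} [Group D] {r : Fin 8 → D} (h3 : r 3 = 1)
    (h : ∀ i j, (r i * (r j)⁻¹) ^ CoxeterMatrix.E₈ i j = 1) :
    Finite (Subgroup.closure (Set.range r)) ∧
      Nat.card (Subgroup.closure (Set.range r)) ≤ 348364800 := by
  have hf : CoxeterMatrix.E₈.IsLiftable fun i => ttP (r i) := fun i j => by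
    refine Equiv.ext fun ⟨d, b⟩ => ?_
    cases b
    · rw [(ttP_pow _ _ _ _).2, show (r i)⁻¹ * r j = (r i)⁻¹ * (r i * (r j)⁻¹)⁻¹ * (r i)⁻¹⁻¹ by group,
        conj_pow, inv_pow, h]
      simp
    · rw [(ttP_pow _ _ _ _).1, h]; simp
  let Ψ := CoxeterMatrix.E₈.toCoxeterSystem.lift ⟨_, hf⟩
  have hs : ∀ i, Ψ (CoxeterMatrix.E₈.toCoxeterSystem.simple i) = ttP (r i) := fun i =>
    CoxeterSystem.lift_apply_simple _ hf i
  have : Finite CoxeterMatrix.E₈.Group := Nat.finite_of_card_ne_zero (by rw [card_WE8]; decide)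
  let O : Set (D × Bool) := Set.range fun w => Ψ w (1, true)
  have o1 : ∀ i p, p ∈ O → tt (r i) p ∈ O := by
    rintro i _ ⟨w, rfl⟩
    exact ⟨CoxeterMatrix.E₈.toCoxeterSystem.simple i * w, by
      show Ψ _ _ = _
      rw [map_mul, hs]; rfl⟩
  have o2 : ∀ d ∈ Subgroup.closure (Set.range r), (d, true) ∈ O := by
    intro d hd
    induction hd using Subgroup.closure_induction_left with
    | one => exact ⟨1, by simp⟩
    | mul_left x hx y _ ih =>
      obtain ⟨i, rfl⟩ := hx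
      simpa [tt, h3] using o1 i _ (o1 3 _ ih)
    | inv_mul_cancel x hx y _ ih =>
      obtain ⟨i, rfl⟩ := hx
      simpa [tt, h3] using o1 3 _ (o1 i _ ih)
  let f : Subgroup.closure (Set.range r) × Bool → O := fun x => ⟨(x.1.1, x.2), by
    obtain ⟨d, b⟩ := x
    cases b
    · simpa [tt, h3] using o1 3 _ (o2 _ d.2)
    · exact o2 _ d.2⟩
  have hi : Function.Injective f := fun x y e => by
    have e' : ((x.1.1, x.2) : D × Bool) = (y.1.1, y.2) := congrArg Subtype.val e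
    exact Prod.ext (Subtype.ext (Prod.ext_iff.1 e').1) (Prod.ext_iff.1 e').2
  have c1 := (Nat.card_le_card_of_injective f hi).trans (Finite.card_range_le _)
  rw [Nat.card_prod, Nat.card_eq_fintype_card (α := Bool), Fintype.card_bool, card_WE8] at c1
  exact ⟨Finite.of_injective (fun x => f (x, true)) fun x y e => congrArg Prod.fst (hi e), by omega⟩

def m8 (i j : Fin 8) : ℕ := CoxeterMatrix.E₈ i j

theorem sr_sq (i : Fin 8) : sr i * sr i = 1 := by
  have h : ∀ i, srZ i * srZ i = (2 : ℤ) • epZ 0 := by decide +kernel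
  rw [← ep_zero, ep_eq (by decide +kernel)]
  exact mkZ_mul _ _ _ (h i)

theorem sr_lift : CoxeterMatrix.E₈.IsLiftable sr := fun i j => by
  rcases E8_cases i j with ⟨rfl, e⟩ | ⟨-, e⟩ | e <;> rw [e]
  · rw [pow_one, sr_sq]
  · have h : ∀ i j, m8 i j = 3 ∨ srZ i * srZ j = srZ j * srZ i := by decide +kernel
    have h1 : sr i * sr j = sr j * sr i :=
      mkZ_mul_eq _ _ _ _ ((h i j).resolve_left (by rw [m8]; omega))
    rw [pow_two, mul_assoc, ← mul_assoc (sr j), ← h1, mul_assoc, sr_sq, mul_one, sr_sq]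
  · have h : ∀ i j, m8 i j = 2 ∨ srZ i * srZ j * srZ i = srZ j * srZ i * srZ j := by
      decide +kernel
    have h1 : sr i * sr j * sr i = sr j * sr i * sr j := W.ext (by
      simp only [m_mul, sr, m_mkZ, smul_mul_smul_comm, ← cz_mul,
        (h i j).resolve_left (by rw [m8]; omega)])
    calc (sr i * sr j) ^ 3 = sr i * sr j * sr i * (sr j * sr i * sr j) := by
          simp only [pow_succ, pow_zero, one_mul, mul_assoc]
      _ = sr j * (sr i * (sr j * sr j) * sr i) * sr j := by rw [h1]; simp only [mul_assoc]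
      _ = 1 := by rw [sr_sq, mul_one, sr_sq, mul_one, sr_sq]

theorem sr_inv (i : Fin 8) : (sr i)⁻¹ = sr i := inv_eq_of_mul_eq_one_right (sr_sq i)

variable {bar : W →* O8} {X : Type u} [Group X] {π : X →* O8} {z : X}

theorem Bar.rot (B : Bar bar) (i j : Fin 8) : dt (E8.sr i * E8.sr j) = 1 :=
  (B.om _).1 (by rw [map_mul, B.sr, B.sr]; exact rf_mul_mem (aS_E8D.q i) (aS_E8D.q j))

/-- a subgroup of the rotation group that covers `Om` -/
theorem Bar.le_of (B : Bar bar) {K : Subgroup W} (h : ∀ i, E8.sr i * E8.sr 3 ∈ K) : W' ≤ K := by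
  have h1 : ∀ w, dt w = 1 → ∃ k ∈ K, w = k ∨ w = E8.neg * k := fun w hw => by
    obtain ⟨k, hk, e⟩ := aS_E8D.gen (K := K.map bar) (fun i => ⟨_, h i, by
      rw [map_mul, B.sr, B.sr]⟩) ((B.om w).2 hw)
    exact ⟨k, hk, B.eq_iff.1 e.symm⟩
  have h2 : E8.neg ∈ K := by
    obtain ⟨a, ha, e1⟩ := h1 _ dt_J0
    rw [← J0_sq]
    rcases e1 with e | e <;> rw [e]
    · exact mul_mem ha ha
    · rw [mul_assoc, ← mul_assoc a, ← neg_comm, mul_assoc E8.neg, ← mul_assoc E8.neg, neg_sq,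
        one_mul]
      exact mul_mem ha ha
  intro w hw
  obtain ⟨k, hk, e | e⟩ := h1 w hw <;> rw [e]
  exacts [hk, mul_mem h2 hk]

theorem Cov.eq_iff (C : Cov π z) {x y : X} : π x = π y ↔ x = y ∨ x = z * y := by
  rw [← mul_inv_eq_one, ← map_inv, ← map_mul, C.ker, mul_inv_eq_one, mul_inv_eq_iff_eq_mul]

theorem Cov.lift (C : Cov π z) {g : O8} (h : g ∈ Om) : ∃ x, π x = g := by
  rwa [← C.rng] at h

theorem Cov.zz (C : Cov π z) (x : X) : z * (z * x) = x := by rw [← mul_assoc, C.sq, one_mul]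

/-- all lifts of `g` have square `c` -/
def Sq (π : X →* O8) (g : O8) (c : X) : Prop := ∀ x, π x = g → x * x = c

theorem Cov.sq_of (C : Cov π z) (x : X) : Sq π (π x) (x * x) := fun y hy => by
  rcases C.eq_iff.1 hy with e | e <;> rw [e]
  rw [mul_assoc, ← mul_assoc x, ← C.cen, mul_assoc, C.zz]

theorem Cov.sq_conj (C : Cov π z) {g h : O8} {c : X} (hg : g ∈ Om) (hc : c = 1 ∨ c = z)
    (k : Sq π h c) : Sq π (g * h * g⁻¹) c := fun x hx => by
  obtain ⟨y, rfl⟩ := C.lift hg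
  have := k (y⁻¹ * x * y) (by rw [map_mul, map_mul, map_inv, hx]; group)
  rw [show x * x = y * (y⁻¹ * x * y * (y⁻¹ * x * y)) * y⁻¹ by group, this]
  rcases hc with e | e <;> rw [e]
  · group
  · rw [← C.cen, mul_inv_cancel_right]

theorem Cov.seven (C : Cov π z) {a b c : O8} (ha : a ∈ Om) (hb : b ∈ Om) (hc : c ∈ Om)
    (a2 : a * a = 1) (b2 : b * b = 1) (c2 : c * c = 1) (ab : b * a = a * b) (ac : c * a = a * c)
    (bc : c * b = b * c) {c1 c2' c3 c4 c5 c6 c7 : X} (h1 : Sq π a c1) (h2 : Sq π b c2')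
    (h3 : Sq π c c3) (h4 : Sq π (a * b) c4) (h5 : Sq π (a * c) c5) (h6 : Sq π (b * c) c6)
    (h7 : Sq π (a * b * c) c7) : c7 * (c1 * c2' * c3) = c4 * c5 * c6 := by
  obtain ⟨x, rfl⟩ := C.lift ha
  obtain ⟨y, rfl⟩ := C.lift hb
  obtain ⟨v, rfl⟩ := C.lift hc
  rw [← h1 x rfl, ← h2 y rfl, ← h3 v rfl, ← h4 _ (map_mul _ _ _), ← h5 _ (map_mul _ _ _),
    ← h6 _ (map_mul _ _ _), ← h7 (x * y * v) (by rw [map_mul, map_mul])]
  simp only [← map_mul, C.eq_iff, C.ker] at a2 b2 c2 ab ac bc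
  have cz : ∀ g k : X, g * (z * k) = z * (g * k) := fun g k => by
    rw [← mul_assoc, ← C.cen, mul_assoc]
  have two : ∀ {x y a : X}, (∀ g k : X, g * (a * k) = a * (g * k)) →
      (∀ k, y * (x * k) = a * (x * (y * k))) → x * y * (x * y) = a * (x * x * (y * y)) :=
    fun {x y a} h e => by simp only [mul_assoc]; rw [e, h]
  have ex : ∀ {x y : X}, y * x = x * y ∨ y * x = z * (x * y) → ∃ a, (a = 1 ∨ a = z) ∧
      (∀ g k : X, g * (a * k) = a * (g * k)) ∧ ∀ k, y * (x * k) = a * (x * (y * k)) :=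
    fun {x y} h => h.elim (fun e => ⟨1, Or.inl rfl, by simp, fun k => by
      rw [← mul_assoc, e, one_mul, mul_assoc]⟩) fun e => ⟨z, Or.inr rfl, cz, fun k => by
      rw [← mul_assoc, e, mul_assoc, mul_assoc]⟩
  obtain ⟨a, a1, a3, a4⟩ := ex ab
  obtain ⟨b, b1, b3, b4⟩ := ex ac
  obtain ⟨c, c1, c3, c4⟩ := ex bc
  have e : x * y * v * (x * y * v) = a * (b * (c * (x * x * (y * y) * (v * v)))) := by
    simp only [mul_assoc]
    rw [b4, c4, b3 y, c3 x (y * _), c3 y, a4, b3 x, c3 x, a3 x, a3 c, a3 b]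
  rw [e, two a3 a4, two b3 b4, two c3 c4]
  have zc : ∀ g : X, g * z = z * g := fun g => (C.cen g).symm
  rcases a1 with rfl | rfl <;> rcases b1 with rfl | rfl <;> rcases c1 with rfl | rfl <;>
    rcases a2 with e1 | e1 <;> rcases b2 with e2 | e2 <;> rcases c2 with e3 | e3 <;>
    simp [e1, e2, e3, C.sq]

theorem jobABC : JobABC.{u} := by
  intro bar B X _ π z C
  have om : ∀ x < 256, wt x % 2 = 0 → bar (ep x) ∈ Om := fun x hx h =>
    (B.om _).2 (by rw [dt_ep hx, if_pos h])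
  have s2 : ∀ x, bar (ep x) * bar (ep x) = 1 := fun x => by rw [← map_mul, ep_sq, map_one]
  have cm : ∀ x y, bar (ep x) * bar (ep y) = bar (ep y) * bar (ep x) := fun x y => by
    rw [← map_mul, ep_comm, map_mul]
  have mu : ∀ x y, bar (ep x) * bar (ep y) = bar (ep (x ^^^ y)) := fun x y => by
    rw [← map_mul, ep_xor]
  have ex : ∀ g ∈ Om, g * g = 1 → ∃ c, (c = 1 ∨ c = z) ∧ Sq π g c := fun g hg h => by
    obtain ⟨x, rfl⟩ := C.lift hg
    exact ⟨_, (C.ker _).1 (by rw [map_mul, h]), C.sq_of x⟩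
  have cj : ∀ g w c, dt g = 1 → (c = 1 ∨ c = z) → Sq π (bar w) c → Sq π (bar (g * w * g⁻¹)) c :=
    fun g w c hg hc h => by
      rw [map_mul, map_mul, map_inv]; exact C.sq_conj ((B.om g).2 hg) hc h
  have pa : ∀ b x c, okA b = true → (c = 1 ∨ c = z) → Sq π (bar (ep x)) c →
      Sq π (bar (ep (act b x))) c := fun b x c hb hc h => by
    obtain ⟨g, h1, h2⟩ := exists_pm hb
    exact h2 x ▸ cj g _ c h1 hc h
  obtain ⟨c, hc, h3⟩ := ex _ (om 3 (by decide) (by decide)) (s2 3)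
  have cc : c * c = 1 := by rcases hc with e | e <;> simp [e, C.sq]
  have pr : ∀ x ∈ [5, 9, 6, 10, 12, 17, 18, 20], Sq π (bar (ep x)) c := fun x hx => by
    have k : ∀ x ∈ [5, 9, 6, 10, 12, 17, 18, 20], ∃ b ∈ [16205392, 14140504, 14140945, 16204825,
      16433690, 15673952, 13609505, 11508770], okA b = true ∧ act b 3 = x := by decide +kernel
    obtain ⟨b, -, h1, rfl⟩ := k x hx
    exact pa b 3 c h1 hc h3
  have four : ∀ y ∈ [9, 17], Sq π (bar (ep (6 ^^^ y))) 1 := fun y hy => by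
    have k : ∀ y ∈ [9, 17], y < 256 ∧ wt y % 2 = 0 ∧ 6 ^^^ y < 256 ∧ wt (6 ^^^ y) % 2 = 0 ∧
      y ∈ [5, 9, 6, 10, 12, 17, 18, 20] ∧ 3 ^^^ y ∈ [5, 9, 6, 10, 12, 17, 18, 20] ∧
      5 ^^^ y ∈ [5, 9, 6, 10, 12, 17, 18, 20] := by decide +kernel
    obtain ⟨k1, k2, k3, k4, k5, k6, k7⟩ := k y hy
    obtain ⟨d, -, hd⟩ := ex _ (om _ k3 k4) (s2 _)
    have := C.seven (om 3 (by decide) (by decide)) (om 5 (by decide) (by decide)) (om y k1 k2)
      (s2 _) (s2 _) (s2 _) (cm _ _) (cm _ _) (cm _ _) h3 (pr 5 (by simp)) (pr y k5)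
      (mu 3 5 ▸ pr 6 (by simp)) (mu 3 y ▸ pr _ k6) (mu 5 y ▸ pr _ k7) (by rw [mu, mu]; exact hd)
    rwa [mul_eq_right.1 this] at hd
  have h15 : Sq π (bar (ep 15)) 1 := four 9 (by simp)
  have h85 : Sq π (bar (ep 85)) 1 := (show act 16096528 15 = 85 by decide +kernel) ▸
    pa _ _ _ (by decide +kernel) (Or.inl rfl) h15
  have h86 : Sq π (bar (ep 86)) 1 := (show act 978705 23 = 86 by decide +kernel) ▸
    pa _ _ _ (by decide +kernel) (Or.inl rfl) (four 17 (by simp))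
  obtain ⟨g, g1, g2⟩ := conj_tau
  obtain ⟨g', g3, g4⟩ := exists_rot (ep 1 * g)
  have e1 : ∀ x, ep 1 * (ep x * pm tau) * ep 1 = ep (3 ^^^ x) * pm tau := fun x => by
    rw [mul_assoc, mul_assoc, pm_ep ok_tau, ← mul_assoc, ← mul_assoc, ← ep_xor, ← ep_xor,
      show act tau 1 = 2 by decide +kernel, Nat.xor_comm 1, Nat.xor_assoc, Nat.xor_comm]
    rfl
  have ht : Sq π (bar (pm tau)) 1 := g2 ▸ cj g _ _ g1 (Or.inl rfl) h15
  have h3t : Sq π (bar (ep 3) * bar (pm tau)) 1 := by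
    have := cj g' _ _ g3 (Or.inl rfl) h15
    rwa [g4, show ep 1 * g * ep 15 * (ep 1 * g)⁻¹ = ep 1 * (1 * (g * ep 15 * g⁻¹)) * (ep 1)⁻¹ by
      group, g2, ep_inv, ← ep_zero, e1, map_mul] at this
  have hJ : bar J0 * bar J0 = 1 := by rw [← map_mul, J0_sq, B.neg]
  have dJ : dt (ep 1 * J0 * ep 1) = 1 := by
    have := dt_conj (ep 1) J0
    rwa [ep_inv, dt_J0] at this
  obtain ⟨d, hd, h6⟩ := ex _ ((B.om _).2 dt_J0) hJ
  obtain ⟨f, hf, h7⟩ := ex _ ((B.om _).2 dJ) (by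
    rw [← map_mul, show ep 1 * J0 * ep 1 * (ep 1 * J0 * ep 1) =
      ep 1 * (J0 * (ep 1 * ep 1) * J0) * ep 1 by group, ep_sq, mul_one, J0_sq, map_mul, map_mul,
      B.neg, mul_one, s2])
  have := C.seven (om 3 (by decide) (by decide)) (om 85 (by decide) (by decide))
    ((B.om _).2 dt_pm_tau) (s2 _) (s2 _) (by rw [← map_mul, pm_tau_sq, map_one]) (cm _ _)
    (by rw [← map_mul, pm_ep ok_tau, map_mul, show act tau 3 = 3 by decide +kernel])
    (by rw [← map_mul, pm_ep ok_tau, map_mul, show act tau 85 = 255 ^^^ 85 by decide +kernel,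
      ep_xor, map_mul, show bar (ep 255) = 1 from B.neg, one_mul])
    h3 h85 ht (mu 3 85 ▸ h86) h3t (by rw [← map_mul]; exact h6)
    (by rw [mu, ← map_mul, ← e1]; exact h7)
  simp only [mul_one, one_mul] at this
  rcases hc with rfl | rfl
  · exact ⟨_, by simp, h3⟩
  · rcases hf with rfl | rfl
    · exact ⟨_, by simp, h7⟩
    · exact ⟨_, by simp, (cc.symm.trans this).symm ▸ h6⟩

theorem jobLIFT : JobLIFT.{u} := by
  intro bar B X _ π z C hz hp h3
  have := B.finite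
  have q := aS_E8D.q
  have two : ∀ i j, CoxeterMatrix.E₈ i j = 2 → i ≠ j → Sq π (rf (aS i) * rf (aS j)) 1 :=
    fun i j e hn => by
      have li : ∀ i j : Fin 8, i ≠ j → LinearIndependent (ZMod 2) (aS ∘ ![i, j]) := fun i j h =>
        aS_E8D.li.comp _ (by
          intro a b; fin_cases a <;> fin_cases b <;> simp [h, h.symm])
      obtain ⟨g, hg⟩ := H56.witt_family nd8 _ _ (li 0 1 (by decide)) (li i j hn)
        (fun k => (q _).trans (q _).symm) fun k l hkl => by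
          have e' : CoxeterMatrix.E₈ j i = 2 := (CoxeterMatrix.E₈.symmetric j i).trans e
          fin_cases k <;> fin_cases l <;> simp_all [aS_E8D.b] <;> decide
      have h0 : Sq π (rf (aS 0) * rf (aS 1)) 1 := by
        rw [← B.sr, ← B.sr, ← map_mul, sr_zero, sr_one, ← ep_xor]; exact h3
      have e1 : ∀ g : O8, g (aS 0) = aS i → g (aS 1) = aS j →
          g * (rf (aS 0) * rf (aS 1)) * g⁻¹ = rf (aS i) * rf (aS j) := fun g h1 h2 => by
        rw [← conj_mul, H56.conj_refl, H56.conj_refl, h1, h2]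
      by_cases hm : g ∈ Om
      · exact e1 g (hg 0) (hg 1) ▸ C.sq_conj hm (Or.inl rfl) h0
      · have := C.sq_conj (mul_mem_Om hm (rf_not_mem (q 0))) (Or.inl rfl) h0
        rwa [show g * rf (aS 0) * (rf (aS 0) * rf (aS 1)) * (g * rf (aS 0))⁻¹ =
          g * (rf (aS 0) * (rf (aS 0) * rf (aS 1)) * (rf (aS 0))⁻¹) * g⁻¹ by group,
          ← mul_assoc (rf (aS 0)), H56.refl_mul_self, one_mul, H56.refl_inv, show
          rf (aS 1) * rf (aS 0) = rf (aS 0) * rf (aS 1) by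
            rw [← B.sr, ← B.sr, ← map_mul, sr_zero, sr_one, ep_comm, map_mul],
          e1 g (hg 0) (hg 1)] at this
  have quo : ∀ i j (x y : X), π x = rf (aS i) * rf (aS 3) → π y = rf (aS j) * rf (aS 3) →
      π (x * y⁻¹) = rf (aS i) * rf (aS j) := fun i j x y hx hy => by
    rw [map_mul, map_inv, hx, hy, mul_inv_rev, H56.refl_inv, H56.refl_inv, mul_assoc,
      ← mul_assoc (rf (aS 3)), H56.refl_mul_self, one_mul]
  have edge : ∀ i j, CoxeterMatrix.E₈ i j = 3 → ∀ y, π y = rf (aS j) * rf (aS 3) →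
      ∃ x, π x = rf (aS i) * rf (aS 3) ∧ (x * y⁻¹) ^ 3 = 1 := fun i j e y hy => by
    obtain ⟨x, hx⟩ := C.lift (rf_mul_mem (q i) (q 3))
    rcases (C.ker ((x * y⁻¹) ^ 3)).1 (by rw [map_pow, quo i j x y hx hy, ← e]; exact aS_E8D.lift i j)
      with h | h
    · exact ⟨x, hx, h⟩
    · refine ⟨z * x, by rw [map_mul, (C.ker z).2 (Or.inr rfl), one_mul, hx], ?_⟩
      rw [mul_assoc, Commute.mul_pow (C.cen _), h, pow_succ, pow_two, C.sq, one_mul, C.sq]
  have p3 : π 1 = rf (aS 3) * rf (aS 3) := by rw [map_one, H56.refl_mul_self]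
  obtain ⟨x1, p1, r1⟩ := edge 1 3 (by decide) _ p3
  obtain ⟨x2, p2, r2⟩ := edge 2 3 (by decide) _ p3
  obtain ⟨x4, p4, r4⟩ := edge 4 3 (by decide) _ p3
  obtain ⟨x0, p0, r0⟩ := edge 0 2 (by decide) _ p2
  obtain ⟨x5, p5, r5⟩ := edge 5 4 (by decide) _ p4
  obtain ⟨x6, p6, r6⟩ := edge 6 5 (by decide) _ p5
  obtain ⟨x7, p7, r7⟩ := edge 7 6 (by decide) _ p6
  let x : Fin 8 → X := ![x0, x1, x2, 1, x4, x5, x6, x7]
  have px : ∀ i, π (x i) = rf (aS i) * rf (aS 3) := fun i => by fin_cases i <;> assumption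
  have sy : ∀ {a b : X}, (a * b⁻¹) ^ 3 = 1 → (b * a⁻¹) ^ 3 = 1 := fun {a b} h => by
    rw [← inv_eq_one, ← inv_pow, mul_inv_rev, inv_inv, h]
  have rel : ∀ i j, (x i * (x j)⁻¹) ^ CoxeterMatrix.E₈ i j = 1 := fun i j => by
    rcases E8_cases i j with ⟨rfl, e⟩ | ⟨hn, e⟩ | e <;> rw [e]
    · simp
    · rw [pow_two]; exact two i j e hn _ (quo i j _ _ (px i) (px j))
    · have k : ∀ i j : Fin 8, m8 i j ≠ 3 ∨ (i, j) ∈ [(1, 3), (2, 3), (4, 3), (0, 2),
          (5, 4), (6, 5), (7, 6), (3, 1), (3, 2), (3, 4), (2, 0), (4, 5), (5, 6), (6, 7)] := by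
        decide +kernel
      have := (k i j).resolve_left (· e)
      simp only [List.mem_cons, Prod.mk.injEq, List.not_mem_nil, or_false] at this
      rcases this with h | h | h | h | h | h | h | h | h | h | h | h | h | h <;>
        obtain ⟨rfl, rfl⟩ := h
      exacts [r1, r2, r4, r0, r5, r6, r7, sy r1, sy r2, sy r4, sy r0, sy r5, sy r6, sy r7]
  let r : Fin 8 → X × W := fun i => (x i, sr i * sr 3)
  obtain ⟨fin, hc⟩ := card_rot_le' (r := r) (Prod.ext rfl (sr_sq 3)) fun i j => Prod.ext (rel i j) (by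
    show (sr i * sr 3 * (sr j * sr 3)⁻¹) ^ _ = 1
    rw [mul_inv_rev, sr_inv, sr_inv, mul_assoc, ← mul_assoc (sr 3), sr_sq, one_mul]
    exact sr_lift i j)
  set H := Subgroup.closure (Set.range r)
  have hH : ∀ h ∈ H, dt h.2 = 1 ∧ π h.1 = bar h.2 := fun h hh => by
    induction hh using Subgroup.closure_induction with
    | mem y hy =>
      obtain ⟨i, rfl⟩ := hy
      exact ⟨B.rot i 3, by rw [px, map_mul, B.sr, B.sr]⟩
    | one => exact ⟨dt_one, by simp⟩
    | mul a b _ _ h1 h2 => exact ⟨W'.mul_mem h1.1 h2.1, by simp [h1.2, h2.2]⟩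
    | inv a _ h1 => exact ⟨W'.inv_mem h1.1, by simp [h1.2]⟩
  let f : H →* W' := ((MonoidHom.snd X W).comp H.subtype).codRestrict W' fun h => (hH h h.2).1
  have hf : Function.Surjective f := fun w => by
    obtain ⟨h, hh, e⟩ := B.le_of (K := H.map (MonoidHom.snd X W))
      (fun i => ⟨r i, Subgroup.subset_closure ⟨i, rfl⟩, rfl⟩) w.2
    exact ⟨⟨h, hh⟩, Subtype.ext e⟩
  let ε := MulEquiv.ofBijective f (hf.bijective_of_nat_card_le (B.card' ▸ hc))
  let k : H →* X := (MonoidHom.fst X W).comp H.subtype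
  have k1 : ∀ y, y ∈ k.range ∨ z * y ∈ k.range := fun y => by
    obtain ⟨w, hw⟩ := B.sur (π y)
    obtain ⟨h, hh⟩ := hf ⟨w, (B.om w).1 (by rw [hw, ← C.rng]; exact ⟨y, rfl⟩)⟩
    have e : π y = π (k h) := by
      rw [← hw, ← show (h : X × W).2 = w from congrArg Subtype.val hh, ← (hH h h.2).2]; rfl
    exact (C.eq_iff.1 e).imp (fun e => ⟨h, e.symm⟩) fun e => ⟨h, by rw [e, C.zz]⟩
  have k2 : Function.Surjective k := MonoidHom.range_eq_top.1 (eq_top_iff.2 (by
    rw [← hp, commutator_def, Subgroup.commutator_le]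
    intro a _ b _
    have c : ∀ a b : X, ⁅z * a, b⁆ = ⁅a, b⁆ := fun a b => by
      rw [commutatorElement_def, commutatorElement_def, mul_inv_rev,
        show z * a * b * (a⁻¹ * z⁻¹) = z * (a * b * a⁻¹) * z⁻¹ by group, C.cen,
        mul_inv_cancel_right]
    have m : ∀ a b : X, a ∈ k.range → b ∈ k.range → ⁅a, b⁆ ∈ k.range := fun a b h1 h2 =>
      mul_mem (mul_mem (mul_mem h1 h2) (inv_mem h1)) (inv_mem h2)
    have m' : ∀ a b : X, b ∈ k.range → ⁅a, b⁆ ∈ k.range := fun a b h =>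
      (k1 a).elim (m a b · h) fun h1 => c a b ▸ m _ b h1 h
    refine (k1 b).elim (m' a b) fun h => ?_
    have := inv_mem (m' a _ h)
    rwa [commutatorElement_inv, c, ← commutatorElement_inv, inv_mem_iff] at this))
  have c1 : Nat.card π.ker = 2 := (Nat.card_eq_two_iff' (1 : π.ker)).2
    ⟨⟨z, (C.ker _).2 (Or.inr rfl)⟩, fun e => hz (congrArg Subtype.val e), fun y hy =>
      Subtype.ext (((C.ker _).1 y.2).resolve_left fun e => hy (Subtype.ext e))⟩
  have c2 : Nat.card X = 348364800 := by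
    rw [Subgroup.card_eq_card_quotient_mul_card_subgroup π.ker, c1,
      Nat.card_congr (QuotientGroup.quotientKerEquivRange π).toEquiv, C.rng, card_Om]
  exact ⟨(MulEquiv.ofBijective k (k2.bijective_of_nat_card_le (c2 ▸ hc))).symm.trans ε⟩

end H11.E8
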