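/- The Weyl group of type `E8` modulo two; two invariants. -/
import Cfsg.Agent.H11.E8Lift

set_option autoImplicit false

open Cfsg H50.Co Matrix

namespace H11.E8

theorem P_cancel {A B : Z8} (h : P * cz A = P * cz B) : A = B := by
  have e : cz Ci * Pᵀ * P = (2 : ℚ) • (1 : M8) := by
    rw [mul_assoc, P_gram, Matrix.mul_smul, ← cz_mul, Ci_Cz, cz_one]
  have := congrArg (cz Ci * Pᵀ * ·) h
  simp only [← mul_assoc, e, Matrix.smul_mul, one_mul] at this
  exact cz_inj (smul_right_injective M8 (two_ne_zero (α := ℚ)) this)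

/-- the matrix in the basis of simple roots -/
noncomputable def hz (g : W) : Z8 := g.exists_int.choose

theorem hz_spec (g : W) : g.m * P = P * cz (hz g) := g.exists_int.choose_spec

theorem hz_eq {g : W} {A : Z8} (h : g.m * P = P * cz A) : hz g = A :=
  P_cancel ((hz_spec g).symm.trans h)

theorem hz_mul (g h : W) : hz (g * h) = hz g * hz h :=
  hz_eq (by rw [m_mul, mul_assoc, hz_spec, ← mul_assoc, hz_spec, mul_assoc, cz_mul])

theorem hz_one : hz 1 = 1 := hz_eq (by rw [m_one, one_mul, cz_one, mul_one])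

theorem hz_conj (g : W) (A B : Z8) {w w' : M8} (h1 : Pᵀ * w * P = cz A) (h2 : Pᵀ * w' * P = cz B)
    (h : g.mᵀ * w' * g.m = w) : (hz g)ᵀ * B * hz g = A := cz_inj (by
  rw [cz_mul, cz_mul, cz_transpose, ← h1, ← h2, ← h]
  calc _ = (P * cz (hz g))ᵀ * w' * (P * cz (hz g)) := by rw [transpose_mul]; simp only [mul_assoc]
    _ = _ := by rw [← hz_spec, transpose_mul]; simp only [mul_assoc])

theorem hz_form (g : W) : (hz g)ᵀ * Cz * hz g = Cz := by
  have e : Pᵀ * ((2⁻¹ : ℚ) • (1 : M8)) * P = cz Cz := by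
    rw [Matrix.mul_smul, Matrix.smul_mul, mul_one, P_gram, smul_smul]; norm_num
  exact hz_conj g _ _ e e (by rw [Matrix.mul_smul, Matrix.smul_mul, mul_one, g.orth])

/-- the upper half of the Cartan matrix -/
def Uz : Z8 := fun i j => if i = j then 1 else if i < j then Cz i j else 0

theorem Cz_Uz : Cz = Uz + Uzᵀ := by decide +kernel

theorem form_Cz (z : Fin 8 → ℤ) : z ⬝ᵥ Cz *ᵥ z = 2 * (z ⬝ᵥ Uz *ᵥ z) := by
  rw [Cz_Uz, add_mulVec, dotProduct_add, mulVec_transpose, dotProduct_comm z (z ᵥ* _),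
    ← dotProduct_mulVec, two_mul]

theorem form_conj (h A : Z8) (z : Fin 8 → ℤ) :
    (h *ᵥ z) ⬝ᵥ A *ᵥ (h *ᵥ z) = z ⬝ᵥ (hᵀ * A * h) *ᵥ z := by
  rw [mul_assoc, ← mulVec_mulVec, dotProduct_mulVec z, vecMul_transpose, mulVec_mulVec]

noncomputable def bS : Module.Basis (Fin 8) (ZMod 2) V8 :=
  basisOfLinearIndependentOfCardEqFinrank aS_E8D.li (by simp)

theorem bS_apply (i : Fin 8) : bS i = aS i :=
  congrFun (coe_basisOfLinearIndependentOfCardEqFinrank _ _) i

theorem q8_sum (z : Fin 8 → ℤ) :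
    q8 (∑ i, (z i : ZMod 2) • aS i) = ((z ⬝ᵥ Uz *ᵥ z : ℤ) : ZMod 2) := by
  have h : ∀ c : Fin 8 → ZMod 2, qf (∑ i, c i • aS i) = ∑ i, c i * ∑ j, (Uz i j : ZMod 2) * c j := by
    decide +kernel
  rw [q8_eq, h]
  simp [dotProduct, mulVec]

noncomputable def barL (g : W) : Module.End (ZMod 2) V8 :=
  toLinAlgEquiv bS ((Int.castRingHom (ZMod 2)).mapMatrix (hz g))

theorem barL_mul (g h : W) : barL (g * h) = barL g * barL h := by
  rw [barL, hz_mul, map_mul, map_mul]; rfl

theorem barL_one : barL 1 = 1 := by rw [barL, hz_one, map_one, map_one]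

theorem barL_sum (g : W) (z : Fin 8 → ℤ) :
    barL g (∑ i, (z i : ZMod 2) • aS i) = ∑ i, ((hz g *ᵥ z) i : ZMod 2) • aS i := by
  rw [barL, toLinAlgEquiv_apply]
  simp only [← bS_apply, bS.repr_sum_self]
  refine Finset.sum_congr rfl fun i _ => congrArg (· • _) ?_
  simp [mulVec, dotProduct]

theorem barL_q (g : W) (v : V8) : q8 (barL g v) = q8 v := by
  choose z hz' using fun i => ZMod.intCast_surjective (bS.repr v i)
  have e : v = ∑ i, (z i : ZMod 2) • aS i := by
    simp only [hz', ← bS_apply, bS.sum_repr]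
  have h := form_conj (hz g) Cz z
  rw [hz_form, form_Cz, form_Cz] at h
  rw [e, barL_sum, q8_sum, q8_sum, mul_left_cancel₀ two_ne_zero h]

noncomputable def barW : W →* O8 := MonoidHom.mk' (fun g => H56.O.ofInv (barL g) (barL g⁻¹) (barL_q g)
  (fun x => by rw [← Module.End.mul_apply, ← barL_mul, mul_inv_cancel, barL_one]; rfl)
  fun x => by rw [← Module.End.mul_apply, ← barL_mul, inv_mul_cancel, barL_one]; rfl)
  fun g h => H56.O.ext fun x => by simp [barL_mul]

theorem barW_aS (g : W) (j : Fin 8) : barW g (aS j) = ∑ i, (hz g i j : ZMod 2) • aS i := by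
  have := barL_sum g (Pi.single j 1)
  rw [Finset.sum_eq_single j (fun i _ h => by simp [h]) (by simp)] at this
  show barL g _ = _
  simpa using this

theorem barW_sr (i : Fin 8) : barW (sr i) = rf (aS i) := aS_E8D.ext fun j => by
  let M : Fin 8 → Z8 := fun i => of fun k j => (if k = j then 1 else 0) - if k = i then Cz i j else 0
  have h1 : ∀ i, srZ i * Pz = (2 : ℤ) • (Pz * M i) := by decide +kernel
  have h2 : ∀ i j, ∑ k, (M i k j : ZMod 2) • aS k = aS j + bf (aS i) (aS j) • aS i := by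
    decide +kernel
  rw [barW_aS, rf_apply (aS_E8D.q i), B8_eq, ← h2, hz_eq (A := M i) (by
    rw [sr, m_mkZ, Matrix.smul_mul, P, ← cz_mul, h1, cz_smul, smul_smul, cz_mul]; norm_num)]

theorem barW_neg : barW neg = 1 := aS_E8D.ext fun j => by
  rw [barW_aS, hz_eq (A := (-1 : ℤ) • 1) (by rw [m_neg, cz_smul, cz_one]; simp),
    Finset.sum_eq_single j (fun i _ h => by simp [h]) (by simp)]
  simp

theorem barW_ker {g : W} (h : barW g = 1) : g = 1 ∨ g = neg := by
  have h1 : ∀ i j, (2 : ℤ) ∣ hz g i j - (1 : Z8) i j := fun i j => by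
    have e := barW_aS g j
    rw [h, H56.O.one_apply] at e
    have := congrArg (fun v => bS.repr v i) e
    simp only [← bS_apply, bS.repr_sum_self, bS.repr_self, Finsupp.single_apply] at this
    refine (ZMod.intCast_eq_intCast_iff_dvd_sub _ _ 2).1 ?_
    rw [← this, one_apply]
    simp [eq_comm]
  choose K hK using h1
  have h2 : hz g = 1 + (2 : ℤ) • of K := by
    ext i j; rw [Matrix.add_apply, Matrix.smul_apply, of_apply, smul_eq_mul, ← hK]; ring
  have cadd : ∀ A B : Z8, cz (A + B) = cz A + cz B := fun A B => by ext i j; simp [cz_apply]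
  set Y : Z8 := of K * Ci * Pzᵀ
  have h3 : g.m = cz (1 + Pz * Y) := smul_right_injective M8 (two_ne_zero (α := ℚ)) (by
    calc (2 : ℚ) • g.m = g.m * P * cz Ci * Pᵀ := by
          rw [mul_assoc, mul_assoc, ← mul_assoc P, P_Ci]; simp
      _ = _ := by
          rw [hz_spec, h2, cadd, cz_one, mul_add, add_mul, add_mul, mul_one, P_Ci, cadd, cz_one,
            cz_smul]
          simp [Y, cz_mul, cz_transpose, P, mul_assoc])
  have h4 : (1 + Pz * Y)ᵀ * (1 + Pz * Y) = 1 :=
    cz_inj (by rw [cz_mul, cz_transpose, ← h3, g.orth, cz_one])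
  have h5 : ∀ i j, i ≠ j → (1 + Pz * Y) i j = 0 := fun i j hij => by
    have e1 := congrFun (congrFun h4 j) j
    have e2 : ((Pz * Y)ᵀ * (Pz * Y)) j j = 2 * (2 * ((fun i => Y i j) ⬝ᵥ Uz *ᵥ fun i => Y i j)) := by
      rw [← form_Cz, transpose_mul, mul_assoc, ← mul_assoc Pzᵀ, Pz_gram, Matrix.smul_mul,
        Matrix.mul_smul]
      rfl
    have e3 := e1
    rw [transpose_add, add_mul, mul_add, mul_add, transpose_one, one_mul, one_mul, mul_one] at e3
    simp only [Matrix.add_apply, transpose_apply, e2] at e3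
    have e4 : (1 + Pz * Y) j j ≠ 0 := by rw [Matrix.add_apply, one_apply_eq]; omega
    rw [mul_apply, one_apply_eq] at e1
    have e5 := Finset.sum_le_sum_of_subset_of_nonneg (Finset.subset_univ {i, j})
      (f := fun k => (1 + Pz * Y)ᵀ j k * (1 + Pz * Y) k j) fun k _ _ => mul_self_nonneg _
    rw [e1, Finset.sum_pair hij, transpose_apply, transpose_apply] at e5
    have := mul_self_pos.2 e4
    exact mul_self_eq_zero.1 (le_antisymm (by omega) (mul_self_nonneg _))
  obtain ⟨y, hy, rfl⟩ := eq_ep_of_comm (g := g) fun x _ _ => W.ext (by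
    ext i j
    rw [m_mul, m_mul, m_ep, mul_diagonal, diagonal_mul, h3, cz_apply]
    by_cases e : i = j
    · rw [e, mul_comm]
    · simp [h5 i j e])
  have k : ∀ y < 256, y = 0 ∨ y = 255 ∨
      ∃ i j, (Pzᵀ * (diagonal (sg y) * Pz) - Pzᵀ * Pz) i j % 4 ≠ 0 := by decide +kernel
  rcases k y hy with rfl | rfl | ⟨i, j, e⟩
  · exact Or.inl ep_zero
  · exact Or.inr rfl
  · have e1 : diagonal (sg y) * Pz = Pz * hz (ep y) := cz_inj (by
      rw [cz_mul, cz_mul, ← P, ← hz_spec, m_ep]
      exact congrArg (· * P) (diagonal_map (map_zero _)))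
    rw [e1, h2, mul_add, mul_one, mul_add, add_sub_cancel_left, ← mul_assoc, Pz_gram,
      smul_mul_smul_comm, Matrix.smul_apply, smul_eq_mul] at e
    omega

theorem dt_sr (i : Fin 8) : dt (sr i) = -1 := by
  have h : ∀ i j, CoxeterMatrix.E₈ i j = 3 → dt (sr j) = -1 → dt (sr i) = -1 := fun i j e h => by
    have := congrArg dt (sr_lift i j)
    rw [e, pow_succ, pow_two] at this
    simp only [dt_mul, h, dt_one] at this
    exact (dt_cases _).resolve_left fun e => by rw [e] at this; norm_num at this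
  have h0 : dt (sr 0) = -1 := sr_zero ▸ dt_ep_one
  have h2 := h 2 0 rfl h0
  have h3 := h 3 2 rfl h2
  have h4 := h 4 3 rfl h3
  have h5 := h 5 4 rfl h4
  have h6 := h 6 5 rfl h5
  fin_cases i
  exacts [h0, h 1 3 rfl h3, h2, h3, h4, h5, h6, h 7 6 rfl h6]

theorem jobQ : JobQ := by
  refine ⟨barW, MonoidHom.range_eq_top.1 (top_of_aS fun i => ⟨_, barW_sr i⟩), fun g =>
    ⟨barW_ker, fun h => h.elim (· ▸ map_one _) (· ▸ barW_neg)⟩, fun g => ?_, barW_sr⟩
  let K : Subgroup W :=
    { carrier := {g | barW g ∈ Om ↔ g ∈ W'}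
      one_mem' := by simp
      mul_mem' := fun {a b} ha hb => by
        change _ ↔ _ at *
        rw [map_mul, Subgroup.mul_mem_iff_of_index_two index_Om,
          Subgroup.mul_mem_iff_of_index_two index_W', ha, hb]
      inv_mem' := fun {a} ha => by
        change _ ↔ _ at *
        rwa [map_inv, inv_mem_iff, inv_mem_iff] }
  obtain ⟨k, hk, e⟩ := (top_of_aS (H := K.map barW) fun i => ⟨sr i, iff_of_false
    (barW_sr i ▸ rf_not_mem (aS_E8D.q i)) (by rw [mem_W', dt_sr]; norm_num), barW_sr i⟩).ge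
    (Subgroup.mem_top (barW g))
  have hn : neg ∈ K := iff_of_true (barW_neg ▸ one_mem _) dt_neg
  rcases barW_ker (g := g * k⁻¹) (by rw [map_mul, map_inv, e, mul_inv_cancel]) with h | h <;>
    rw [mul_inv_eq_iff_eq_mul.1 h]
  exacts [K.mul_mem K.one_mem hk, K.mul_mem hn hk]

theorem jobINV : JobINV := by
  let A : ℕ → Z8 := fun x => Pzᵀ * diagonal (sg x) * Pz
  have hA : ∀ x, Pᵀ * (ep x).m * P = cz (A x) := fun x => by
    rw [cz_mul, cz_mul, cz_transpose, m_ep]
    exact congrArg (Pᵀ * · * P) (diagonal_map (f := Int.castRingHom ℚ) (map_zero _)).symm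
  have k1 : ∀ x < 256, isH x = true ∨ ∃ i, A x i i % 4 ≠ 0 := by decide +kernel
  have k2 : ∀ x < 256, isH x = false ∨ ∃ B : Z8, B = (of fun i j =>
      if i = j then A x i j / 4 else if i < j then A x i j / 2 else 0) ∧
      A x = (2 : ℤ) • (B + Bᵀ) := by
    simp only [exists_eq_left]; decide +kernel
  have key : ∀ (g : W) (x y : ℕ), x < 256 → y < 256 → g * ep x * g⁻¹ = ep y → isH y = true →
      isH x = true := fun g x y hx hy e h => (k1 x hx).resolve_right fun ⟨i, hi⟩ => by
    obtain ⟨B, -, hB⟩ := (k2 y hy).resolve_left (by simp [h])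
    have h1 := hz_conj g _ _ (hA x) (hA y) (by
      rw [← e, ← m_inv, ← m_mul, ← m_mul]; exact congrArg W.m (by group))
    rw [← h1, hB, Matrix.mul_smul, Matrix.smul_mul, mul_add, add_mul, Matrix.smul_apply,
      Matrix.add_apply, show ((hz g)ᵀ * Bᵀ * hz g) i i = ((hz g)ᵀ * B * hz g) i i by
        rw [← transpose_apply ((hz g)ᵀ * Bᵀ * hz g) i i, transpose_mul, transpose_mul, transpose_transpose,
          transpose_transpose, mul_assoc], smul_eq_mul] at hi
    omega
  intro g x y hx hy e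
  exact Bool.eq_iff_iff.2 ⟨key g⁻¹ y x hy hx (by rw [← e]; group), key g x y hx hy e⟩

def e44 : Fin 4 ⊕ Fin 4 ≃ Fin 8 := ⟨Sum.elim ![0, 2, 4, 6] ![1, 3, 5, 7],
  ![.inl 0, .inr 0, .inl 1, .inr 1, .inl 2, .inr 2, .inl 3, .inr 3], by decide, by decide⟩

theorem jobCD : JobCD := by
  have key : ∀ g : W, g * J0 = J0 * g → dt g = 1 := fun g h => by
    let e := e44
    have hJ : J0.m.submatrix e e = J (Fin 4) ℚ := by
      have k : (of fun a b => sg 85 (e44 a) * if ap tau (e44 b) = e44 a then 1 else 0) =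
          J (Fin 4) ℤ := by decide +kernel
      rw [← map_J (Fin 4) (Int.castRingHom ℚ), ← k]
      ext a b
      rw [submatrix_apply, J0, m_mul, m_ep, diagonal_mul, m_pm ok_tau]
      simp [Fin.ext_iff, pe_val, e]
    have := SymplecticGroup.det_eq_one (M := g.m.submatrix e e) (SymplecticGroup.mem_iff.2 (by
      rw [← hJ, transpose_submatrix, submatrix_mul_equiv, submatrix_mul_equiv, ← m_mul, h, m_mul,
        mul_assoc, g.orth', mul_one]))
    rwa [det_submatrix_equiv_self] at this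
  rintro g (h | h)
  · exact key g h
  · have h1 : ep 85 * J0 = neg * (J0 * ep 85) := by
      rw [J0, mul_assoc, pm_ep ok_tau, ← mul_assoc, ← mul_assoc, ← mul_assoc, neg, ← ep_xor,
        ← ep_xor, ← ep_xor]
      exact congrArg (ep · * _) (by decide +kernel)
    have := key (g * ep 85) (by
      rw [mul_assoc, h1, ← mul_assoc, ← neg_comm, mul_assoc, ← mul_assoc g, h, mul_assoc neg,
        ← mul_assoc neg, neg_sq, one_mul, mul_assoc])
    rwa [dt_mul, dt_ep (by norm_num), if_pos (by decide), mul_one] at this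

end H11.E8
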