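import Cfsg.Agent.H11.FBSpec

/-! # S3404: assembly of the tower FB from its jobs -/

set_option autoImplicit false

namespace H11.FB

open MulAction Subgroup

universe u v

/-- the context of case B -/
theorem cx_of (hCD : JobCD.{u, v}) (hFH : JobFH.{u}) (hFP : JobFP.{u, v}) (hTy : TySt.{u, v})
    (hTH1 : JobTH1.{u, v}) (hTH2 : JobTH2.{u, v}) (hPH1 : JobPH1.{u, v}) (hST : JobST.{u, v})
    (hP4 : JobP4.{u, v}) {G : Type u} {Ω : Type v} [Group G] [Finite G] [Fintype Ω] [DecidableEq Ω]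
    [MulAction G Ω] [FaithfulSMul G Ω] {a b c d : Ω} {K H : Subgroup G} (hy : Hy a b c d K H)
    (ho : Odd (Nat.card H)) : ∃ P, Cx a b c d K H P := by
  have cd := hCD hy
  have fh := hFH hy.fr ho
  obtain ⟨P, pd⟩ := hFP hy cd ho
  have p1 := hPH1 hTy hy ho pd
  have h7 : Odd (Fintype.card Ω) → (fixedPoints P Ω).ncard = 7 := fun h => by
    have h1 := p1.par
    have h2 := Nat.odd_iff.1 h
    have h3 := hST hy pd (Nat.odd_iff.2 (by omega))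
    rcases p1.card with e | e | e | e | e <;> rw [e] at h1 h3 <;> omega
  refine ⟨P, hy, cd, ho, fh, pd, p1, ⟨h7, fun h => ?_⟩, fun h hh hp => (hTH1 hTy hy ho fh h hh hp).2,
    fun h hh hp => hTH2 hy h hh hp (hTH1 hTy hy ho fh h hh hp).1 (hTH1 hTy hy ho fh h hh hp).2⟩
  have := hP4 hy pd
  rwa [h7 h] at this

/-- case B -/
theorem caseB (hN2 : ∀ {G : Type u} {Ω : Type v} [Group G] [Finite G] [Fintype Ω] [DecidableEq Ω]
      [MulAction G Ω] [FaithfulSMul G Ω] {a b c d : Ω} {K H P : Subgroup G}, Cx a b c d K H P →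
      NoP (X3 G a b c) 2 ∨ Concl G) (hNo : NoSt.{u, v}) (hB7 : JobB7.{u, v})
    (h4 : Br.{u, v} 4) (h5 : Br.{u, v} 5) (h6 : Br.{u, v} 6) (h11 : Br.{u, v} 11)
    {G : Type u} {Ω : Type v} [Group G] [Finite G] [Fintype Ω] [DecidableEq Ω]
    [MulAction G Ω] [FaithfulSMul G Ω] {a b c d : Ω} {K H P : Subgroup G} (cx : Cx a b c d K H P) :
    Concl G := by
  rcases hN2 cx with n2 | h
  swap
  · exact h
  have H1 : Nat.card H ≠ 1 := fun e => cx.hy.fr.Hne (card_eq_one.1 e)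
  have hr := Nat.minFac_prime H1
  have : Fact (Nat.card H).minFac.Prime := ⟨hr⟩
  obtain ⟨h, hh⟩ := exists_prime_orderOf_dvd_card' (G := H) _ (Nat.minFac_dvd (Nat.card H))
  have ho : orderOf (h : G) = (Nat.card H).minFac := by rw [orderOf_coe, hh]
  have hp : (orderOf (h : G)).Prime := ho ▸ hr
  have key : ∀ θ : ℕ, (fixedBy Ω (h : G)).ncard = θ → (θ = 4 ∨ θ = 5 ∨ θ = 6 ∨ θ = 11) →
      ∀ p : ℕ, p.Prime → (p ≠ 3 ∨ θ ≠ 6) → NoP (X3 G a b c) p := by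
    intro θ e hθ p pp hp3
    by_cases p2 : p = 2
    · exact p2 ▸ n2
    intro O l n pg
    obtain ⟨k1, k2⟩ := hNo cx h.2 hp pp p2 l n pg
    refine k1 fun x hx hc => ?_
    have : Fact p.Prime := ⟨pp⟩
    obtain ⟨m, hm⟩ := IsPGroup.iff_card.1 (pg.to_inf_left (K := centralizer {(h : G)}))
    rw [hm, e] at k2
    have m0 : m = 0 := by
      by_contra m0
      have k3 : p ∣ θ - 3 := (dvd_pow_self p m0).trans k2
      have k4 := pp.two_le
      rcases hθ with rfl | rfl | rfl | rfl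
      · exact pp.one_lt.ne' (Nat.dvd_one.1 k3)
      · exact p2 ((Nat.prime_dvd_prime_iff_eq pp Nat.prime_two).1 k3)
      · rcases hp3 with h3 | h3
        · exact h3 ((Nat.prime_dvd_prime_iff_eq pp Nat.prime_three).1 k3)
        · exact h3 rfl
      · exact p2 ((Nat.prime_dvd_prime_iff_eq pp Nat.prime_two).1
          (pp.dvd_of_dvd_pow (show p ∣ 2 ^ 3 from k3)))
    rw [m0, pow_zero, card_eq_one] at hm
    exact mem_bot.1 (hm.le ⟨hx, mem_centralizer_singleton_iff.2 hc.symm⟩)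
  rcases (cx.th1 h h.2 hp).card with e | e | e | e | e
  · exact h4 cx h.2 ho e (key 4 e (by simp))
  · exact h5 cx h.2 ho e (key 5 e (by simp))
  · exact h6 cx h.2 ho e (key 6 e (by simp))
  · exact (hB7 cx h.2 ho e).elim
  · exact h11 cx h.2 ho e (key 11 e (by simp))

/-- all the jobs -/
structure All : Prop where
  FR : JobFR.{u, v}
  CD : JobCD.{u, v}
  FA : JobFA.{u}
  FH : JobFH.{u}
  FP : JobFP.{u, v}
  OD : JobOD.{u, v}
  OR : JobOR.{u, v}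
  RG : JobRG.{u, v}
  Q2 : JobQ2.{u}
  SM : JobSM.{u, v}
  A12 : JobA12.{u, v}
  A1 : JobA1.{u, v}
  A2 : JobA2.{u, v}
  TW : JobTW.{u, v}
  TS1 : JobTS1.{u, v}
  TS2 : JobTS2.{u, v}
  TH1 : JobTH1.{u, v}
  TH2 : JobTH2.{u, v}
  PH1 : JobPH1.{u, v}
  ST : JobST.{u, v}
  P4 : JobP4.{u, v}
  BU : JobBU.{u}
  SV : JobSV.{u}
  EV : JobEV.{u, v}
  FI : JobFI.{u}
  TQ : JobTQ.{u}
  NO : JobNO.{u, v}
  ONa : JobONa.{u, v}
  ONb : JobONb.{u, v}
  ONc : JobONc.{u, v}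
  ONd : JobONd.{u, v}
  ON3 : JobON3.{u, v}
  N2 : JobN2.{u, v}
  N3a : JobN3a.{u, v}
  N3 : JobN3.{u, v}
  B7 : JobB7.{u, v}
  H3 : JobH3.{u, v}
  B0 : JobB0.{u, v}
  B2a : JobB2a.{u, v}
  B2b : JobB2b.{u, v}
  B2c : JobB2c.{u, v}
  B1 : JobB1.{u, v}
  CH : JobCH.{u}
  AL1 : JobAL1.{u, v}
  AL2a : JobAL2a.{u, v}
  AL2b : JobAL2b.{u, v}
  AP : JobAP.{u, v}
  S3 : JobS3.{u, v}
  J4 : JobJ4.{u, v}
  J11 : JobJ11.{u, v}
  J6 : JobJ6.{u, v}
  J5 : JobJ5.{u, v}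

theorem main (j : All.{u, v}) {G : Type u} [Group G] [Finite G] {Ω : Type v} [Fintype Ω]
    [MulAction G Ω] [FaithfulSMul G Ω] (h4 : IsMultiplyPretransitive G Ω 4) (a b c d : Ω)
    (hn : D4 a b c d) (hF : ∃ H : Subgroup (L4 G a b c d), Cfsg.IsFrobeniusComplement H) :
    Concl G := by
  classical
  obtain ⟨K, H, hy⟩ := j.FR h4 a b c d hn hF
  rcases Nat.even_or_odd (Nat.card H) with he | ho
  · obtain ⟨t, ea⟩ := j.FA hy.fr he
    rcases Nat.even_or_odd (Fintype.card Ω) with hn | hn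
    · exact (j.A1 (j.OR j.OD) j.RG j.A12 hy (j.CD hy) ea hn).elim
    · exact j.A2 (j.OR j.OD) j.RG j.Q2 j.SM hy (j.CD hy) ea hn
  · obtain ⟨P, cx⟩ := cx_of j.CD j.FH j.FP (tySt j.TW j.TS1 j.TS2) j.TH1 j.TH2 j.PH1 j.ST j.P4 hy ho
    have on : OnSt.{u, v} := onSt j.ONa j.ONb j.ONc j.ONd j.ON3
    have no : NoSt.{u, v} := j.NO j.TQ
    exact caseB (j.N2 on) no j.B7 (j.J4 j.BU j.SV j.FI)
      (j.J5 j.BU j.SV j.FI j.H3 (j.AP j.BU j.EV) (j.AL1 j.CH) j.AL2a j.AL2b j.S3)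
      (j.J6 j.BU j.SV j.FI (j.N3 on no j.TQ j.N3a) (j.B1 j.B0 (j.B2c j.B0 j.B2a j.B2b)))
      (j.J11 j.BU j.SV j.FI j.EV j.H3) cx

end H11.FB
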