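import Cfsg.Prelude.Def_LocalEven
import Cfsg.Agent.Base

/-! `p`-minimal groups with a simple normal subgroup: reduction to a configuration of automorphisms
of the normal subgroup. -/

set_option autoImplicit false

namespace H11.PMin

/-- A `p`-group `A` of automorphisms fixing `V`, with a largest proper invariant overgroup `M`. -/
structure Cfg (p : ℕ) {H : Type*} [Group H] (V : Subgroup H) (A : Subgroup (MulAut H))
    (M : Subgroup H) : Prop where
  pA : IsPGroup p A
  fixV : ∀ a ∈ A, V.map a.toMonoidHom = V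
  ne : M ≠ ⊤
  fixM : ∀ a ∈ A, M.map a.toMonoidHom = M
  leN : Subgroup.normalizer (V : Set H) ≤ M
  max : ∀ P : Subgroup H, P ≠ ⊤ → (∀ a ∈ A, P.map a.toMonoidHom = P) → V ≤ P → P ≤ M

/-- All automorphisms in `A` are induced by elements of `V`. -/
def Inner {H : Type*} [Group H] (V : Subgroup H) (A : Subgroup (MulAut H)) : Prop :=
  ∀ a ∈ A, ∃ v ∈ V, a = MulAut.conj v

theorem map_eq_of_forall {G : Type*} [Group G] [Finite G] (θ : G ≃* G) {P : Subgroup G}
    (h : ∀ g ∈ P, θ g ∈ P) : P.map θ.toMonoidHom = P :=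
  Subgroup.eq_of_le_of_card_ge (by rintro _ ⟨g, hg, rfl⟩; exact h g hg)
    (Subgroup.card_map_of_injective θ.injective).ge

theorem exists_cfg {X : Type*} [Group X] [Finite X] {p : ℕ} [Fact p.Prime]
    (hX : Cfsg.IsPMinimal p X) (K : Subgroup X) [K.Normal] [IsSimpleGroup K] (U : Sylow p K)
    (hU : Subgroup.normalizer ((U : Subgroup K) : Set K) ≠ ⊤) :
    ∃ (A : Subgroup (MulAut K)) (M : Subgroup K), Cfg p (U : Subgroup K) A M ∧
      (K = ⊤ → Inner (U : Subgroup K) A) ∧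
      (M ≤ Subgroup.normalizer ((U : Subgroup K) : Set K) →
        IsCoatom (Subgroup.normalizer (((U : Subgroup K).map K.subtype : Subgroup X) : Set X))) := by
  obtain ⟨S, hS⟩ := (U.2.map K.subtype).exists_le_sylow
  obtain ⟨-, M, ⟨hM, hSM⟩, huniq⟩ := hX S
  have hle : ∀ Q : Subgroup X, (S : Subgroup X) ≤ Q → Q ≠ ⊤ → Q ≤ M := fun Q h1 h2 => by
    obtain ⟨N, hN, h3⟩ := (eq_top_or_exists_le_coatom Q).resolve_left h2
    exact huniq N ⟨hN, h1.trans h3⟩ ▸ h3
  have hSK : (S : Subgroup X).subgroupOf K = U :=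
    U.3 (S.2.comap_of_injective _ K.subtype_injective) (Subgroup.map_le_iff_le_comap.1 hS)
  have hmem : ∀ k : K, k ∈ (U : Subgroup K) ↔ (k : X) ∈ (S : Subgroup X) := fun k => by
    rw [← hSK, Subgroup.mem_subgroupOf]
  set U' : Subgroup X := (U : Subgroup K).map K.subtype with hU'
  have hnor : ∀ (P : Subgroup K) (x : X), (∀ k ∈ P, MulAut.conjNormal x k ∈ P) →
      x ∈ Subgroup.normalizer ((P.map K.subtype : Subgroup X) : Set X) := fun P x h =>
    Subgroup.mem_normalizer_fintype (by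
      rintro _ ⟨k, hk, rfl⟩
      exact ⟨_, h k hk, by simp⟩)
  have hnor' : ∀ (P : Subgroup K) (x : K),
      (x : X) ∈ Subgroup.normalizer ((P.map K.subtype : Subgroup X) : Set X) →
      x ∈ Subgroup.normalizer (P : Set K) := fun P x h =>
    Subgroup.mem_normalizer_fintype fun k hk => by
      obtain ⟨y, hy, e⟩ := (Subgroup.mem_normalizer_iff.1 h k).1 ⟨k, hk, rfl⟩
      rwa [show x * k * x⁻¹ = y from Subtype.ext e.symm]
  have hSU : ∀ s ∈ (S : Subgroup X), ∀ k ∈ (U : Subgroup K), MulAut.conjNormal s k ∈ (U : Subgroup K) :=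
    fun s hs k hk => by
      rw [hmem, MulAut.conjNormal_apply]
      exact (S : Subgroup X).mul_mem ((S : Subgroup X).mul_mem hs ((hmem k).1 hk))
        ((S : Subgroup X).inv_mem hs)
  have hNM : Subgroup.normalizer (U' : Set X) ≤ M := hle _ (fun s hs => hnor _ s (hSU s hs)) fun e =>
    hU (eq_top_iff.2 fun x _ => hnor' _ x (e.ge (Subgroup.mem_top _)))
  have hKM : ¬ K ≤ M := fun h => hM.1 (eq_top_iff.2
    ((Sylow.normalizer_sup_eq_top U).ge.trans (sup_le hNM h)))
  have hMc : ∀ m ∈ M, ∀ k ∈ M.subgroupOf K, MulAut.conjNormal m k ∈ M.subgroupOf K :=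
    fun m hm k hk => by
      rw [Subgroup.mem_subgroupOf, MulAut.conjNormal_apply]
      exact M.mul_mem (M.mul_mem hm hk) (M.inv_mem hm)
  refine ⟨(S : Subgroup X).map MulAut.conjNormal, M.subgroupOf K, ⟨S.2.map _, ?_, ?_, ?_, ?_, ?_⟩,
    fun h => ?_, fun h => ?_⟩
  · rintro _ ⟨s, hs, rfl⟩
    exact map_eq_of_forall _ (hSU s hs)
  · rwa [Ne, Subgroup.subgroupOf_eq_top]
  · rintro _ ⟨s, hs, rfl⟩
    exact map_eq_of_forall _ (hMc s (hSM hs))
  · intro x hx
    refine hNM (hnor _ (x : X) fun k hk => ?_)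
    rw [MulAut.conjNormal_val]
    exact (Subgroup.mem_normalizer_iff.1 hx k).1 hk
  · intro P h1 h2 _
    by_cases h3 : Subgroup.normalizer ((P.map K.subtype : Subgroup X) : Set X) = ⊤
    · have : P.Normal := Subgroup.normalizer_eq_top_iff.1
        (eq_top_iff.2 fun x _ => hnor' _ x (h3.ge (Subgroup.mem_top _)))
      rw [this.eq_bot_or_eq_top.resolve_right h1]
      exact bot_le
    · exact Subgroup.map_le_iff_le_comap.1 (Subgroup.le_normalizer.trans (hle _ (fun s hs =>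
        hnor _ s fun k hk => (h2 _ ⟨s, hs, rfl⟩).le ⟨k, hk, rfl⟩) h3))
  · rintro _ ⟨s, hs, rfl⟩
    exact ⟨⟨s, h.ge (Subgroup.mem_top s)⟩, (hmem _).2 hs, MulAut.conjNormal_val (h := (⟨s, _⟩ : K))⟩
  · have hUM : (U : Subgroup K) ≤ M.subgroupOf K := fun k hk => hSM ((hmem k).1 hk)
    rwa [le_antisymm hNM fun m hm => hnor _ m fun k hk => ?_]
    have h1 := (U.2.map (MulAut.conjNormal m : MulAut K).toMonoidHom).inf_normalizer_sylow U
    exact (h1.le ⟨⟨k, hk, rfl⟩, h (hMc m hm k (hUM hk))⟩).2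

end H11.PMin
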