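import Cfsg.Agent.H11.PMin1
import Cfsg.Agent.H54.LieAut
import Cfsg.Agent.H68.TwAut
import Cfsg.Agent.H64.Rank2

/-! A group of automorphisms transitive on the nodes of the diagram of a finite simple group of
Lie type forces rank at most two. -/

set_option autoImplicit false
set_option linter.unusedSectionVars false

namespace H11.PMin

open H64 H54 H68.GA

section W

variable {Φ ι : Type*} (R : WData Φ ι)

theorem pos_of_pos_p {J : Set ι} {w : R.W} (h : ∀ j ∈ J, R.pos (w.1 (R.p j))) :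
    ∀ r ∈ R.PhiJ J, R.pos r → R.pos (w.1 r) := by
  obtain ⟨v, hv, hd⟩ := R.exists_min_coset J w
  by_cases h1 : v⁻¹ = 1
  · rwa [inv_eq_one.1 h1, mul_one] at hd
  obtain ⟨i, hi, h2⟩ := R.exists_descent (inv_mem hv) h1
  have h3 := hd _ (R.neg_mem_PhiJ (R.apply_mem_PhiJ (inv_mem hv) (R.p_mem_PhiJ hi)))
    ((R.pos_neg _).2 h2)
  rw [R.w_neg, R.mul_apply, R.apply_inv_apply, R.pos_neg] at h3
  exact absurd (h i hi) h3

theorem neg_of_neg_p [Finite Φ] {J : Set ι} {w : R.W} (h : ∀ j ∈ J, ¬ R.pos (w.1 (R.p j))) :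
    ∀ r ∈ R.PhiJ J, R.pos r → ¬ R.pos (w.1 r) := by
  obtain ⟨w0, h0⟩ := R.exists_w0
  intro r hr hp
  have := pos_of_pos_p R (w := w0 * w) (fun j hj => by rw [R.mul_apply, h0]; exact h j hj) r hr hp
  rwa [R.mul_apply, h0] at this

/-- adjacency in the diagram -/
def Adj (i j : ι) : Prop := i ≠ j ∧ R.s i (R.p j) ≠ R.p j

theorem adj_iff [Finite Φ] {i j : ι} : Adj R i j ↔ R.s i * R.s j ≠ R.s j * R.s i := by
  constructor
  · exact fun h e => h.2 (GRD.s_p_of_comm h.1.symm e.symm)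
  · refine fun h => ⟨by rintro rfl; exact h rfl, fun e => h ?_⟩
    exact congrArg Subtype.val (R.conjW (R.sW i) e)

theorem Adj.symm [Finite Φ] {i j : ι} (h : Adj R i j) : Adj R j i := (adj_iff R).2 ((adj_iff R).1 h).symm

/-- A finite reflection group has a node with at most one neighbour. -/
theorem not_two_nbrs [Finite Φ] (i₀ : ι) (h : ∀ i, ∃ j k, j ≠ k ∧ Adj R i j ∧ Adj R i k) : False := by
  have key : ∀ n : ℕ, ∃ (w : R.W) (i i' : ι), R.len w = n + 1 ∧ (∀ l, l ≠ i → R.pos (w.1 (R.p l))) ∧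
      ∀ l, l ≠ i' → R.pos ((w * R.sW i).1 (R.p l)) := by
    intro n
    induction n with
    | zero =>
      exact ⟨R.sW i₀, i₀, i₀, R.len_sW i₀,
        fun l hl => R.s_pos i₀ _ (R.pos_p l) fun e => hl (R.p_inj e),
        fun l _ => by rw [R.sW_mul_sW]; exact R.pos_p l⟩
    | succ n ih =>
      obtain ⟨w, i, i', h1, h2, h3⟩ := ih
      obtain ⟨j, hj, hji⟩ : ∃ j, Adj R i j ∧ j ≠ i' := by
        obtain ⟨j, k, hjk, hj, hk⟩ := h i
        by_cases e : j = i'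
        · exact ⟨k, hk, fun e' => hjk (e.trans e'.symm)⟩
        · exact ⟨j, hj, e⟩
      have h4 := h2 j hj.1.symm
      refine ⟨w * R.sW j, j, i, by rw [R.len_mul_s_of_pos h4, h1], fun l hl => ?_,
        by rwa [mul_assoc, R.sW_mul_sW, mul_one]⟩
      by_contra hc
      have h5 := neg_of_neg_p R (J := {j, l}) (w := w * R.sW j) (by
        rintro k (rfl | rfl)
        · rwa [R.pos_mul_s_iff, not_not]
        · exact hc)
      have mj : R.sW j ∈ R.WJ {j, l} := R.sW_mem_WJ (Or.inl rfl)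
      have ml : R.sW l ∈ R.WJ {j, l} := R.sW_mem_WJ (Or.inr rfl)
      have h6 := h5 _ (R.apply_mem_PhiJ mj (R.p_mem_PhiJ (Or.inr rfl)))
        (R.s_pos j _ (R.pos_p l) fun e => hl (R.p_inj e))
      rw [R.mul_apply, R.sW_val, R.s_s] at h6
      obtain rfl : l = i := by_contra fun e => h6 (h2 l e)
      have h7 := h5 _ (R.apply_mem_PhiJ mj (R.apply_mem_PhiJ ml (R.p_mem_PhiJ (Or.inl rfl))))
        (R.s_pos j _ (R.s_pos l _ (R.pos_p j) fun e => hl (R.p_inj e).symm) hj.2)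
      rw [R.mul_apply, R.sW_val, R.s_s] at h7
      exact h7 (h3 j hji)
  obtain ⟨w, -, -, h1, -⟩ := key (Nat.card Φ)
  have := R.len_le_card w
  omega

end W

section G

variable {Φ ι : Type*} {R : WData Φ ι} {G : Type*} [Group G] (T : GRD R G) [Finite Φ]

/-- a standard automorphism maps the node `i` to the node `j` -/
def Sw (i j : ι) : Prop := ∃ θ : G ≃* G, Std T θ ∧ Mp T θ i j

variable {T}

theorem mp_unique {θ : G ≃* G} {i j k : ι} (h : Mp T θ i j) (h' : Mp T θ i k) : j = k :=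
  h.symm.inj h'.symm

theorem two_of_trans [IsSimpleGroup G] (hT : T.Gp = ⊤) (h : ∀ i j, Sw T i j) {i j : ι} (hij : i ≠ j)
    (k : ι) : k = i ∨ k = j := by
  by_contra! hk
  obtain ⟨a, b, c, hbc, hb, hc⟩ : ∃ a b c, b ≠ c ∧ Adj R a b ∧ Adj R a c := by
    obtain ⟨i', hi', b, hb, h1⟩ := T.connected hT {i} ⟨i, rfl⟩ ⟨j, hij.symm⟩
    rw [show i' = i from hi'] at h1
    obtain ⟨a, ha, c, hc, h2⟩ := T.connected hT {i, b} ⟨i, Or.inl rfl⟩ (by
      by_cases e : j = b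
      · exact ⟨k, by rintro (e' | e'); exacts [hk.1 e', hk.2 (e'.trans e.symm)]⟩
      · exact ⟨j, by rintro (e' | e'); exacts [hij e'.symm, e e']⟩)
    rcases ha with rfl | rfl
    · exact ⟨a, b, c, fun e => hc (Or.inr e.symm), (adj_iff R).2 h1, (adj_iff R).2 h2⟩
    · exact ⟨a, i, c, fun e => hc (Or.inl e.symm), ((adj_iff R).2 h1).symm, (adj_iff R).2 h2⟩
  refine not_two_nbrs R i fun x => ?_
  obtain ⟨θ, hθ, hx⟩ := h a x
  have key : ∀ b, Adj R a b → ∀ b', Mp T θ b b' → Adj R x b' := fun b hb b' hb' =>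
    ⟨fun e => hb.1 (hx.inj (e ▸ hb')), fun e => hb.2 (hx.symm.s_fix hb'.symm e)⟩
  obtain ⟨b', hb'⟩ := hθ.exists_mp hT b
  obtain ⟨c', hc'⟩ := hθ.exists_mp hT c
  exact ⟨b', c', fun e => hbc (hb'.inj (e ▸ hc')), key b hb b' hb', key c hc c' hc'⟩

theorem mem_of_X_le {J : Set ι} {k : ι} (h : T.X (R.neg (R.p k)) ≤ T.PJ J) : k ∈ J := by
  have h1 := T.eq_PJ_of_B_le (T.B_le_PJ J) (T.PJ_le_Gp J)
  exact T.n_mem_PJ_iff.1 (h1.ge (T.n_mem_PJ h))

theorem PJ_le {J : Set ι} {M : Subgroup G} (hB : T.B ≤ M) (h : ∀ j ∈ J, T.PJ {j} ≤ M) : T.PJ J ≤ M :=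
  sup_le hB ((Subgroup.closure_le _).2 (by rintro _ ⟨j, hj, rfl⟩; exact h j hj (T.n_mem_PJ rfl)))

theorem PJ_single_le {J : Set ι} {j : ι} (hj : j ∈ J) : T.PJ {j} ≤ T.PJ J :=
  sup_le_sup_left (Subgroup.closure_mono (Set.image_mono (Set.singleton_subset_iff.2 hj))) _

theorem PJ_single_inj {i j : ι} (h : T.PJ {i} = T.PJ {j}) : i = j :=
  (T.n_mem_PJ_iff (J := {j})).1 (h ▸ T.n_mem_PJ rfl)

theorem map_mul_aut (P : Subgroup G) (a b : MulAut G) :
    P.map (a * b).toMonoidHom = (P.map b.toMonoidHom).map a.toMonoidHom :=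
  (Subgroup.map_map P a.toMonoidHom b.toMonoidHom).symm

theorem map_conj_self {P : Subgroup G} {u : G} (hu : u ∈ P) :
    P.map (MulAut.conj u).toMonoidHom = P :=
  Subgroup.mem_normalizer_iff_map_conj_eq.1 (Subgroup.le_normalizer hu)

theorem sw_of_map [Finite G] (hT : T.Gp = ⊤) {a : MulAut G} (hU : T.U.map a.toMonoidHom = T.U)
    {i j : ι} (h : (T.PJ {i}).map a.toMonoidHom = T.PJ {j}) : Sw T i j := by
  obtain ⟨u, hu, hs⟩ := T.exists_std_U hT hU
  obtain ⟨k, hk⟩ := Std.exists_mp hT hs i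
  have h1 : T.X (R.neg (R.p k)) ≤ T.PJ {j} := by
    rw [← hk.2, ← map_conj_self (T.B_le_PJ {j} (T.U_le_B hu)), ← h, ← map_mul_aut]
    exact Subgroup.map_mono (T.X_le_PJ (R.neg_mem_PhiJ (R.p_mem_PhiJ rfl)))
  have h2 : k ∈ ({j} : Set ι) := mem_of_X_le h1
  rw [show k = j from h2] at hk
  exact ⟨_, hs, hk⟩

variable [Finite G] (hT : T.Gp = ⊤) {p : ℕ} {A : Subgroup (MulAut G)} {M : Subgroup G}
  (h : Cfg p T.U A M)
include hT h

theorem Cfg.trans [Nonempty ι] (i j : ι) :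
    ∃ a ∈ A, (T.PJ {i}).map a.toMonoidHom = T.PJ {j} := by
  have hB : T.B ≤ M := (normalizer_U hT).ge.trans h.leN
  obtain ⟨i₀, h0⟩ : ∃ i₀, ∀ j, ∃ a ∈ A, (T.PJ {i₀}).map a.toMonoidHom = T.PJ {j} := by
    by_contra! hc
    refine h.ne (eq_top_iff.2 (hT.ge.trans (T.PJ_univ.ge.trans (PJ_le hB fun i _ => ?_))))
    obtain ⟨j, hj⟩ := hc i
    let O : Set ι := {j | ∃ a ∈ A, (T.PJ {i}).map a.toMonoidHom = T.PJ {j}}
    refine (PJ_single_le (J := O) ⟨1, one_mem _, Subgroup.map_id _⟩).trans (h.max _ (fun e => ?_)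
      (fun a ha => ?_) (T.U_le_B.trans (T.B_le_PJ _)))
    · obtain ⟨a, ha, e⟩ := (T.n_mem_PJ_iff (J := O) (j := j)).1 (e.ge (Subgroup.mem_top _))
      exact hj a ha e
    · refine map_eq_of_forall _ (PJ_le (M := (T.PJ O).comap a.toMonoidHom) ?_ ?_)
      · exact Subgroup.map_le_iff_le_comap.1 ((map_B hT (h.fixV a ha)).le.trans (T.B_le_PJ _))
      · rintro k ⟨b, hb, e⟩
        obtain ⟨l, hl⟩ := exists_map_PJ hT (h.fixV a ha) k
        exact Subgroup.map_le_iff_le_comap.1 (hl.le.trans (PJ_single_le (J := O)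
          ⟨a * b, mul_mem ha hb, by rw [map_mul_aut, e, hl]⟩))
  obtain ⟨a, ha, e⟩ := h0 i
  obtain ⟨b, hb, e'⟩ := h0 j
  exact ⟨b * a⁻¹, mul_mem hb (inv_mem ha), by
    rw [← e', ← e, ← map_mul_aut, inv_mul_cancel_right]⟩

theorem Cfg.le_normalizer [Nonempty ι] : M ≤ Subgroup.normalizer (T.U : Set G) := by
  have hB : T.B ≤ M := (normalizer_U hT).ge.trans h.leN
  have h1 := T.eq_PJ_of_B_le hB (hT ▸ le_top)
  rw [normalizer_U hT, h1, ← T.PJ_empty]
  refine (congrArg T.PJ (Set.eq_empty_of_forall_notMem fun i hi => h.ne ?_)).le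
  refine eq_top_iff.2 (hT.ge.trans (T.PJ_univ.ge.trans (PJ_le hB fun j _ => ?_)))
  obtain ⟨a, ha, e⟩ := h.trans hT i j
  rw [← e, ← h.fixM a ha]
  exact Subgroup.map_mono ((PJ_single_le hi).trans h1.ge)

theorem Cfg.two [Fact p.Prime] [IsSimpleGroup G] {i j : ι} (hij : i ≠ j) :
    p = 2 ∧ ¬ Inner T.U A ∧ (∀ k, k = i ∨ k = j) ∧ Sw T i j := by
  have : Nonempty ι := ⟨i⟩
  have hs : ∀ i j, Sw T i j := fun i j => by
    obtain ⟨a, ha, e⟩ := h.trans hT i j
    exact sw_of_map hT (h.fixV a ha) e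
  have h2 := two_of_trans hT hs hij
  obtain ⟨a, ha, e⟩ := h.trans hT i j
  refine ⟨?_, fun hc => ?_, h2, hs i j⟩
  · have e' : (T.PJ {j}).map a.toMonoidHom = T.PJ {i} := by
      obtain ⟨k, hk⟩ := exists_map_PJ hT (h.fixV a ha) j
      rcases h2 k with rfl | rfl
      · exact hk
      · exact absurd (PJ_single_inj (Subgroup.map_injective a.injective (e.trans hk.symm))) hij
    have h3 : ∀ n : ℕ, (T.PJ {i}).map (a ^ (2 * n + 1)).toMonoidHom = T.PJ {j} := fun n => by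
      induction n with
      | zero => simpa using e
      | succ n ih => rw [show 2 * (n + 1) + 1 = 2 * n + 1 + 1 + 1 by ring, pow_succ', pow_succ',
          map_mul_aut, map_mul_aut, ih, e', e]
    obtain ⟨k, hk⟩ := h.pA ⟨a, ha⟩
    by_contra hp
    obtain ⟨n, hn⟩ := ((Fact.out : p.Prime).odd_of_ne_two hp).pow (n := k)
    have h4 := h3 n
    rw [← hn, show a ^ p ^ k = 1 from congrArg Subtype.val hk] at h4
    exact hij (PJ_single_inj ((Subgroup.map_id _).symm.trans h4))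
  · obtain ⟨v, hv, rfl⟩ := hc a ha
    rw [map_conj_self (T.B_le_PJ _ (T.U_le_B hv))] at e
    exact hij (PJ_single_inj e)

end G

section L

variable {p : ℕ} [Fact p.Prime] {G G' : Type*} [Group G] [Group G'] [Finite G] [Finite G']

theorem map_back (e : G ≃* G') (θ : G' ≃* G') {P Q : Subgroup G}
    (h : (P.map e.toMonoidHom).map θ.toMonoidHom = Q.map e.toMonoidHom) :
    P.map (e.trans (θ.trans e.symm)).toMonoidHom = Q := by
  change P.map ((e.symm.toMonoidHom.comp θ.toMonoidHom).comp e.toMonoidHom) = Q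
  rw [← Subgroup.map_map, ← Subgroup.map_map, h]
  rw [Subgroup.map_map]; simp

theorem Sw.of_congr {L : LieS p G} (e : G ≃* G') {i j : L.ι} (h : Sw (L.congr e).T i j) :
    Sw L.T i j := by
  obtain ⟨θ, h1, h2⟩ := h
  have hV : (L.congr e).T.V = L.T.V.map e.toMonoidHom := (map_gen _ _ _).symm
  refine ⟨e.trans (θ.trans e.symm), ⟨map_back e θ ?_, map_back e θ ?_⟩, map_back e θ h2.1,
    map_back e θ h2.2⟩
  · rw [← L.congr_U]; exact h1.1
  · rw [← hV]; exact h1.2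

/-- The conclusion for a group with a Lie structure. -/
theorem Cfg.lie [IsSimpleGroup G] {U : Sylow p G} {A : Subgroup (MulAut G)} {M : Subgroup G}
    (h : Cfg p (U : Subgroup G) A M) (L : LieS p G') (e : G ≃* G') {i j : L.ι} (hij : i ≠ j) :
    p = 2 ∧ ¬ Inner (U : Subgroup G) A ∧ (∀ k, k = i ∨ k = j) ∧ Sw L.T i j := by
  obtain ⟨g, hg⟩ := (L.congr e.symm).exists_conj_U U
  rw [← hg] at h ⊢
  obtain ⟨h1, h2, h3, h4⟩ := h.two ((L.congr e.symm).congr (MulAut.conj g)).top hij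
  exact ⟨h1, h2, h3, (h4.of_congr _).of_congr _⟩

theorem Cfg.not_three [IsSimpleGroup G] {U : Sylow p G} {A : Subgroup (MulAut G)} {M : Subgroup G}
    (h : Cfg p (U : Subgroup G) A M) (L : LieS p G') (e : G ≃* G') {n : ℕ} (hn : 3 ≤ n)
    (f : Fin n ≃ L.ι) : False := by
  obtain ⟨-, -, h3, -⟩ := h.lie L e (i := f ⟨0, by omega⟩) (j := f ⟨1, by omega⟩) (by simp)
  simpa [Fin.ext_iff] using h3 (f ⟨2, by omega⟩)

end L

end H11.PMin
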