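import Cfsg.Agent.H11.QdSylow
import Cfsg.Agent.H59.Std
import Cfsg.Agent.H90.PermMod

/-! Flag stabilizers have unipotent derived group; `p`-locals of three-dimensional unitary groups. -/

set_option autoImplicit false

namespace H11

open Cfsg Subgroup Module
open scoped commutatorElement

variable {F V G : Type*} [Field F] [AddCommGroup V] [Module F V] [Group G]

/-- The derived group of a group stabilizing `W₁ < W₂` (codimension one) is trivial on `W₂/W₁`. -/
theorem sub_mem_of_mem_commutator [FiniteDimensional F V] (ρ : G →* (V ≃ₗ[F] V)) (H : Subgroup G)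
    {W₁ W₂ : Submodule F V} (h12 : W₁ ≤ W₂) (hd : finrank F W₂ = finrank F W₁ + 1)
    (h1 : ∀ g ∈ H, ∀ v ∈ W₁, ρ g v ∈ W₁) (h2 : ∀ g ∈ H, ∀ v ∈ W₂, ρ g v ∈ W₂)
    {g : G} (hg : g ∈ ⁅H, H⁆) : ∀ v ∈ W₂, ρ g v - v ∈ W₁ := by
  have hlt : W₁ < W₂ := lt_of_le_of_ne h12 (by rintro rfl; omega)
  obtain ⟨e, he2, he1⟩ := SetLike.exists_of_lt hlt
  have hsup : W₁ ⊔ Submodule.span F {e} = W₂ := by
    refine Submodule.eq_of_le_of_finrank_le
      (sup_le h12 ((Submodule.span_singleton_le_iff_mem _ _).mpr he2)) ?_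
    have : W₁ < W₁ ⊔ Submodule.span F {e} := lt_of_le_of_ne le_sup_left fun h =>
      he1 (h ▸ Submodule.mem_sup_right (Submodule.mem_span_singleton_self e))
    have := Submodule.finrank_lt_finrank_of_lt this
    omega
  have hdec : ∀ v ∈ W₂, ∃ w ∈ W₁, ∃ a : F, v = w + a • e := by
    intro v hv
    rw [← hsup] at hv
    obtain ⟨w, hw, z, hz, rfl⟩ := Submodule.mem_sup.mp hv
    obtain ⟨a, rfl⟩ := Submodule.mem_span_singleton.mp hz
    exact ⟨w, hw, a, rfl⟩
  have hc : ∀ g ∈ H, ∃ c : F, ∀ v ∈ W₂, ρ g v - c • v ∈ W₁ := by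
    intro g hg
    obtain ⟨w, hw, c, hc⟩ := hdec _ (h2 g hg e he2)
    refine ⟨c, fun v hv => ?_⟩
    obtain ⟨u, hu, a, rfl⟩ := hdec v hv
    have : ρ g (u + a • e) - c • (u + a • e) = ρ g u - c • u + a • w := by
      rw [map_add, map_smul, hc]; module
    rw [this]
    exact W₁.add_mem (W₁.sub_mem (h1 g hg u hu) (W₁.smul_mem _ hu)) (W₁.smul_mem _ hw)
  let S : Subgroup G :=
    { carrier := {g | g ∈ H ∧ ∀ v ∈ W₂, ρ g v - v ∈ W₁}
      mul_mem' := by
        rintro a b ⟨ha, ha'⟩ ⟨hb, hb'⟩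
        refine ⟨H.mul_mem ha hb, fun v hv => ?_⟩
        have := W₁.add_mem (ha' _ (h2 b hb v hv)) (hb' v hv)
        simpa using this
      one_mem' := ⟨H.one_mem, fun v _ => by simp⟩
      inv_mem' := by
        rintro a ⟨ha, ha'⟩
        refine ⟨H.inv_mem ha, fun v hv => ?_⟩
        have := W₁.neg_mem (ha' _ (h2 _ (H.inv_mem ha) v hv))
        rwa [← LinearEquiv.mul_apply, ← map_mul, mul_inv_cancel, map_one, neg_sub] at this }
  suffices h : ⁅H, H⁆ ≤ S from (h hg).2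
  rw [commutator_le]
  intro a ha b hb
  refine ⟨H.mul_mem (H.mul_mem (H.mul_mem ha hb) (H.inv_mem ha)) (H.inv_mem hb), fun v hv => ?_⟩
  obtain ⟨c, hc'⟩ := hc a ha
  obtain ⟨d, hd'⟩ := hc b hb
  have hu : ρ (a⁻¹ * b⁻¹) v ∈ W₂ := h2 _ (H.mul_mem (H.inv_mem ha) (H.inv_mem hb)) v hv
  set u := ρ (a⁻¹ * b⁻¹) v with hu'
  have e1 : ρ ⁅a, b⁆ v = ρ a (ρ b u) := by
    rw [hu', ← LinearEquiv.mul_apply, ← LinearEquiv.mul_apply, ← map_mul, ← map_mul,
      commutatorElement_def]; congr 2; group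
  have e2 : v = ρ b (ρ a u) := by
    rw [hu', ← LinearEquiv.mul_apply, ← LinearEquiv.mul_apply, ← map_mul, ← map_mul]
    simp
  have : ρ ⁅a, b⁆ v - v = (ρ a (ρ b u) - c • ρ b u) + c • (ρ b u - d • u) -
      (ρ b (ρ a u) - d • ρ a u) - d • (ρ a u - c • u) := by
    rw [e1, ← e2]; module
  rw [this]
  exact W₁.sub_mem (W₁.sub_mem (W₁.add_mem (hc' _ (h2 b hb u hu)) (W₁.smul_mem _ (hd' u hu)))
    (hd' _ (h2 a ha u hu))) (W₁.smul_mem _ (hc' u hu))

theorem pow_eq_one_of_unipotent (p : ℕ) [Fact p.Prime] [CharP F p] (g : V ≃ₗ[F] V) {n k : ℕ}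
    (hg : ((g : V →ₗ[F] V) - 1) ^ n = 0) (hk : n ≤ p ^ k) : g ^ p ^ k = 1 := by
  rcases subsingleton_or_nontrivial V with hV | hV
  · ext v; exact Subsingleton.elim _ _
  have : CharP (Module.End F V) p := charP_of_injective_algebraMap' F p
  have h1 : ((g : Module.End F V) - 1) ^ p ^ k = 0 := pow_eq_zero_of_le hk hg
  rw [sub_pow_char_pow_of_commute _ _ (Commute.one_right _), one_pow, sub_eq_zero] at h1
  apply LinearEquiv.toLinearMap_injective
  exact (map_pow LinearEquiv.automorphismGroup.toLinearMapMonoidHom g _).trans h1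

variable {σ : F →+* F} {B : V →ₛₗ[σ] V →ₗ[F] F}

/-- In a group of isometries of a three-dimensional unitary space in characteristic `p`, the
derived group of every `p`-local subgroup is a `p`-group. -/
theorem isPGroup_commutator_normalizer_unitary (p : ℕ) [Fact p.Prime] [CharP F p] [Finite G]
    [FiniteDimensional F V] (hB : H59.IsHerm B) (h3 : finrank F V = 3) (ρ : G →* (V ≃ₗ[F] V))
    (hρ : Function.Injective ρ) (hiso : ∀ g, ρ g ∈ H59.isom B) (Q : Subgroup G)
    (hQ : IsPGroup p Q) (hQb : Q ≠ ⊥) :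
    IsPGroup p (⁅normalizer (Q : Set G), normalizer (Q : Set G)⁆ : Subgroup G) := by
  set N := normalizer (Q : Set G) with hN
  let W : Submodule F V :=
    { carrier := {v | ∀ g ∈ Q, ρ g v = v}
      add_mem' := fun ha hb g hg => by rw [map_add, ha g hg, hb g hg]
      zero_mem' := fun g _ => map_zero _
      smul_mem' := fun c v hv g hg => by rw [map_smul, hv g hg] }
  have hW : ∀ g ∈ N, ∀ v ∈ W, ρ g v ∈ W := by
    intro g hg v hv x hx
    have h1 : g⁻¹ * x * g⁻¹⁻¹ ∈ Q := (N.inv_mem hg x).mp hx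
    have h2 := congrArg (ρ g) (hv _ h1)
    rw [← LinearEquiv.mul_apply, ← map_mul] at h2
    rw [← LinearEquiv.mul_apply, ← map_mul, ← h2]
    congr 2; group
  have hperp : ∀ U : Submodule F V, (∀ g ∈ N, ∀ v ∈ U, ρ g v ∈ U) →
      ∀ g ∈ N, ∀ v ∈ H59.perp B U, ρ g v ∈ H59.perp B U := by
    intro U hU g hg v hv x hx
    have h1 := hv _ (hU _ (N.inv_mem hg) x hx)
    rw [← hiso g, ← LinearEquiv.mul_apply, ← map_mul, mul_inv_cancel, map_one] at h1
    exact h1
  have hWt : W ≠ ⊤ := by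
    intro h
    apply hQb
    rw [eq_bot_iff]
    intro g hg
    rw [mem_bot]
    apply hρ
    rw [map_one]
    ext v
    exact (show v ∈ W from h ▸ Submodule.mem_top) g hg
  have hPb : H59.perp B W ≠ ⊥ := by
    intro h
    have h1 := hB.finrank_add_finrank_perp W
    rw [h, finrank_bot, add_zero] at h1
    exact hWt (Submodule.eq_top_of_finrank_eq h1)
  let ρ' : Representation F Q V :=
    (LinearEquiv.automorphismGroup.toLinearMapMonoidHom.comp ρ).comp Q.subtype
  obtain ⟨r, hr, hr0, hrf⟩ := H90.exists_fixed_of_isPGroup hQ ρ' _ hPb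
    fun g v hv => hperp W hW g (le_normalizer g.2) v hv
  let R := W ⊓ H59.perp B W
  have hR : ∀ g ∈ N, ∀ v ∈ R, ρ g v ∈ R := fun g hg v hv => ⟨hW g hg v hv.1, hperp W hW g hg v hv.2⟩
  have hRb : R ≠ ⊥ := by
    intro h
    have : r ∈ R := ⟨fun g hg => hrf ⟨g, hg⟩, hr⟩
    rw [h] at this
    exact hr0 this
  have hRR : R ≤ H59.perp B R := fun v hv x hx => hv.2 x hx.1
  have hd := hB.finrank_add_finrank_perp R
  have hle := Submodule.finrank_mono hRR
  have hpos : finrank F R ≠ 0 := by rwa [Ne, Submodule.finrank_eq_zero]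
  rintro ⟨g, hg⟩
  have a1 := sub_mem_of_mem_commutator ρ N (W₁ := ⊥) bot_le (by rw [finrank_bot]; omega)
    (fun g _ v hv => by rw [(Submodule.mem_bot F).mp hv, map_zero]; exact Submodule.zero_mem _)
    hR hg
  have a2 := sub_mem_of_mem_commutator ρ N hRR (by omega) hR (hperp R hR) hg
  have a3 := sub_mem_of_mem_commutator ρ N (W₂ := ⊤) le_top (by rw [finrank_top]; omega)
    (hperp R hR) (fun _ _ _ _ => Submodule.mem_top) hg
  refine ⟨2, Subtype.ext (hρ ?_)⟩
  change ρ (g ^ p ^ 2) = ρ 1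
  rw [map_pow, map_one]
  refine pow_eq_one_of_unipotent p _ (n := 3) ?_ ?_
  · ext v
    exact (Submodule.mem_bot F).mp (a1 _ (a2 _ (a3 v Submodule.mem_top)))
  · have := (Fact.out : p.Prime).two_le
    nlinarith

end H11
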