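import Cfsg.Agent.H11.SimDSpec

set_option autoImplicit false

namespace H11.SimD

open Subgroup Cfsg H98 Matrix H0.Sim

theorem jobD_SUa : JobSUa := by
  intro hf ue n F _ _ q A W₁ W₂ hc pp h12 hI hK hR x hx
  obtain ⟨fa, fq, hs, hl, htr, -, ⟨l, hl0⟩, -, hsep⟩ := hf n F q hc
  have a1 : ∀ x y z : Fin n → F,
      hermForm n F q (x + y) z = hermForm n F q x z + hermForm n F q y z :=
    fun x y z => (hl 0 x y z).1
  have a2 : ∀ x y z : Fin n → F,
      hermForm n F q z (x + y) = hermForm n F q z x + hermForm n F q z y :=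
    fun x y z => (hl 0 x y z).2.1
  have s1 : ∀ (a : F) (x z : Fin n → F), hermForm n F q (a • x) z = a * hermForm n F q x z :=
    fun a x z => (hl a x x z).2.2.1
  have s2 : ∀ (a : F) (x z : Fin n → F), hermForm n F q z (a • x) = a ^ q * hermForm n F q z x :=
    fun a x z => (hl a x x z).2.2.2
  have z1 : ∀ z : Fin n → F, hermForm n F q 0 z = 0 := fun z => by simp [hermForm]
  by_contra hcon
  push Not at hcon
  have kill : ∀ m ∈ A, IsNilpotent (m - 1) → ∀ z ∈ W₂, (m - 1) *ᵥ z = 0 :=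
    fun m hm hn z hz => (mem_KS.1 (hK ▸ hz)) m hm hn
  have img : ∀ m ∈ A, IsNilpotent (m - 1) → ∀ z, (m - 1) *ᵥ z ∈ W₁ :=
    fun m hm hn z => hI ▸ mem_IS hm hn z
  have all : ∀ m ∈ A, IsNilpotent (m - 1) → ∀ z, hermForm n F q ((m - 1) *ᵥ z) z = 0 := by
    intro m hm hn z
    by_cases hz : z ∈ W₂
    · rw [kill m hm hn z hz, z1]
    obtain ⟨w, hw, xw, zw⟩ : ∃ w ∈ W₁, hermForm n F q x w ≠ 0 ∧ hermForm n F q z w ≠ 0 := by
      have e1 := (pp x).not.1 hx
      have e2 := (pp z).not.1 hz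
      push Not at e1 e2
      obtain ⟨w1, hw1, x1⟩ := e1
      obtain ⟨w2, hw2, z2⟩ := e2
      by_cases c1 : hermForm n F q z w1 = 0
      · by_cases c2 : hermForm n F q x w2 = 0
        · refine ⟨w1 + w2, W₁.add_mem hw1 hw2, ?_, ?_⟩
          · rw [a2, c2, add_zero]; exact x1
          · rw [a2, c1, zero_add]; exact z2
        · exact ⟨w2, hw2, c2, z2⟩
      · exact ⟨w1, hw1, x1, c1⟩
    obtain ⟨a, ha⟩ : ∃ a, a = hermForm n F q x w / hermForm n F q z w := ⟨_, rfl⟩
    have a0 : a ≠ 0 := ha ▸ div_ne_zero xw zw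
    obtain ⟨y, hy⟩ : ∃ y, y = (hermForm n F q x w)⁻¹ • (x + (-a) • z) := ⟨_, rfl⟩
    have yw : hermForm n F q y w = 0 := by
      rw [hy, s1, a1, s1, ha]; field_simp; ring
    obtain ⟨μ, hμ⟩ := htr (hermForm n F q y y) (hs y y).symm
    have ww : hermForm n F q w w = 0 := (pp w).1 (h12 hw) w hw
    obtain ⟨s, hsS, sx⟩ := ue n F q hc w y μ ww yw hμ
    have sv : ∀ v ∈ W₂, (s : Mt n F) *ᵥ v = v + hermForm n F q v y • w := by
      intro v hv
      rw [sx, (pp v).1 hv w hw]; simp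
    have b1 : Sb s W₁ := fun v hv => by
      rw [sv v (h12 hv)]; exact W₁.add_mem hv (W₁.smul_mem _ hw)
    have b2 : Sb s W₂ := fun v hv => by
      rw [sv v hv]; exact W₂.add_mem hv (W₂.smul_mem _ (h12 hw))
    have iso : ∀ u v, hermForm n F q ((s : Mt n F) *ᵥ u) ((s : Mt n F) *ᵥ v) =
        hermForm n F q u v := by
      have : s ∈ GU n F q := by simpa [Gam] using hsS.1
      exact this
    have hm' := hR s⁻¹ ((Sg n F true q).inv_mem hsS) b1.inv b2.inv m hm
    have h0 := hcon _ hm' (nil_conj s⁻¹ hn)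
    rw [conj_sub_one, inv_inv, ← mulVec_mulVec, ← mulVec_mulVec, ← iso, mulVec_inv] at h0
    obtain ⟨w', hw', e⟩ : ∃ w' ∈ W₁, (s : Mt n F) *ᵥ x = a • z + w' := by
      refine ⟨hermForm n F q x y • w - (μ * hermForm n F q x w) • w,
        W₁.sub_mem (W₁.smul_mem _ hw) (W₁.smul_mem _ hw), ?_⟩
      have : hermForm n F q x w • y = x + (-a) • z := by
        rw [hy, smul_smul, mul_inv_cancel₀ xw, one_smul]
      rw [sx, this]; module
    rw [e, mulVec_add, kill m hm hn w' (h12 hw'), add_zero, mulVec_smul, s1, a2, s2,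
      (pp _).1 (h12 (img m hm hn z)) w' hw', add_zero] at h0
    rcases mul_eq_zero.1 h0 with h | h
    · exact absurd h a0
    · exact (mul_eq_zero.1 h).resolve_left (pow_ne_zero _ a0)
  apply hx
  rw [← hK, mem_KS]
  intro m hm hn
  by_contra hu
  obtain ⟨y, hy, -⟩ := hsep ⊥ ((m - 1) *ᵥ x) (by simpa using hu)
  have e1 := all m hm hn (x + y)
  have e2 := all m hm hn (l • x + y)
  rw [mulVec_add, a1, a2, a2, all m hm hn x, all m hm hn y, hy] at e1
  rw [mulVec_add, mulVec_smul, a1, a2, a2, s1, s1, s2, s2, all m hm hn x, all m hm hn y, hy] at e2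
  apply hl0
  linear_combination l ^ q * e1 - e2

end H11.SimD
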