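import Cfsg.Agent.H11.SimDSpec

set_option autoImplicit false

namespace H11.SimD

open Subgroup Cfsg H98 Matrix H0.Sim

section
variable {n : ℕ} {F : Type} [Field F]

/-- the semilinear bijection `x ↦ c σ x` -/
noncomputable def taT (j : Jm n F) (x : Fin n → F) : Fin n → F :=
  (j.c : Mt n F) *ᵥ (fun i => j.σ (x i))

theorem taT_add (j : Jm n F) (x y : Fin n → F) : taT j (x + y) = taT j x + taT j y := by
  unfold taT; rw [← mulVec_add]; congr 1; ext i; simp

theorem taT_smul (j : Jm n F) (a : F) (x : Fin n → F) : taT j (a • x) = j.σ a • taT j x := by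
  unfold taT; rw [← mulVec_smul]; congr 1; ext i; simp

theorem taT_zero (j : Jm n F) : taT j 0 = 0 := by
  have := taT_smul j 0 0
  simpa using this

theorem taT_inj (j : Jm n F) : Function.Injective (taT j) := by
  intro x y h
  have h1 := congrArg (fun v => ((j.c⁻¹ : GL (Fin n) F) : Mt n F) *ᵥ v) h
  simp only [taT, inv_mulVec] at h1
  ext i
  exact j.σ.injective (congrFun h1 i)

theorem taT_surj (j : Jm n F) (v : Fin n → F) : ∃ x, taT j x = v := by
  refine ⟨fun i => j.σ.symm ((((j.c⁻¹ : GL (Fin n) F) : Mt n F) *ᵥ v) i), ?_⟩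
  unfold taT
  simp only [RingEquiv.apply_symm_apply]
  exact mulVec_inv j.c v

theorem taT_mem {j : Jm n F} {U : Submodule F (Fin n → F)} {x : Fin n → F} :
    taT j x ∈ tau j U ↔ x ∈ U := by
  constructor
  · rintro ⟨y, hy, e⟩
    rwa [taT_inj j e]
  · intro h; exact ⟨x, h, rfl⟩

theorem th_taT {j : Jm n F} (ha : j.a = false) (m : Mt n F) (x : Fin n → F) :
    th j m *ᵥ taT j x = taT j (m *ᵥ x) := by
  unfold taT th
  rw [ha, ← mulVec_mulVec, ← mulVec_mulVec, inv_mulVec]
  congr 1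
  ext i
  simp [mulVec, dotProduct]

theorem th_sub_one {j : Jm n F} (ha : j.a = false) (m : Mt n F) :
    th j m - 1 = th j (m - 1) := by
  apply Matrix.toLin'.injective
  refine LinearMap.ext fun v => ?_
  obtain ⟨x, rfl⟩ := taT_surj j v
  rw [Matrix.toLin'_apply, Matrix.toLin'_apply, sub_mulVec, one_mulVec, th_taT ha, th_taT ha,
    sub_mulVec, one_mulVec, sub_eq_iff_eq_add, ← taT_add, sub_add_cancel]

theorem th_pow_taT {j : Jm n F} (ha : j.a = false) (m : Mt n F) (k : ℕ) (x : Fin n → F) :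
    th j m ^ k *ᵥ taT j x = taT j (m ^ k *ᵥ x) := by
  induction k with
  | zero => simp
  | succ k ih => rw [pow_succ', pow_succ', ← mulVec_mulVec, ← mulVec_mulVec, ih, th_taT ha]

theorem mat_eq_zero {m : Mt n F} (h : ∀ v, m *ᵥ v = 0) : m = 0 := by
  apply Matrix.toLin'.injective
  refine LinearMap.ext fun v => ?_
  rw [Matrix.toLin'_apply, Matrix.toLin'_apply, h, zero_mulVec]

theorem th_nil {j : Jm n F} (ha : j.a = false) (m : Mt n F) :
    IsNilpotent (th j m - 1) ↔ IsNilpotent (m - 1) := by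
  rw [th_sub_one ha]
  refine exists_congr fun k => ⟨fun h => mat_eq_zero fun x => ?_, fun h => mat_eq_zero fun v => ?_⟩
  · apply taT_inj j
    rw [← th_pow_taT ha, h, zero_mulVec, taT_zero]
  · obtain ⟨x, rfl⟩ := taT_surj j v
    rw [th_pow_taT ha, h, zero_mulVec, taT_zero]

end

theorem jobD_TA : JobTA := by
  intro n F _ _ j ha
  refine ⟨fun A => ⟨le_antisymm ?_ ?_, ?_⟩, fun U W => ⟨?_, ?_⟩, fun m U => ⟨?_, ?_⟩⟩
  · refine IS_le ?_
    rintro _ ⟨m, hm, rfl⟩ hn v
    obtain ⟨x, rfl⟩ := taT_surj j v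
    rw [th_sub_one ha, th_taT ha, taT_mem]
    exact mem_IS hm ((th_nil ha m).1 hn) x
  · rintro _ ⟨x, hx, rfl⟩
    change taT j x ∈ _
    induction hx using Submodule.span_induction with
    | mem y hy =>
      obtain ⟨m, hm, hn, x, rfl⟩ := hy
      rw [← th_taT ha, ← th_sub_one ha]
      exact mem_IS (Set.mem_image_of_mem _ hm) ((th_nil ha m).2 hn) _
    | zero => rw [taT_zero]; exact Submodule.zero_mem _
    | add a b _ _ h1 h2 => rw [taT_add]; exact Submodule.add_mem _ h1 h2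
    | smul c a _ h1 => rw [taT_smul]; exact Submodule.smul_mem _ _ h1
  · ext v
    obtain ⟨x, rfl⟩ := taT_surj j v
    rw [taT_mem, mem_KS, mem_KS]
    constructor
    · intro h m hm hn
      apply taT_inj j
      rw [← th_taT ha, ← th_sub_one ha, taT_zero]
      exact h _ ⟨m, hm, rfl⟩ ((th_nil ha m).2 hn)
    · rintro h _ ⟨m, hm, rfl⟩ hn
      rw [th_sub_one ha, th_taT ha, h m hm ((th_nil ha m).1 hn), taT_zero]
  · ext v
    obtain ⟨x, rfl⟩ := taT_surj j v
    rw [Submodule.mem_inf, taT_mem, taT_mem, taT_mem, Submodule.mem_inf]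
  · refine le_antisymm ?_ (sup_le ?_ ?_)
    · rintro _ ⟨x, hx, rfl⟩
      change taT j x ∈ _
      obtain ⟨a, ha', b, hb, rfl⟩ := Submodule.mem_sup.1 hx
      rw [taT_add]
      exact Submodule.add_mem_sup (taT_mem.2 ha') (taT_mem.2 hb)
    · rintro _ ⟨x, hx, rfl⟩
      exact ⟨x, Submodule.mem_sup_left hx, rfl⟩
    · rintro _ ⟨x, hx, rfl⟩
      exact ⟨x, Submodule.mem_sup_right hx, rfl⟩
  · intro h v
    obtain ⟨x, rfl⟩ := taT_surj j v
    rw [th_taT ha, taT_mem]
    exact h x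
  · rintro h _ ⟨x, hx, rfl⟩
    change th j m *ᵥ taT j x = 0
    rw [th_taT ha, h x hx, taT_zero]

end H11.SimD
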