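import Cfsg.Agent.H0.SimSpec2

/-! # S3694 (tower SIM), chapter D: interface, kit and top. Proofs: `blueprints/SIMD.md`. -/

set_option autoImplicit false

namespace H11.SimD

open Subgroup Cfsg H98 Matrix H0.Sim

section Defs

variable {n : ℕ} {F : Type} [Field F]

/-- `s` maps `W` into `W`. -/
def Sb (s : GL (Fin n) F) (W : Submodule F (Fin n → F)) : Prop :=
  ∀ v ∈ W, (s : Mt n F) *ᵥ v ∈ W

/-- the image `g W` -/
noncomputable def mg (g : GL (Fin n) F) (W : Submodule F (Fin n → F)) : Submodule F (Fin n → F) :=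
  W.map (Matrix.toLin' (g : Mt n F))

/-- the span of the images of `m - 1`, `m` unipotent in `A` -/
def IS (A : Set (Mt n F)) : Submodule F (Fin n → F) :=
  Submodule.span F {v | ∃ m ∈ A, IsNilpotent (m - 1) ∧ ∃ x, v = (m - 1) *ᵥ x}

/-- the common fixed vectors of the unipotent elements of `A` -/
def KS (A : Set (Mt n F)) : Submodule F (Fin n → F) where
  carrier := {x | ∀ m ∈ A, IsNilpotent (m - 1) → (m - 1) *ᵥ x = 0}
  add_mem' := fun {a b} ha hb m hm hn => by rw [mulVec_add, ha m hm hn, hb m hm hn, add_zero]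
  zero_mem' := fun m _ _ => mulVec_zero _
  smul_mem' := fun c x hx m hm hn => by rw [mulVec_smul, hx m hm hn, smul_zero]

/-- `X` is invariant under the unipotent elements of `A`. -/
def Inv (A : Set (Mt n F)) (X : Submodule F (Fin n → F)) : Prop :=
  ∀ m ∈ A, IsNilpotent (m - 1) → ∀ x ∈ X, m *ᵥ x ∈ X

/-- the semilinear image `c σ(U)` -/
def tau (j : Jm n F) (U : Submodule F (Fin n → F)) : Submodule F (Fin n → F) where
  carrier := {v | ∃ x ∈ U, v = (j.c : Mt n F) *ᵥ (fun i => j.σ (x i))}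
  add_mem' := by
    rintro _ _ ⟨x, hx, rfl⟩ ⟨y, hy, rfl⟩
    refine ⟨x + y, U.add_mem hx hy, ?_⟩
    rw [← mulVec_add]; congr 1; ext i; simp
  zero_mem' := ⟨0, U.zero_mem, by
    have : (fun i => j.σ ((0 : Fin n → F) i)) = 0 := by ext i; simp
    rw [this, mulVec_zero]⟩
  smul_mem' := by
    rintro c _ ⟨x, hx, rfl⟩
    refine ⟨j.σ.symm c • x, U.smul_mem _ hx, ?_⟩
    rw [← mulVec_smul]; congr 1; ext i; simp

/-- the dual image `c (σ U)^⊥` (dot product) -/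
def del (j : Jm n F) (U : Submodule F (Fin n → F)) : Submodule F (Fin n → F) where
  carrier := {v | ∀ x ∈ U,
    (fun i => j.σ (x i)) ⬝ᵥ (((j.c⁻¹ : GL (Fin n) F) : Mt n F) *ᵥ v) = 0}
  add_mem' := fun {a b} ha hb x hx => by
    rw [mulVec_add, dotProduct_add, ha x hx, hb x hx, add_zero]
  zero_mem' := fun x _ => by rw [mulVec_zero, dotProduct_zero]
  smul_mem' := fun c v hv x hx => by rw [mulVec_smul, dotProduct_smul, hv x hx, smul_zero]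

/-- `W₂ = W₁^⊥` for the hermitian form -/
def Pp (q : ℕ) (W₁ W₂ : Submodule F (Fin n → F)) : Prop :=
  ∀ x, x ∈ W₂ ↔ ∀ w ∈ W₁, hermForm n F q x w = 0

/-- the output of D1 -/
structure Bs (u : Bool) (q : ℕ) (H E : Subgroup (GL (Fin n) F))
    (W₁ W₂ : Submodule F (Fin n → F)) : Prop where
  e1 : W₁ = IS (mat E) ⊓ KS (mat E)
  e2 : W₂ = IS (mat E) ⊔ KS (mat E)
  n1 : W₁ ≠ ⊥
  n2 : W₂ ≠ ⊤
  pp : u = true → Pp q W₁ W₂
  stab : ∀ s ∈ Sg n F u q, Sb s W₁ → Sb s W₂ → s ∈ H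

/-- the configuration after D1 and D2 -/
structure Cx [Fintype F] (u : Bool) (q : ℕ) (Θ : Set (Jm n F)) (H Q E : Subgroup (GL (Fin n) F))
    (g : GL (Fin n) F) (W₁ W₂ : Submodule F (Fin n → F)) : Prop where
  cf : Cf u q (ringChar F) Θ H Q E g
  bs : Bs u q H E W₁ W₂
  irr : ∀ X : Submodule F (Fin n → F), (∀ h ∈ H, Sb h X) → X = ⊥ ∨ X = W₁ ∨ X = W₂ ∨ X = ⊤

/-- the property (*) -/
def Star (A : Set (Mt n F)) (U₁ U₂ : Submodule F (Fin n → F)) : Prop :=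
  ∀ X : Submodule F (Fin n → F), Inv A X → X ≤ U₂ ∨ U₁ ≤ X

/-! ### Kit -/

theorem mem_KS {A : Set (Mt n F)} {x : Fin n → F} :
    x ∈ KS A ↔ ∀ m ∈ A, IsNilpotent (m - 1) → (m - 1) *ᵥ x = 0 := Iff.rfl

theorem mem_IS {A : Set (Mt n F)} {m : Mt n F} (hm : m ∈ A) (hn : IsNilpotent (m - 1))
    (x : Fin n → F) : (m - 1) *ᵥ x ∈ IS A := Submodule.subset_span ⟨m, hm, hn, x, rfl⟩

theorem IS_le {A : Set (Mt n F)} {X : Submodule F (Fin n → F)}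
    (h : ∀ m ∈ A, IsNilpotent (m - 1) → ∀ x, (m - 1) *ᵥ x ∈ X) : IS A ≤ X := by
  refine Submodule.span_le.2 ?_
  rintro _ ⟨m, hm, hn, x, rfl⟩
  exact h m hm hn x

theorem IS_mono {A B : Set (Mt n F)} (h : A ⊆ B) : IS A ≤ IS B :=
  IS_le fun _ hm hn x => mem_IS (h hm) hn x

theorem KS_anti {A B : Set (Mt n F)} (h : A ⊆ B) : KS B ≤ KS A :=
  fun _ hx m hm hn => hx m (h hm) hn

theorem mat_mono {A B : Subgroup (GL (Fin n) F)} (h : A ≤ B) : mat A ⊆ mat B := by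
  rintro _ ⟨e, he, rfl⟩; exact ⟨e, h he, rfl⟩

theorem mem_tau {j : Jm n F} {U : Submodule F (Fin n → F)} {v : Fin n → F} :
    v ∈ tau j U ↔ ∃ x ∈ U, v = (j.c : Mt n F) *ᵥ (fun i => j.σ (x i)) := Iff.rfl

theorem mem_del {j : Jm n F} {U : Submodule F (Fin n → F)} {v : Fin n → F} :
    v ∈ del j U ↔ ∀ x ∈ U,
      (fun i => j.σ (x i)) ⬝ᵥ (((j.c⁻¹ : GL (Fin n) F) : Mt n F) *ᵥ v) = 0 := Iff.rfl

theorem mem_mg {g : GL (Fin n) F} {W : Submodule F (Fin n → F)} {v : Fin n → F} :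
    v ∈ mg g W ↔ ∃ x ∈ W, (g : Mt n F) *ᵥ x = v := by
  simp [mg, Submodule.mem_map]

theorem inv_mulVec (g : GL (Fin n) F) (x : Fin n → F) :
    ((g⁻¹ : GL (Fin n) F) : Mt n F) *ᵥ ((g : Mt n F) *ᵥ x) = x := by
  rw [mulVec_mulVec, ← Units.val_mul, inv_mul_cancel, Units.val_one, one_mulVec]

theorem mulVec_inv (g : GL (Fin n) F) (x : Fin n → F) :
    (g : Mt n F) *ᵥ (((g⁻¹ : GL (Fin n) F) : Mt n F) *ᵥ x) = x := by
  rw [mulVec_mulVec, ← Units.val_mul, mul_inv_cancel, Units.val_one, one_mulVec]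

theorem mem_mg' {g : GL (Fin n) F} {W : Submodule F (Fin n → F)} {v : Fin n → F} :
    v ∈ mg g W ↔ ((g⁻¹ : GL (Fin n) F) : Mt n F) *ᵥ v ∈ W := by
  rw [mem_mg]
  constructor
  · rintro ⟨x, hx, rfl⟩; rwa [inv_mulVec]
  · intro h; exact ⟨_, h, mulVec_inv g v⟩

theorem mg_mg (g h : GL (Fin n) F) (W : Submodule F (Fin n → F)) :
    mg g (mg h W) = mg (g * h) W := by
  ext v; rw [mem_mg', mem_mg', mem_mg', mulVec_mulVec, ← Units.val_mul, _root_.mul_inv_rev]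

theorem mg_one (W : Submodule F (Fin n → F)) : mg 1 W = W := by
  ext v; rw [mem_mg', inv_one, Units.val_one, one_mulVec]

theorem mg_mono (g : GL (Fin n) F) {U W : Submodule F (Fin n → F)} (h : U ≤ W) :
    mg g U ≤ mg g W := Submodule.map_mono h

theorem finrank_mg (g : GL (Fin n) F) (W : Submodule F (Fin n → F)) :
    Module.finrank F (mg g W) = Module.finrank F W := by
  refine (Submodule.equivMapOfInjective _ ?_ W).finrank_eq.symm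
  intro x y h
  have h' : (g : Mt n F) *ᵥ x = (g : Mt n F) *ᵥ y := by simpa using h
  rw [← inv_mulVec g x, h', inv_mulVec]

theorem sb_iff {s : GL (Fin n) F} {W : Submodule F (Fin n → F)} : Sb s W ↔ mg s W ≤ W := by
  constructor
  · intro h v hv
    obtain ⟨x, hx, rfl⟩ := mem_mg.1 hv
    exact h x hx
  · intro h v hv
    exact h (mem_mg.2 ⟨v, hv, rfl⟩)

theorem mg_eq_of_le {s : GL (Fin n) F} {W : Submodule F (Fin n → F)} (h : mg s W ≤ W) :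
    mg s W = W := Submodule.eq_of_le_of_finrank_eq h (finrank_mg s W)

theorem mg_eq_of_ge {s : GL (Fin n) F} {W : Submodule F (Fin n → F)} (h : W ≤ mg s W) :
    mg s W = W := (Submodule.eq_of_le_of_finrank_eq h (finrank_mg s W).symm).symm

theorem Sb.mg_eq {s : GL (Fin n) F} {W : Submodule F (Fin n → F)} (h : Sb s W) : mg s W = W :=
  mg_eq_of_le (sb_iff.1 h)

theorem sb_of_eq {s : GL (Fin n) F} {W : Submodule F (Fin n → F)} (h : mg s W = W) : Sb s W :=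
  sb_iff.2 h.le

theorem Sb.inv {s : GL (Fin n) F} {W : Submodule F (Fin n → F)} (h : Sb s W) : Sb s⁻¹ W := by
  intro v hv
  rw [← h.mg_eq] at hv
  exact mem_mg'.1 hv

theorem Sb.inf {s : GL (Fin n) F} {U W : Submodule F (Fin n → F)} (h : Sb s U) (k : Sb s W) :
    Sb s (U ⊓ W) := fun v hv => ⟨h v hv.1, k v hv.2⟩

theorem Sb.sup {s : GL (Fin n) F} {U W : Submodule F (Fin n → F)} (h : Sb s U) (k : Sb s W) :
    Sb s (U ⊔ W) := by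
  intro v hv
  obtain ⟨a, ha, b, hb, rfl⟩ := Submodule.mem_sup.1 hv
  rw [mulVec_add]
  exact Submodule.add_mem_sup (h a ha) (k b hb)

theorem conj_sub_one (s : GL (Fin n) F) (m : Mt n F) :
    (s : Mt n F) * m * ((s⁻¹ : GL (Fin n) F) : Mt n F) - 1 =
      (s : Mt n F) * (m - 1) * ((s⁻¹ : GL (Fin n) F) : Mt n F) := by
  rw [mul_sub, sub_mul, mul_one, ← Units.val_mul, mul_inv_cancel, Units.val_one]

theorem nil_conj (s : GL (Fin n) F) {m : Mt n F} (h : IsNilpotent (m - 1)) :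
    IsNilpotent ((s : Mt n F) * m * ((s⁻¹ : GL (Fin n) F) : Mt n F) - 1) := by
  obtain ⟨k, hk⟩ := h
  refine ⟨k, ?_⟩
  rw [conj_sub_one, Units.conj_pow, hk, mul_zero, zero_mul]

theorem St.sb_IS {s : GL (Fin n) F} {A : Set (Mt n F)} (h : St s A) : Sb s (IS A) := by
  refine sb_iff.2 ?_
  rw [mg, IS, Submodule.map_span, Submodule.span_le]
  rintro _ ⟨_, ⟨m, hm, hn, x, rfl⟩, rfl⟩
  have := mem_IS (h m hm) (nil_conj s hn) ((s : Mt n F) *ᵥ x)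
  rw [conj_sub_one, ← mulVec_mulVec, ← mulVec_mulVec, inv_mulVec] at this
  rw [Matrix.toLin'_apply]
  exact this

theorem St.sb_KS {s : GL (Fin n) F} {A : Set (Mt n F)} (h : St s A) : Sb s (KS A) := by
  have : Sb s⁻¹ (KS A) := by
    intro x hx m hm hn
    have h1 := hx _ (h m hm) (nil_conj s hn)
    rw [conj_sub_one, ← mulVec_mulVec, ← mulVec_mulVec] at h1
    have h2 := congrArg (fun v => ((s⁻¹ : GL (Fin n) F) : Mt n F) *ᵥ v) h1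
    simpa only [inv_mulVec, mulVec_zero] using h2
  simpa using this.inv

theorem th_inn (h : GL (Fin n) F) (m : Mt n F) :
    th (⟨h, RingEquiv.refl F, false⟩ : Jm n F) m =
      (h : Mt n F) * m * ((h⁻¹ : GL (Fin n) F) : Mt n F) := by
  simp [th]

theorem st_of_iv {Θ : Set (Jm n F)} {H : Subgroup (GL (Fin n) F)} {X : Set (Mt n F)}
    (inn : ∀ h ∈ H, (⟨h, RingEquiv.refl F, false⟩ : Jm n F) ∈ Θ) (iv : Iv Θ X)
    {h : GL (Fin n) F} (hh : h ∈ H) : St h X := fun m hm => by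
  rw [← th_inn]; exact iv _ (inn h hh) m hm

theorem st_of_norm {s : GL (Fin n) F} {B : Subgroup (GL (Fin n) F)}
    (h : s ∈ normalizer (B : Set (GL (Fin n) F))) : St s (mat B) := by
  rintro _ ⟨e, he, rfl⟩
  exact ⟨s * e * s⁻¹, (mem_normalizer_iff.1 h e).1 he, by simp⟩

theorem th_inj (j : Jm n F) : Function.Injective (th j) := by
  intro a b h
  have h1 : (if j.a then (a.map j.σ)ᵀ else a.map j.σ) = (if j.a then (b.map j.σ)ᵀ else b.map j.σ) := by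
    have := congrArg (fun m => ((j.c⁻¹ : GL (Fin n) F) : Mt n F) * m * (j.c : Mt n F)) h
    simpa [th, mul_assoc] using this
  have h2 : a.map j.σ = b.map j.σ := by
    cases ha : j.a
    · simpa [ha] using h1
    · simpa [ha] using h1
  ext i k
  exact j.σ.injective (congrFun (congrFun h2 i) k)

theorem th_image [Fintype F] {Θ : Set (Jm n F)} {X : Set (Mt n F)} (iv : Iv Θ X) {j : Jm n F}
    (hj : j ∈ Θ) : th j '' X = X := by
  refine Set.eq_of_subset_of_ncard_le ?_ ?_ (Set.toFinite _)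
  · rintro _ ⟨m, hm, rfl⟩; exact iv j hj m hm
  · rw [Set.ncard_image_of_injective _ (th_inj j)]

variable [Fintype F] {u : Bool} {q p : ℕ} {Θ : Set (Jm n F)} {H Q E : Subgroup (GL (Fin n) F)}
  {g : GL (Fin n) F} {W₁ W₂ : Submodule F (Fin n → F)}

/-- END -/
theorem not_mem (c : Cf u q p Θ H Q E g) : g ∉ H := by
  intro hg
  have key : ∀ h ∈ H, cj h E ≤ E := by
    intro h hh x hx
    obtain ⟨e, he, e1⟩ := st_of_iv c.inn c.ivE hh _ ⟨_, mem_cj.1 hx, rfl⟩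
    have : e = x := by
      apply Units.ext
      rw [e1]; simp [mul_assoc]
    exact this ▸ he
  exact c.Bne (le_antisymm (key g hg) (le_cj_iff.2 (key _ (H.inv_mem hg))))

theorem Cx.not_both (c : Cx u q Θ H Q E g W₁ W₂) (h1 : mg g W₁ = W₁) (h2 : mg g W₂ = W₂) :
    False := not_mem c.cf (c.bs.stab g c.cf.gS (sb_of_eq h1) (sb_of_eq h2))

omit [Fintype F] in
theorem Bs.le (b : Bs u q H E W₁ W₂) : W₁ ≤ W₂ := by
  rw [b.e1, b.e2]; exact inf_le_sup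

theorem Cx.sb1 (c : Cx u q Θ H Q E g W₁ W₂) {h : GL (Fin n) F} (hh : h ∈ H) : Sb h W₁ := by
  rw [c.bs.e1]
  exact (St.sb_IS (st_of_iv c.cf.inn c.cf.ivE hh)).inf (St.sb_KS (st_of_iv c.cf.inn c.cf.ivE hh))

theorem Cx.sb2 (c : Cx u q Θ H Q E g W₁ W₂) {h : GL (Fin n) F} (hh : h ∈ H) : Sb h W₂ := by
  rw [c.bs.e2]
  exact (St.sb_IS (st_of_iv c.cf.inn c.cf.ivE hh)).sup (St.sb_KS (st_of_iv c.cf.inn c.cf.ivE hh))

end Defs

/-! ### Jobs -/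

/-- N0: the unipotent elements of a group that is a `p`-group modulo scalars form a `p`-group. -/
def JobN0 : Prop := ∀ (n : ℕ) (F : Type) [Field F] [Fintype F] (Y : Subgroup (GL (Fin n) F)),
  (∀ y ∈ Y, ∃ k : ℕ, y ^ ringChar F ^ k ∈ center (GL (Fin n) F)) →
  ∃ P : Subgroup (GL (Fin n) F), P ≤ Y ∧ IsPGroup (ringChar F) P ∧
    ∀ y ∈ Y, IsNilpotent ((y : Mt n F) - 1) → y ∈ P

/-- N1: a `p`-group fixes a non-zero vector of a non-zero invariant subspace. -/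
def JobN1 : Prop := ∀ (n : ℕ) (F : Type) [Field F] [Fintype F] (P : Subgroup (GL (Fin n) F))
  (X : Submodule F (Fin n → F)), IsPGroup (ringChar F) P → X ≠ ⊥ → (∀ y ∈ P, Sb y X) →
  ∃ x ∈ X, x ≠ 0 ∧ ∀ y ∈ P, (y : Mt n F) *ᵥ x = x

/-- N2: the dual statement. -/
def JobN2 : Prop := JobN1 → ∀ (n : ℕ) (F : Type) [Field F] [Fintype F]
  (P : Subgroup (GL (Fin n) F)) (X : Submodule F (Fin n → F)), IsPGroup (ringChar F) P → X ≠ ⊤ →
  (∀ y ∈ P, Sb y X) → ∃ φ : Fin n → F, φ ≠ 0 ∧ (∀ x ∈ X, φ ⬝ᵥ x = 0) ∧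
    ∀ y ∈ P, ∀ x, φ ⬝ᵥ ((y : Mt n F) *ᵥ x) = φ ⬝ᵥ x

/-- N0 + N1 + N2 -/
def NilSt : Prop := ∀ (n : ℕ) (F : Type) [Field F] [Fintype F] (Y : Subgroup (GL (Fin n) F)),
  (∀ y ∈ Y, ∃ k : ℕ, y ^ ringChar F ^ k ∈ center (GL (Fin n) F)) →
  ∀ X : Submodule F (Fin n → F), (∀ y ∈ Y, Sb y X) →
    (X ≠ ⊥ → X ⊓ KS (mat Y) ≠ ⊥) ∧ (X ≠ ⊤ → X ⊔ IS (mat Y) ≠ ⊤)

theorem nilSt (h0 : JobN0) (h1 : JobN1) (h2 : JobN2) : NilSt := by
  intro n F _ _ Y hY X hX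
  obtain ⟨P, hP, pP, hu⟩ := h0 n F Y hY
  constructor
  · intro hb
    obtain ⟨x, hx, x0, hf⟩ := h1 n F P X pP hb fun y hy => hX y (hP hy)
    refine (Submodule.ne_bot_iff _).2 ⟨x, ⟨hx, ?_⟩, x0⟩
    rintro _ ⟨y, hy, rfl⟩ hn
    rw [sub_mulVec, one_mulVec, hf y (hu y hy hn), sub_self]
  · intro ht e
    obtain ⟨φ, φ0, hk, hf⟩ := h2 h1 n F P X pP ht fun y hy => hX y (hP hy)
    have all : ∀ v : Fin n → F, φ ⬝ᵥ v = 0 := by
      intro v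
      have hv : v ∈ X ⊔ IS (mat Y) := e ▸ Submodule.mem_top
      obtain ⟨a, ha, b, hb, rfl⟩ := Submodule.mem_sup.1 hv
      rw [dotProduct_add, hk a ha, zero_add]
      have : IS (mat Y) ≤ LinearMap.ker (dotProductBilin F F φ) := by
        refine IS_le ?_
        rintro _ ⟨y, hy, rfl⟩ hn x
        show φ ⬝ᵥ (((y : Mt n F) - 1) *ᵥ x) = 0
        rw [sub_mulVec, one_mulVec, dotProduct_sub, hf y (hu y hy hn), sub_self]
      exact this hb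
    apply φ0
    ext i
    simpa using all (Pi.single i 1)

/-- NE: `E` has a unipotent element `≠ 1`. -/
def JobNE : Prop := ∀ (n : ℕ) (F : Type) [Field F] [Fintype F] (u : Bool) (q : ℕ)
  (Θ : Set (Jm n F)) (H Q E : Subgroup (GL (Fin n) F)), Cf0 u q (ringChar F) Θ H Q E →
  ∃ e ∈ E, IsNilpotent ((e : Mt n F) - 1) ∧ e ≠ 1

/-- TA: the calculus of `tau`. -/
def JobTA : Prop := ∀ (n : ℕ) (F : Type) [Field F] [Fintype F] (j : Jm n F), j.a = false →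
  (∀ A : Set (Mt n F), IS (th j '' A) = tau j (IS A) ∧ KS (th j '' A) = tau j (KS A)) ∧
  (∀ U W : Submodule F (Fin n → F), tau j (U ⊓ W) = tau j U ⊓ tau j W ∧
    tau j (U ⊔ W) = tau j U ⊔ tau j W) ∧
  (∀ (m : Mt n F) (U : Submodule F (Fin n → F)),
    ((∀ x, m *ᵥ x ∈ U) → ∀ x, th j m *ᵥ x ∈ tau j U) ∧
    ((∀ x ∈ U, m *ᵥ x = 0) → ∀ x ∈ tau j U, th j m *ᵥ x = 0))

/-- DL: the lattice calculus of `del`. -/
def JobDL : Prop := ∀ (n : ℕ) (F : Type) [Field F] [Fintype F] (j : Jm n F),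
  (∀ U : Submodule F (Fin n → F), Module.finrank F (del j U) + Module.finrank F U = n) ∧
  (∀ U W : Submodule F (Fin n → F), (del j W ≤ del j U ↔ U ≤ W) ∧
    del j (U ⊓ W) = del j U ⊔ del j W ∧ del j (U ⊔ W) = del j U ⊓ del j W) ∧
  ∀ (h : GL (Fin n) F) (U : Submodule F (Fin n → F)), del ⟨h * j.c, j.σ, j.a⟩ U = mg h (del j U)

/-- DLa: the dimension of `del`. -/
def JobDLa : Prop := ∀ (n : ℕ) (F : Type) [Field F] [Fintype F] (j : Jm n F)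
  (U : Submodule F (Fin n → F)), Module.finrank F (del j U) + Module.finrank F U = n

def JobDLb : Prop := JobDLa → JobDL

/-- the calculus of `del` on matrices -/
def DeSt : Prop := ∀ (n : ℕ) (F : Type) [Field F] [Fintype F] (j : Jm n F), j.a = true →
  (∀ A : Set (Mt n F), IS (th j '' A) = del j (KS A) ∧ KS (th j '' A) = del j (IS A)) ∧
  (∀ (m : Mt n F) (U : Submodule F (Fin n → F)),
    ((∀ x, m *ᵥ x ∈ U) → ∀ x ∈ del j U, th j m *ᵥ x = 0) ∧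
    ((∀ x ∈ U, m *ᵥ x = 0) → ∀ x, th j m *ᵥ x ∈ del j U))

def JobDEa : Prop := ∀ (n : ℕ) (F : Type) [Field F] [Fintype F] (j : Jm n F), j.a = true →
  ∀ A : Set (Mt n F), IS (th j '' A) = del j (KS A)

def JobDEb : Prop := JobDEa → DeSt

/-- LT: linear transvections. -/
def JobLT : Prop := ∀ (n : ℕ) (F : Type) [Field F] [Fintype F] (q : ℕ),
  (∀ (w : Fin n → F) (φ : (Fin n → F) →ₗ[F] F), φ w = 0 →
    ∃ s ∈ Sg n F false q, ∀ x, (s : Mt n F) *ᵥ x = x + φ x • w) ∧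
  (∀ (Y : Submodule F (Fin n → F)) (x : Fin n → F), x ∉ Y →
    ∃ φ : (Fin n → F) →ₗ[F] F, φ x = 1 ∧ ∀ y ∈ Y, φ y = 0) ∧
  ∀ W : Submodule F (Fin n → F), W ≠ ⊥ → W ≠ ⊤ → ∃ s ∈ Sg n F false q, ¬ Sb s W

/-- HF: the calculus of the hermitian form. -/
def JobHF : Prop := ∀ (n : ℕ) (F : Type) [Field F] [Fintype F] (q : ℕ), Fintype.card F = q ^ 2 →
  (∀ a b : F, (a + b) ^ q = a ^ q + b ^ q) ∧ (∀ a : F, (a ^ q) ^ q = a) ∧
  (∀ x y : Fin n → F, hermForm n F q y x = hermForm n F q x y ^ q) ∧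
  (∀ (a : F) (x y z : Fin n → F),
    hermForm n F q (x + y) z = hermForm n F q x z + hermForm n F q y z ∧
    hermForm n F q z (x + y) = hermForm n F q z x + hermForm n F q z y ∧
    hermForm n F q (a • x) z = a * hermForm n F q x z ∧
    hermForm n F q z (a • x) = a ^ q * hermForm n F q z x) ∧
  (∀ a : F, a ^ q = a → ∃ μ : F, μ + μ ^ q = a) ∧ (∃ c : F, c ≠ 0 ∧ c + c ^ q = 0) ∧
  (∃ l : F, l ^ q ≠ l) ∧
  (∃ l : F, l ≠ 0 ∧ l ^ q ≠ l ∧ (l ^ q * l⁻¹) * (l ^ q * l⁻¹) ^ q = 1) ∧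
  ∀ (Y : Submodule F (Fin n → F)) (x : Fin n → F), x ∉ Y →
    ∃ y : Fin n → F, hermForm n F q x y = 1 ∧ ∀ z ∈ Y, hermForm n F q z y = 0

/-- Eichler maps (with `y = 0`: unitary transvections) -/
def UeSt : Prop := ∀ (n : ℕ) (F : Type) [Field F] [Fintype F] (q : ℕ), Fintype.card F = q ^ 2 →
  ∀ (w y : Fin n → F) (μ : F), hermForm n F q w w = 0 → hermForm n F q y w = 0 →
    μ + μ ^ q = hermForm n F q y y → ∃ s ∈ Sg n F true q, ∀ x, (s : Mt n F) *ᵥ x =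
      x + hermForm n F q x y • w - hermForm n F q x w • y - (μ * hermForm n F q x w) • w

def JobUE : Prop := JobHF → UeSt

/-- quasi-reflections with repaired determinant -/
def UqSt : Prop := ∀ (n : ℕ) (F : Type) [Field F] [Fintype F] (q : ℕ), Fintype.card F = q ^ 2 →
  ∀ (W₁ W₂ : Submodule F (Fin n → F)) (y : Fin n → F), W₁ ≠ ⊥ → W₁ ≤ W₂ → Pp q W₁ W₂ → y ∈ W₂ →
    hermForm n F q y y ≠ 0 → ∃ s ∈ Sg n F true q, Sb s W₁ ∧ Sb s W₂ ∧ ∃ a : F, a ≠ 0 ∧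
      ∀ x ∈ W₂, (s : Mt n F) *ᵥ x - x - (a * hermForm n F q x y) • y ∈ W₁

/-- the determinant repair on a hyperbolic pair -/
def UdSt : Prop := ∀ (n : ℕ) (F : Type) [Field F] [Fintype F] (q : ℕ), Fintype.card F = q ^ 2 →
  ∀ (w : Fin n → F) (l : F), w ≠ 0 → hermForm n F q w w = 0 → l ≠ 0 →
    ∃ d ∈ Gam n F true q, (d : Mt n F).det = l * (l ^ q)⁻¹ ∧
      ∀ x, hermForm n F q x w = 0 → ∃ b : F, (d : Mt n F) *ᵥ x = x + b • w

def JobUD : Prop := JobHF → UdSt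

/-- quasi-reflections -/
def UrSt : Prop := ∀ (n : ℕ) (F : Type) [Field F] [Fintype F] (q : ℕ), Fintype.card F = q ^ 2 →
  ∀ (y : Fin n → F) (z : F), hermForm n F q y y ≠ 0 → z * z ^ q = 1 →
    ∃ r ∈ Gam n F true q, (r : Mt n F).det = z ∧ ∀ x, (r : Mt n F) *ᵥ x =
      x + ((z - 1) / hermForm n F q y y * hermForm n F q x y) • y

def JobUR : Prop := JobHF → UrSt

def JobUQ : Prop := JobHF → UdSt → UrSt → UqSt

/-- `S` moves `W₁` -/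
def MvSt : Prop := ∀ (n : ℕ) (F : Type) [Field F] [Fintype F] (q : ℕ), Fintype.card F = q ^ 2 →
  ∀ (W₁ W₂ : Submodule F (Fin n → F)), W₁ ≠ ⊥ → W₁ ≤ W₂ → Pp q W₁ W₂ →
    ∃ s ∈ Sg n F true q, ¬ Sb s W₁

def JobMV : Prop := JobHF → UeSt → MvSt

/-- D1a: `W₁ ≠ 0`, `W₂ ≠ V`. -/
def JobD1a : Prop := NilSt → JobNE → ∀ (n : ℕ) (F : Type) [Field F] [Fintype F] (u : Bool) (q : ℕ)
  (Θ : Set (Jm n F)) (H Q E : Subgroup (GL (Fin n) F)), Cf0 u q (ringChar F) Θ H Q E →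
  IS (mat E) ⊓ KS (mat E) ≠ ⊥ ∧ IS (mat E) ⊔ KS (mat E) ≠ ⊤

/-- D1p: `W₂ = W₁^⊥`. -/
def JobD1p : Prop := JobHF → ∀ (n : ℕ) (F : Type) [Field F] [Fintype F] (q : ℕ)
  (E : Subgroup (GL (Fin n) F)), Fintype.card F = q ^ 2 → E ≤ Gam n F true q →
  Pp q (IS (mat E) ⊓ KS (mat E)) (IS (mat E) ⊔ KS (mat E))

/-- D1s: the stabiliser of `W₁` and `W₂` lies in `H`. -/
def JobD1s : Prop := JobTA → JobDL → DeSt → ∀ (n : ℕ) (F : Type) [Field F] [Fintype F] (u : Bool)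
  (q p : ℕ) (Θ : Set (Jm n F)) (H Q E : Subgroup (GL (Fin n) F))
  (W₁ W₂ : Submodule F (Fin n → F)), Cf0 u q p Θ H Q E → W₁ = IS (mat E) ⊓ KS (mat E) →
  W₂ = IS (mat E) ⊔ KS (mat E) → W₂ ≠ ⊤ → (∃ s ∈ Sg n F u q, ¬ Sb s W₁) →
  ∀ s ∈ Sg n F u q, Sb s W₁ → Sb s W₂ → s ∈ H

def D1St : Prop := ∀ (n : ℕ) (F : Type) [Field F] [Fintype F] (u : Bool) (q : ℕ)
  (Θ : Set (Jm n F)) (H Q E : Subgroup (GL (Fin n) F)), Cf0 u q (ringChar F) Θ H Q E →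
  ∃ W₁ W₂ : Submodule F (Fin n → F), Bs u q H E W₁ W₂

theorem d1St (nil : NilSt) (ne : JobNE) (ta : JobTA) (dl : JobDL) (de : DeSt) (lt : JobLT)
    (hf : JobHF) (mv : MvSt) (a : JobD1a) (pp : JobD1p) (s : JobD1s) : D1St := by
  intro n F _ _ u q Θ H Q E c
  obtain ⟨h1, h2⟩ := a nil ne n F u q Θ H Q E c
  have hp : u = true → Pp q (IS (mat E) ⊓ KS (mat E)) (IS (mat E) ⊔ KS (mat E)) := by
    rintro rfl
    exact pp hf n F q E (by simpa using c.par.card) (c.EQ.trans (c.QH.trans c.HG))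
  refine ⟨_, _, rfl, rfl, h1, h2, hp, s ta dl de n F u q _ Θ H Q E _ _ c rfl rfl h2 ?_⟩
  cases u
  · exact (lt n F q).2.2 _ h1 fun e => h2 (top_le_iff.1 (e ▸ inf_le_sup))
  · exact mv n F q (by simpa using c.par.card) _ _ h1 inf_le_sup (hp rfl)

/-- the invariant subspaces -/
def D2St (u : Bool) : Prop := ∀ (n : ℕ) (F : Type) [Field F] [Fintype F] (q : ℕ)
  (W₁ W₂ X : Submodule F (Fin n → F)), (u = true → Fintype.card F = q ^ 2 ∧ Pp q W₁ W₂) →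
  W₁ ≠ ⊥ → W₁ ≤ W₂ → (∀ s ∈ Sg n F u q, Sb s W₁ → Sb s W₂ → Sb s X) →
  X = ⊥ ∨ X = W₁ ∨ X = W₂ ∨ X = ⊤

def JobD2L : Prop := JobLT → D2St false

/-- D2a (unitary): `X ≰ W₂` gives `X = V`; `X ≠ 0` gives `W₁ ≤ X`. -/
def JobD2a : Prop := JobHF → UeSt → ∀ (n : ℕ) (F : Type) [Field F] [Fintype F] (q : ℕ)
  (W₁ W₂ X : Submodule F (Fin n → F)), Fintype.card F = q ^ 2 → Pp q W₁ W₂ → W₁ ≤ W₂ →
  (∀ s ∈ Sg n F true q, Sb s W₁ → Sb s W₂ → Sb s X) → (X ≤ W₂ ∨ X = ⊤) ∧ (X = ⊥ ∨ W₁ ≤ X)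

/-- D2b (unitary): nothing strictly between `W₁` and `W₂`. -/
def JobD2b : Prop := JobHF → UeSt → UqSt → ∀ (n : ℕ) (F : Type) [Field F] [Fintype F] (q : ℕ)
  (W₁ W₂ X : Submodule F (Fin n → F)), Fintype.card F = q ^ 2 → Pp q W₁ W₂ → W₁ ≠ ⊥ → W₁ ≤ X →
  X ≤ W₂ → (∀ s ∈ Sg n F true q, Sb s W₁ → Sb s W₂ → Sb s X) → X = W₁ ∨ X = W₂

theorem d2U (hf : JobHF) (ue : UeSt) (uq : UqSt) (a : JobD2a) (b : JobD2b) : D2St true := by
  intro n F _ _ q W₁ W₂ X hu h1 h12 hX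
  obtain ⟨hc, hp⟩ := hu rfl
  obtain ⟨h2 | h2, h3 | h3⟩ := a hf ue n F q W₁ W₂ X hc hp h12 hX
  · exact Or.inl h3
  · rcases b hf ue uq n F q W₁ W₂ X hc hp h1 h3 h2 hX with h | h
    · exact Or.inr (Or.inl h)
    · exact Or.inr (Or.inr (Or.inl h))
  · exact Or.inl h3
  · exact Or.inr (Or.inr (Or.inr h2))

/-- the property (*) -/
def SSt (u : Bool) : Prop := ∀ (n : ℕ) (F : Type) [Field F] [Fintype F] (q : ℕ) (A : Set (Mt n F))
  (W₁ W₂ : Submodule F (Fin n → F)), (u = true → Fintype.card F = q ^ 2 ∧ Pp q W₁ W₂) →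
  W₁ ≤ W₂ → IS A = W₁ → KS A = W₂ → (∀ s ∈ Sg n F u q, Sb s W₁ → Sb s W₂ → St s A) → Star A W₁ W₂

def JobSL : Prop := JobLT → SSt false

/-- SUa: some `x ∉ W₂` kills all forms, then all `x` do and `W₂ = V`. -/
def SuaSt : Prop := ∀ (n : ℕ) (F : Type) [Field F] [Fintype F] (q : ℕ) (A : Set (Mt n F))
  (W₁ W₂ : Submodule F (Fin n → F)), Fintype.card F = q ^ 2 → Pp q W₁ W₂ →
  W₁ ≤ W₂ → IS A = W₁ → KS A = W₂ → (∀ s ∈ Sg n F true q, Sb s W₁ → Sb s W₂ → St s A) →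
  ∀ x, x ∉ W₂ → ∃ m ∈ A, IsNilpotent (m - 1) ∧ hermForm n F q ((m - 1) *ᵥ x) x ≠ 0

def JobSUa : Prop := JobHF → UeSt → SuaSt

def JobSUb : Prop := JobHF → UeSt → SuaSt → SSt true

/-- MG: conjugation by `g`. -/
def JobMG : Prop := ∀ (n : ℕ) (F : Type) [Field F] (E : Subgroup (GL (Fin n) F)) (g : GL (Fin n) F),
  IS (mat (cj g E)) = mg g (IS (mat E)) ∧ KS (mat (cj g E)) = mg g (KS (mat E)) ∧
  ∀ W₁ W₂ : Submodule F (Fin n → F), Star (mat E) W₁ W₂ →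
    Star (mat (cj g E)) (mg g W₁) (mg g W₂)

/-- D3 and D4 -/
def JobD4 : Prop := NilSt → JobMG → ∀ (n : ℕ) (F : Type) [Field F] [Fintype F] (u : Bool) (q : ℕ)
  (Θ : Set (Jm n F)) (H Q E : Subgroup (GL (Fin n) F)) (g : GL (Fin n) F)
  (W₁ W₂ : Submodule F (Fin n → F)), Cx u q Θ H Q E g W₁ W₂ →
  IS (mat E) = W₁ ∧ KS (mat E) = W₂ ∧ mg g W₁ ≤ W₂

/-- D5 -/
def JobD5 : Prop := ∀ (n : ℕ) (F : Type) [Field F] [Fintype F] (u : Bool) (q : ℕ)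
  (Θ : Set (Jm n F)) (H Q E : Subgroup (GL (Fin n) F)) (g : GL (Fin n) F)
  (W₁ W₂ : Submodule F (Fin n → F)), Cx u q Θ H Q E g W₁ W₂ → IS (mat (cj g E)) = mg g W₁ →
  mg g W₁ ≤ W₂ → Star (mat (cj g E)) (mg g W₁) (mg g W₂) → mg g W₁ = W₁ ∨ mg g W₂ = W₂

/-- D6U: in the unitary case one equality gives the other. -/
def JobD6U : Prop := JobHF → ∀ (n : ℕ) (F : Type) [Field F] [Fintype F] (q : ℕ) (g : GL (Fin n) F)
  (W₁ W₂ : Submodule F (Fin n → F)), Fintype.card F = q ^ 2 → g ∈ Gam n F true q → Pp q W₁ W₂ →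
  (mg g W₁ = W₁ ↔ mg g W₂ = W₂)

/-- D6L: no anti-automorphism in `Θ`. -/
def JobD6L : Prop := JobTA → JobLT → ∀ (n : ℕ) (F : Type) [Field F] [Fintype F] (q : ℕ)
  (Θ : Set (Jm n F)) (H Q E : Subgroup (GL (Fin n) F)) (g : GL (Fin n) F)
  (W₁ W₂ : Submodule F (Fin n → F)), Cx false q Θ H Q E g W₁ W₂ → IS (mat E) = W₁ →
  KS (mat E) = W₂ → (∀ j ∈ Θ, j.a = false) → mg g W₁ ≠ W₁ ∧ mg g W₂ ≠ W₂

/-- D6A: an anti-automorphism in `Θ` gives the subspaces `X₁ ≤ X₂`. -/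
def JobD6A : Prop := JobDL → DeSt → ∀ (n : ℕ) (F : Type) [Field F] [Fintype F] (q : ℕ)
  (Θ : Set (Jm n F)) (H Q E : Subgroup (GL (Fin n) F)) (g : GL (Fin n) F)
  (W₁ W₂ : Submodule F (Fin n → F)) (j : Jm n F), Cx false q Θ H Q E g W₁ W₂ → Cl Θ H → j ∈ Θ →
  j.a = true → IS (mat E) = W₁ → KS (mat E) = W₂ → IS (mat (cj g E)) = mg g W₁ →
  KS (mat (cj g E)) = mg g W₂ → ∃ X₁ X₂ : Submodule F (Fin n → F), X₁ ≤ X₂ ∧
    Module.finrank F X₁ = Module.finrank F W₁ ∧ Module.finrank F X₂ = Module.finrank F W₂ ∧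
    (X₁ = W₁ ↔ mg g W₂ = W₂) ∧ (X₂ = W₂ ↔ mg g W₁ = W₁) ∧
    ∀ h ∈ H, Inv (mat (cj g E)) (mg h X₁) ∧ Inv (mat (cj g E)) (mg h X₂)

/-- D6B: the end of the anti case, first half. -/
def JobD6B : Prop := ∀ (n : ℕ) (F : Type) [Field F] [Fintype F] (q : ℕ)
  (Θ : Set (Jm n F)) (H Q E : Subgroup (GL (Fin n) F)) (g : GL (Fin n) F)
  (W₁ W₂ X₁ X₂ : Submodule F (Fin n → F)), Cx false q Θ H Q E g W₁ W₂ →
  Star (mat (cj g E)) (mg g W₁) (mg g W₂) → X₁ ≤ X₂ →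
  Module.finrank F X₁ = Module.finrank F W₁ → Module.finrank F X₂ = Module.finrank F W₂ →
  (X₁ = W₁ ↔ mg g W₂ = W₂) → (X₂ = W₂ ↔ mg g W₁ = W₁) →
  (∀ h ∈ H, Inv (mat (cj g E)) (mg h X₁) ∧ Inv (mat (cj g E)) (mg h X₂)) →
  mg g W₁ ≠ W₁

/-- D6C: the end of the anti case, second half. -/
def JobD6C : Prop := ∀ (n : ℕ) (F : Type) [Field F] [Fintype F] (q : ℕ)
  (Θ : Set (Jm n F)) (H Q E : Subgroup (GL (Fin n) F)) (g : GL (Fin n) F)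
  (W₁ W₂ X₁ X₂ : Submodule F (Fin n → F)), Cx false q Θ H Q E g W₁ W₂ →
  Star (mat (cj g E)) (mg g W₁) (mg g W₂) → X₁ ≤ X₂ →
  Module.finrank F X₁ = Module.finrank F W₁ → Module.finrank F X₂ = Module.finrank F W₂ →
  (X₁ = W₁ ↔ mg g W₂ = W₂) → (X₂ = W₂ ↔ mg g W₁ = W₁) →
  (∀ h ∈ H, Inv (mat (cj g E)) (mg h X₁) ∧ Inv (mat (cj g E)) (mg h X₂)) →
  mg g W₂ ≠ W₂

structure All : Prop where
  N0 : JobN0
  N1 : JobN1
  N2 : JobN2
  NE : JobNE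
  TA : JobTA
  DLa : JobDLa
  DLb : JobDLb
  DEa : JobDEa
  DEb : JobDEb
  LT : JobLT
  HF : JobHF
  UE : JobUE
  UD : JobUD
  UR : JobUR
  UQ : JobUQ
  MV : JobMV
  D1a : JobD1a
  D1p : JobD1p
  D1s : JobD1s
  D2L : JobD2L
  D2a : JobD2a
  D2b : JobD2b
  SL : JobSL
  SUa : JobSUa
  SUb : JobSUb
  MG : JobMG
  D4 : JobD4
  D5 : JobD5
  D6U : JobD6U
  D6L : JobD6L
  D6A : JobD6A
  D6B : JobD6B
  D6C : JobD6C

theorem All.d1 (J : All) : D1St :=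
  d1St (nilSt J.N0 J.N1 J.N2) J.NE J.TA (J.DLb J.DLa) (J.DEb J.DEa) J.LT J.HF
    (J.MV J.HF (J.UE J.HF)) J.D1a J.D1p J.D1s

theorem All.core (J : All) {n : ℕ} {F : Type} [Field F] [Fintype F] {u : Bool} {q : ℕ}
    {Θ : Set (Jm n F)} {H Q E : Subgroup (GL (Fin n) F)} {g : GL (Fin n) F}
    (c : Cf u q (ringChar F) Θ H Q E g) : ∃ W₁ W₂ : Submodule F (Fin n → F),
      Cx u q Θ H Q E g W₁ W₂ ∧ IS (mat E) = W₁ ∧ KS (mat E) = W₂ ∧
      IS (mat (cj g E)) = mg g W₁ ∧ KS (mat (cj g E)) = mg g W₂ ∧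
      Star (mat (cj g E)) (mg g W₁) (mg g W₂) ∧ (mg g W₁ = W₁ ∨ mg g W₂ = W₂) := by
  obtain ⟨W₁, W₂, b⟩ := J.d1 n F u q Θ H Q E c.toCf0
  have hu : u = true → Fintype.card F = q ^ 2 ∧ Pp q W₁ W₂ := by
    rintro rfl
    exact ⟨by simpa using c.par.card, b.pp rfl⟩
  have d2 : D2St u := by
    cases u
    · exact J.D2L J.LT
    · exact d2U J.HF (J.UE J.HF) (J.UQ J.HF (J.UD J.HF) (J.UR J.HF)) J.D2a J.D2b
  have ss : SSt u := by
    cases u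
    · exact J.SL J.LT
    · exact J.SUb J.HF (J.UE J.HF) (J.SUa J.HF (J.UE J.HF))
  have cx : Cx u q Θ H Q E g W₁ W₂ :=
    ⟨c, b, fun X hX => d2 n F q W₁ W₂ X hu b.n1 b.le fun s hs h1 h2 => hX s (b.stab s hs h1 h2)⟩
  obtain ⟨e1, e2, e3⟩ := J.D4 (nilSt J.N0 J.N1 J.N2) J.MG n F u q Θ H Q E g W₁ W₂ cx
  obtain ⟨m1, m2, m3⟩ := J.MG n F E g
  have st := m3 W₁ W₂ (ss n F q (mat E) W₁ W₂ hu b.le e1 e2
    fun s hs h1 h2 => st_of_iv c.inn c.ivE (b.stab s hs h1 h2))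
  rw [e1] at m1
  rw [e2] at m2
  exact ⟨W₁, W₂, cx, e1, e2, m1, m2, st, J.D5 n F u q Θ H Q E g W₁ W₂ cx m1 e3 st⟩

theorem All.jobDU (J : All) : JobD true := by
  intro n F _ _ q Θ H Q E g c
  obtain ⟨W₁, W₂, cx, -, -, -, -, -, h⟩ := J.core c
  have e := J.D6U J.HF n F q g W₁ W₂ (by simpa using c.par.card) c.gS.1 (cx.bs.pp rfl)
  rcases h with h | h
  · exact cx.not_both h (e.1 h)
  · exact cx.not_both (e.2 h) h

theorem All.jobDL2 (J : All) : JobDL2 := by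
  intro n F _ _ q Θ H Q E g cl c
  obtain ⟨W₁, W₂, cx, e1, e2, m1, m2, st, h⟩ := J.core c
  have key : mg g W₁ ≠ W₁ ∧ mg g W₂ ≠ W₂ := by
    by_cases ha : ∀ j ∈ Θ, j.a = false
    · exact J.D6L J.TA J.LT n F q Θ H Q E g W₁ W₂ cx e1 e2 ha
    · push Not at ha
      obtain ⟨j, hj, ja⟩ := ha
      obtain ⟨X₁, X₂, x1, x2, x3, x4, x5, x6⟩ := J.D6A (J.DLb J.DLa) (J.DEb J.DEa) n F q Θ H Q E g
        W₁ W₂ j cx cl hj (by simpa using ja) e1 e2 m1 m2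
      exact ⟨J.D6B n F q Θ H Q E g W₁ W₂ X₁ X₂ cx st x1 x2 x3 x4 x5 x6,
        J.D6C n F q Θ H Q E g W₁ W₂ X₁ X₂ cx st x1 x2 x3 x4 x5 x6⟩
  rcases h with h | h
  · exact key.1 h
  · exact key.2 h

end H11.SimD
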