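import Cfsg.Agent.H11.SimDSpec
import Cfsg.Agent.H1.SimD2b
import Cfsg.Agent.H11.SimDSUa
import Cfsg.Agent.H11.SimDTA
import Cfsg.Agent.H17.SimUR
import Cfsg.Agent.H19.SimDUQ
import Cfsg.Agent.H20.SimD6B
import Cfsg.Agent.H20.SimD6C
import Cfsg.Agent.H24.SimDHF
import Cfsg.Agent.H30.SimDLb
import Cfsg.Agent.H31.SimD2L
import Cfsg.Agent.H35.SimN0
import Cfsg.Agent.H40.SimD6A
import Cfsg.Agent.H45.SimDD2a
import Cfsg.Agent.H52.SimD6L
import Cfsg.Agent.H54.SimDLa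
import Cfsg.Agent.H60.SimD4
import Cfsg.Agent.H63.SimD1b
import Cfsg.Agent.H63.SimSUb
import Cfsg.Agent.H65.SimN2
import Cfsg.Agent.H66.SimD5
import Cfsg.Agent.H68.SimDMG
import Cfsg.Agent.H69.SimDSL
import Cfsg.Agent.H72.SimD6U
import Cfsg.Agent.H74.SimDEb
import Cfsg.Agent.H78.SimUD
import Cfsg.Agent.H81.SimDDEa
import Cfsg.Agent.H90.SimDN1
import Cfsg.Agent.H92.SimLT

/-! # S3694 (tower SIM), chapter D: assembly. -/

namespace H11.SimD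

theorem all : All :=
  { N0 := H35.SimN0.jobD_N0
    N1 := H90.SimDN1.jobD_N1
    N2 := H65.SimN2.jobD_N2
    NE := H63.SimD1.jobNE
    TA := H11.SimD.jobD_TA
    DLa := H54.SimDLa.jobD_DLa
    DLb := H30.SimDLb.jobD_DLb
    DEa := H81.SimDDEa.jobD_DEa
    DEb := H74.SimDEb.jobD_DEb
    LT := H92.SimLT.jobD_LT
    HF := H24.SimD.jobD_HF
    UE := H63.SimD1.jobUE
    UD := H78.SimUD.jobD_UD
    UR := H17.SimUR.jobD_UR
    UQ := H19.SimDUQ.jobD_UQ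
    MV := H63.SimD1.jobMV
    D1a := H63.SimD1.jobD1a
    D1p := H63.SimD1.jobD1p
    D1s := H63.SimD1.jobD1s
    D2L := H31.SimD2L.jobD_D2L
    D2a := H45.SimDD2a.jobD_D2a
    D2b := H1.SimD2b.jobD_D2b
    SL := H69.SimDSL.jobD_SL
    SUa := H11.SimD.jobD_SUa
    SUb := H63.SimSUb.jobD_SUb
    MG := H68.SimDMG.jobD_MG
    D4 := H60.SimD4.jobD_D4
    D5 := H66.SimD5.jobD_D5
    D6U := H72.SimD6U.jobD_D6U
    D6L := H52.SimD6L.jobD_D6L
    D6A := H40.SimD6A.jobD_D6A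
    D6B := H20.SimD6B.jobD_D6B
    D6C := H20.SimD6C.jobD_D6C }

theorem jobDL2 : H0.Sim.JobDL2 := all.jobDL2

theorem jobDU : H0.Sim.JobD true := all.jobDU

theorem d1 : D1St := all.d1

end H11.SimD
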