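/- T3 tower (row S5228): a Sylow 3-subgroup of the Thompson group in coordinates. -/
import Cfsg.Agent.H90.U5Tri
import Cfsg.Agent.H90.U5Kit

set_option autoImplicit false
set_option linter.unusedSectionVars false
set_option linter.unusedSimpArgs false
set_option linter.unusedVariables false

open Subgroup H90.RF

namespace H11.T3

/-- the normal word `b a d c e f g h i j` -/
@[ext] structure Co where
  (b a d c e f g h i j : ZMod 3)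
  deriving DecidableEq

theorem cu (x : ZMod 3) : x ^ 3 = x := by revert x; decide

theorem z3 (x : ZMod 3) : x = 0 ∨ x = 1 ∨ x = -1 := by revert x; decide

theorem sq1 {x : ZMod 3} (h : x ≠ 0) : x ^ 2 = 1 := by revert x; decide

namespace Co

instance instMulCo : Mul Co := ⟨fun u w => {
  b := u.b + w.b
  a := u.a + w.a
  d := u.d + w.d - u.a * w.b
  c := u.c + w.c - u.a * w.b
  e := u.e + w.e - u.d * w.b - u.a * w.b ^ 2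
  f := u.f + w.f - u.c * w.a - u.a ^ 2 * w.b + u.a * w.b * w.a
  g := u.g + w.g + u.c * w.d + u.e * w.a + u.f * w.b - u.a * u.d * w.b - u.a * w.b * w.d - u.d * w.b * w.a -
    u.a * w.b ^ 2 * w.a
  h := u.h + w.h + u.c * w.a - u.e * w.d - u.e * w.c - u.g * w.b - u.a * w.b * w.a - u.d ^ 2 * w.b +
    u.d * u.c * w.b + u.d * w.b * w.d + u.d * w.b * w.c + u.f * w.b ^ 2 + u.a * u.d * w.b ^ 2 +
    u.a * u.c * w.b ^ 2 + u.a * w.b ^ 2 * w.d + u.a * w.b ^ 2 * w.c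
  i := u.i + w.i + u.e * w.b - u.f * w.e - u.g * w.d + u.h * w.a + u.d * w.b ^ 2 + u.c * u.e * w.a -
    u.c * w.a ^ 2 + u.c * w.a * w.e + u.c * w.d ^ 2 - u.e * w.a * w.d - u.f * w.b * w.d -
    u.g * w.b * w.a + u.a ^ 2 * u.e * w.b + u.a ^ 2 * w.b * w.a + u.a ^ 2 * w.b * w.e -
    u.a * u.d ^ 2 * w.b + u.a * u.d * w.b * w.d - u.a * u.e * w.b * w.a + u.a * w.b * w.a ^ 2 -
    u.a * w.b * w.a * w.e - u.a * w.b * w.d ^ 2 - u.d ^ 2 * w.b * w.a + u.d * w.b * w.a * w.d +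
    u.f * w.b ^ 2 * w.a - u.a ^ 2 * u.d * w.b ^ 2 - u.a * u.d * w.b ^ 2 * w.a +
    u.a * w.b ^ 2 * w.a * w.d
  j := u.j + w.j - u.d * w.b - u.e * w.e - u.f * w.c + u.g * w.a + u.g * w.e + u.h * w.d - u.i * w.b -
    u.a * u.d * w.b + u.d * u.e * w.b + u.d * w.b * w.e - u.c ^ 2 * w.a + u.c * u.e * w.d +
    u.c * w.a * w.d + u.c * w.a * w.c + u.c * w.d * w.e - u.e ^ 2 * w.a - u.e ^ 2 * w.e + u.e * w.b ^ 2 -
    u.e * w.a ^ 2 + u.e * w.a * w.e + u.e * w.d ^ 2 - u.e * w.e ^ 2 + u.f * w.b * w.a + u.f * w.b * w.e -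
    u.g * w.b * w.d - u.a ^ 2 * u.d * w.b + u.a ^ 2 * u.c * w.b + u.a ^ 2 * w.b ^ 2 +
    u.a ^ 2 * w.b * w.d + u.a ^ 2 * w.b * w.c - u.a * u.c * w.b * w.a + u.a * u.e * w.b ^ 2 -
    u.a * u.e * w.b * w.d + u.a * w.b ^ 2 * w.e - u.a * w.b * w.a * w.d - u.a * w.b * w.a * w.c -
    u.a * w.b * w.d * w.e + u.d ^ 2 * w.b ^ 2 - u.d ^ 2 * w.b * w.d + u.d * u.e ^ 2 * w.b -
    u.d * u.e * w.b * w.a - u.d * u.e * w.b * w.e + u.d * w.b * w.a ^ 2 - u.d * w.b * w.a * w.e -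
    u.d * w.b * w.d ^ 2 + u.d * w.b * w.e ^ 2 + u.f * w.b ^ 2 * w.d - u.a ^ 2 * u.e * w.b ^ 2 +
    u.a ^ 2 * w.b ^ 2 * w.a - u.a ^ 2 * w.b ^ 2 * w.e + u.a * u.d ^ 2 * w.b ^ 2 -
    u.a * u.d * w.b ^ 2 * w.d + u.a * u.e ^ 2 * w.b ^ 2 - u.a * u.e * w.b ^ 2 * w.a -
    u.a * u.e * w.b ^ 2 * w.e + u.a * w.b ^ 2 * w.a ^ 2 - u.a * w.b ^ 2 * w.a * w.e -
    u.a * w.b ^ 2 * w.d ^ 2 + u.a * w.b ^ 2 * w.e ^ 2 - u.d ^ 2 * u.e * w.b ^ 2 -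
    u.d ^ 2 * w.b ^ 2 * w.a - u.d ^ 2 * w.b ^ 2 * w.e }⟩

instance instOneCo : One Co := ⟨⟨0, 0, 0, 0, 0, 0, 0, 0, 0, 0⟩⟩

instance instInvCo : Inv Co := ⟨fun u => {
  b := -u.b
  a := -u.a
  d := -u.d - u.b * u.a
  c := -u.c - u.b * u.a
  e := -u.e - u.b * u.d + u.b ^ 2 * u.a
  f := -u.f - u.a * u.c + u.b * u.a ^ 2
  g := -u.g + u.b * u.f + u.a * u.e + u.d * u.c + u.b * u.a * u.d + u.b * u.a * u.c
  h := -u.h - u.b * u.g + u.a * u.c - u.d * u.e - u.c * u.e - u.b ^ 2 * u.f + u.b * u.a * u.e +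
    u.b * u.d ^ 2 + u.b ^ 2 * u.a * u.d
  i := -u.i + u.b * u.e + u.a * u.h - u.d * u.g - u.e * u.f - u.b ^ 2 * u.d + u.a ^ 2 * u.c +
    u.a * u.d * u.e - u.d ^ 2 * u.c + u.b * u.a ^ 2 * u.e - u.b * u.a * u.d ^ 2 +
    u.b ^ 2 * u.a ^ 2 * u.d
  j := -u.j - u.b * u.d - u.b * u.i + u.a * u.g + u.d * u.h - u.c * u.f - u.e ^ 2 + u.e * u.g -
    u.b ^ 2 * u.e + u.b * u.a * u.d + u.b * u.a * u.h - u.b * u.d * u.e - u.b * u.d * u.g -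
    u.b * u.e * u.f + u.a ^ 2 * u.e - u.a * u.d * u.c + u.a * u.c ^ 2 + u.a * u.e ^ 2 - u.d ^ 2 * u.e +
    u.b ^ 2 * u.a ^ 2 + u.b ^ 2 * u.a * u.e + u.b ^ 2 * u.d ^ 2 - u.b * u.a ^ 2 * u.d -
    u.b * u.a ^ 2 * u.c + u.b * u.a * u.d * u.e - u.b * u.d ^ 2 * u.c + u.b * u.d * u.e ^ 2 +
    u.b ^ 2 * u.a ^ 2 * u.e - u.b ^ 2 * u.a * u.d ^ 2 - u.b ^ 2 * u.a * u.e ^ 2 +
    u.b ^ 2 * u.d ^ 2 * u.e }⟩

@[simp] theorem mul_b (u w : Co) : (u * w).b = u.b + w.b := rfl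
@[simp] theorem mul_a (u w : Co) : (u * w).a = u.a + w.a := rfl
@[simp] theorem mul_d (u w : Co) : (u * w).d = u.d + w.d - u.a * w.b := rfl
@[simp] theorem mul_c (u w : Co) : (u * w).c = u.c + w.c - u.a * w.b := rfl
@[simp] theorem mul_e (u w : Co) : (u * w).e = u.e + w.e - u.d * w.b - u.a * w.b ^ 2 := rfl
@[simp] theorem mul_f (u w : Co) : (u * w).f = u.f + w.f - u.c * w.a - u.a ^ 2 * w.b + u.a * w.b * w.a := rfl
@[simp] theorem mul_g (u w : Co) : (u * w).g = u.g + w.g + u.c * w.d + u.e * w.a + u.f * w.b - u.a * u.d * w.b - u.a * w.b * w.d - u.d * w.b * w.a -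
    u.a * w.b ^ 2 * w.a := rfl
@[simp] theorem mul_h (u w : Co) : (u * w).h = u.h + w.h + u.c * w.a - u.e * w.d - u.e * w.c - u.g * w.b - u.a * w.b * w.a - u.d ^ 2 * w.b +
    u.d * u.c * w.b + u.d * w.b * w.d + u.d * w.b * w.c + u.f * w.b ^ 2 + u.a * u.d * w.b ^ 2 +
    u.a * u.c * w.b ^ 2 + u.a * w.b ^ 2 * w.d + u.a * w.b ^ 2 * w.c := rfl
@[simp] theorem mul_i (u w : Co) : (u * w).i = u.i + w.i + u.e * w.b - u.f * w.e - u.g * w.d + u.h * w.a + u.d * w.b ^ 2 + u.c * u.e * w.a -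
    u.c * w.a ^ 2 + u.c * w.a * w.e + u.c * w.d ^ 2 - u.e * w.a * w.d - u.f * w.b * w.d -
    u.g * w.b * w.a + u.a ^ 2 * u.e * w.b + u.a ^ 2 * w.b * w.a + u.a ^ 2 * w.b * w.e -
    u.a * u.d ^ 2 * w.b + u.a * u.d * w.b * w.d - u.a * u.e * w.b * w.a + u.a * w.b * w.a ^ 2 -
    u.a * w.b * w.a * w.e - u.a * w.b * w.d ^ 2 - u.d ^ 2 * w.b * w.a + u.d * w.b * w.a * w.d +
    u.f * w.b ^ 2 * w.a - u.a ^ 2 * u.d * w.b ^ 2 - u.a * u.d * w.b ^ 2 * w.a +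
    u.a * w.b ^ 2 * w.a * w.d := rfl
@[simp] theorem mul_j (u w : Co) : (u * w).j = u.j + w.j - u.d * w.b - u.e * w.e - u.f * w.c + u.g * w.a + u.g * w.e + u.h * w.d - u.i * w.b -
    u.a * u.d * w.b + u.d * u.e * w.b + u.d * w.b * w.e - u.c ^ 2 * w.a + u.c * u.e * w.d +
    u.c * w.a * w.d + u.c * w.a * w.c + u.c * w.d * w.e - u.e ^ 2 * w.a - u.e ^ 2 * w.e + u.e * w.b ^ 2 -
    u.e * w.a ^ 2 + u.e * w.a * w.e + u.e * w.d ^ 2 - u.e * w.e ^ 2 + u.f * w.b * w.a + u.f * w.b * w.e -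
    u.g * w.b * w.d - u.a ^ 2 * u.d * w.b + u.a ^ 2 * u.c * w.b + u.a ^ 2 * w.b ^ 2 +
    u.a ^ 2 * w.b * w.d + u.a ^ 2 * w.b * w.c - u.a * u.c * w.b * w.a + u.a * u.e * w.b ^ 2 -
    u.a * u.e * w.b * w.d + u.a * w.b ^ 2 * w.e - u.a * w.b * w.a * w.d - u.a * w.b * w.a * w.c -
    u.a * w.b * w.d * w.e + u.d ^ 2 * w.b ^ 2 - u.d ^ 2 * w.b * w.d + u.d * u.e ^ 2 * w.b -
    u.d * u.e * w.b * w.a - u.d * u.e * w.b * w.e + u.d * w.b * w.a ^ 2 - u.d * w.b * w.a * w.e -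
    u.d * w.b * w.d ^ 2 + u.d * w.b * w.e ^ 2 + u.f * w.b ^ 2 * w.d - u.a ^ 2 * u.e * w.b ^ 2 +
    u.a ^ 2 * w.b ^ 2 * w.a - u.a ^ 2 * w.b ^ 2 * w.e + u.a * u.d ^ 2 * w.b ^ 2 -
    u.a * u.d * w.b ^ 2 * w.d + u.a * u.e ^ 2 * w.b ^ 2 - u.a * u.e * w.b ^ 2 * w.a -
    u.a * u.e * w.b ^ 2 * w.e + u.a * w.b ^ 2 * w.a ^ 2 - u.a * w.b ^ 2 * w.a * w.e -
    u.a * w.b ^ 2 * w.d ^ 2 + u.a * w.b ^ 2 * w.e ^ 2 - u.d ^ 2 * u.e * w.b ^ 2 -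
    u.d ^ 2 * w.b ^ 2 * w.a - u.d ^ 2 * w.b ^ 2 * w.e := rfl
@[simp] theorem inv_b (u : Co) : (u⁻¹).b = -u.b := rfl
@[simp] theorem inv_a (u : Co) : (u⁻¹).a = -u.a := rfl
@[simp] theorem inv_d (u : Co) : (u⁻¹).d = -u.d - u.b * u.a := rfl
@[simp] theorem inv_c (u : Co) : (u⁻¹).c = -u.c - u.b * u.a := rfl
@[simp] theorem inv_e (u : Co) : (u⁻¹).e = -u.e - u.b * u.d + u.b ^ 2 * u.a := rfl
@[simp] theorem inv_f (u : Co) : (u⁻¹).f = -u.f - u.a * u.c + u.b * u.a ^ 2 := rfl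
@[simp] theorem inv_g (u : Co) : (u⁻¹).g = -u.g + u.b * u.f + u.a * u.e + u.d * u.c + u.b * u.a * u.d + u.b * u.a * u.c := rfl
@[simp] theorem inv_h (u : Co) : (u⁻¹).h = -u.h - u.b * u.g + u.a * u.c - u.d * u.e - u.c * u.e - u.b ^ 2 * u.f + u.b * u.a * u.e +
    u.b * u.d ^ 2 + u.b ^ 2 * u.a * u.d := rfl
@[simp] theorem inv_i (u : Co) : (u⁻¹).i = -u.i + u.b * u.e + u.a * u.h - u.d * u.g - u.e * u.f - u.b ^ 2 * u.d + u.a ^ 2 * u.c +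
    u.a * u.d * u.e - u.d ^ 2 * u.c + u.b * u.a ^ 2 * u.e - u.b * u.a * u.d ^ 2 +
    u.b ^ 2 * u.a ^ 2 * u.d := rfl
@[simp] theorem inv_j (u : Co) : (u⁻¹).j = -u.j - u.b * u.d - u.b * u.i + u.a * u.g + u.d * u.h - u.c * u.f - u.e ^ 2 + u.e * u.g -
    u.b ^ 2 * u.e + u.b * u.a * u.d + u.b * u.a * u.h - u.b * u.d * u.e - u.b * u.d * u.g -
    u.b * u.e * u.f + u.a ^ 2 * u.e - u.a * u.d * u.c + u.a * u.c ^ 2 + u.a * u.e ^ 2 - u.d ^ 2 * u.e +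
    u.b ^ 2 * u.a ^ 2 + u.b ^ 2 * u.a * u.e + u.b ^ 2 * u.d ^ 2 - u.b * u.a ^ 2 * u.d -
    u.b * u.a ^ 2 * u.c + u.b * u.a * u.d * u.e - u.b * u.d ^ 2 * u.c + u.b * u.d * u.e ^ 2 +
    u.b ^ 2 * u.a ^ 2 * u.e - u.b ^ 2 * u.a * u.d ^ 2 - u.b ^ 2 * u.a * u.e ^ 2 +
    u.b ^ 2 * u.d ^ 2 * u.e := rfl
@[simp] theorem one_b : (1 : Co).b = 0 := rfl
@[simp] theorem one_a : (1 : Co).a = 0 := rfl
@[simp] theorem one_d : (1 : Co).d = 0 := rfl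
@[simp] theorem one_c : (1 : Co).c = 0 := rfl
@[simp] theorem one_e : (1 : Co).e = 0 := rfl
@[simp] theorem one_f : (1 : Co).f = 0 := rfl
@[simp] theorem one_g : (1 : Co).g = 0 := rfl
@[simp] theorem one_h : (1 : Co).h = 0 := rfl
@[simp] theorem one_i : (1 : Co).i = 0 := rfl
@[simp] theorem one_j : (1 : Co).j = 0 := rfl

theorem as_b (u v w : Co) : (u * v * w).b = (u * (v * w)).b := by
  simp only [mul_b, mul_a, mul_d, mul_c, mul_e, mul_f, mul_g, mul_h, mul_i, mul_j]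
  have := cu u.b; have := cu u.a; have := cu u.d; have := cu u.c; have := cu u.e
  have := cu v.b; have := cu v.a; have := cu v.d; have := cu v.c; have := cu v.e
  have := cu w.b; have := cu w.a; have := cu w.d; have := cu w.c; have := cu w.e
  grind

theorem as_a (u v w : Co) : (u * v * w).a = (u * (v * w)).a := by
  simp only [mul_b, mul_a, mul_d, mul_c, mul_e, mul_f, mul_g, mul_h, mul_i, mul_j]
  have := cu u.b; have := cu u.a; have := cu u.d; have := cu u.c; have := cu u.e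
  have := cu v.b; have := cu v.a; have := cu v.d; have := cu v.c; have := cu v.e
  have := cu w.b; have := cu w.a; have := cu w.d; have := cu w.c; have := cu w.e
  grind

theorem as_d (u v w : Co) : (u * v * w).d = (u * (v * w)).d := by
  simp only [mul_b, mul_a, mul_d, mul_c, mul_e, mul_f, mul_g, mul_h, mul_i, mul_j]
  have := cu u.b; have := cu u.a; have := cu u.d; have := cu u.c; have := cu u.e
  have := cu v.b; have := cu v.a; have := cu v.d; have := cu v.c; have := cu v.e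
  have := cu w.b; have := cu w.a; have := cu w.d; have := cu w.c; have := cu w.e
  grind

theorem as_c (u v w : Co) : (u * v * w).c = (u * (v * w)).c := by
  simp only [mul_b, mul_a, mul_d, mul_c, mul_e, mul_f, mul_g, mul_h, mul_i, mul_j]
  have := cu u.b; have := cu u.a; have := cu u.d; have := cu u.c; have := cu u.e
  have := cu v.b; have := cu v.a; have := cu v.d; have := cu v.c; have := cu v.e
  have := cu w.b; have := cu w.a; have := cu w.d; have := cu w.c; have := cu w.e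
  grind

theorem as_e (u v w : Co) : (u * v * w).e = (u * (v * w)).e := by
  simp only [mul_b, mul_a, mul_d, mul_c, mul_e, mul_f, mul_g, mul_h, mul_i, mul_j]
  have := cu u.b; have := cu u.a; have := cu u.d; have := cu u.c; have := cu u.e
  have := cu v.b; have := cu v.a; have := cu v.d; have := cu v.c; have := cu v.e
  have := cu w.b; have := cu w.a; have := cu w.d; have := cu w.c; have := cu w.e
  grind

theorem as_f (u v w : Co) : (u * v * w).f = (u * (v * w)).f := by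
  simp only [mul_b, mul_a, mul_d, mul_c, mul_e, mul_f, mul_g, mul_h, mul_i, mul_j]
  have := cu u.b; have := cu u.a; have := cu u.d; have := cu u.c; have := cu u.e
  have := cu v.b; have := cu v.a; have := cu v.d; have := cu v.c; have := cu v.e
  have := cu w.b; have := cu w.a; have := cu w.d; have := cu w.c; have := cu w.e
  grind

theorem as_g (u v w : Co) : (u * v * w).g = (u * (v * w)).g := by
  simp only [mul_b, mul_a, mul_d, mul_c, mul_e, mul_f, mul_g, mul_h, mul_i, mul_j]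
  have := cu u.b; have := cu u.a; have := cu u.d; have := cu u.c; have := cu u.e
  have := cu v.b; have := cu v.a; have := cu v.d; have := cu v.c; have := cu v.e
  have := cu w.b; have := cu w.a; have := cu w.d; have := cu w.c; have := cu w.e
  grind

theorem as_h (u v w : Co) : (u * v * w).h = (u * (v * w)).h := by
  simp only [mul_b, mul_a, mul_d, mul_c, mul_e, mul_f, mul_g, mul_h, mul_i, mul_j]
  have := cu u.b; have := cu u.a; have := cu u.d; have := cu u.c; have := cu u.e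
  have := cu v.b; have := cu v.a; have := cu v.d; have := cu v.c; have := cu v.e
  have := cu w.b; have := cu w.a; have := cu w.d; have := cu w.c; have := cu w.e
  grind

theorem as_i (u v w : Co) : (u * v * w).i = (u * (v * w)).i := by
  simp only [mul_b, mul_a, mul_d, mul_c, mul_e, mul_f, mul_g, mul_h, mul_i, mul_j]
  have := cu u.b; have := cu u.a; have := cu u.d; have := cu u.c; have := cu u.e
  have := cu v.b; have := cu v.a; have := cu v.d; have := cu v.c; have := cu v.e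
  have := cu w.b; have := cu w.a; have := cu w.d; have := cu w.c; have := cu w.e
  grind

theorem as_j (u v w : Co) : (u * v * w).j = (u * (v * w)).j := by
  simp only [mul_b, mul_a, mul_d, mul_c, mul_e, mul_f, mul_g, mul_h, mul_i, mul_j]
  have := cu u.b; have := cu u.a; have := cu u.d; have := cu u.c; have := cu u.e
  have := cu v.b; have := cu v.a; have := cu v.d; have := cu v.c; have := cu v.e
  have := cu w.b; have := cu w.a; have := cu w.d; have := cu w.c; have := cu w.e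
  grind

instance instGroupCo : Group Co := Group.ofLeftAxioms
  (fun u v w => Co.ext (as_b u v w) (as_a u v w) (as_d u v w) (as_c u v w) (as_e u v w) (as_f u v w)
    (as_g u v w) (as_h u v w) (as_i u v w) (as_j u v w))
  (fun u => by ext <;> simp)
  (fun u => by
    have := cu u.b; have := cu u.a; have := cu u.d; have := cu u.c; have := cu u.e
    ext <;> simp only [mul_b, mul_a, mul_d, mul_c, mul_e, mul_f, mul_g, mul_h, mul_i, mul_j,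
      inv_b, inv_a, inv_d, inv_c, inv_e, inv_f, inv_g, inv_h, inv_i, inv_j,
      one_b, one_a, one_d, one_c, one_e, one_f, one_g, one_h, one_i, one_j] <;> grind)

end Co

open Co

theorem cm_b (s m : Co) : (cm s m).b = 0 := by
  simp only [cm, mul_b, mul_a, mul_d, mul_c, mul_e, mul_f, mul_g, mul_h, mul_i, mul_j,
    inv_b, inv_a, inv_d, inv_c, inv_e, inv_f, inv_g, inv_h, inv_i, inv_j]
  have := cu s.b; have := cu s.a; have := cu s.d; have := cu s.c; have := cu s.e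
  have := cu m.b; have := cu m.a; have := cu m.d; have := cu m.c; have := cu m.e
  grind

theorem cm_a (s m : Co) : (cm s m).a = 0 := by
  simp only [cm, mul_b, mul_a, mul_d, mul_c, mul_e, mul_f, mul_g, mul_h, mul_i, mul_j,
    inv_b, inv_a, inv_d, inv_c, inv_e, inv_f, inv_g, inv_h, inv_i, inv_j]
  have := cu s.b; have := cu s.a; have := cu s.d; have := cu s.c; have := cu s.e
  have := cu m.b; have := cu m.a; have := cu m.d; have := cu m.c; have := cu m.e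
  grind

theorem cm_d (s m : Co) : (cm s m).d = s.b * m.a - s.a * m.b := by
  simp only [cm, mul_b, mul_a, mul_d, mul_c, mul_e, mul_f, mul_g, mul_h, mul_i, mul_j,
    inv_b, inv_a, inv_d, inv_c, inv_e, inv_f, inv_g, inv_h, inv_i, inv_j]
  have := cu s.b; have := cu s.a; have := cu s.d; have := cu s.c; have := cu s.e
  have := cu m.b; have := cu m.a; have := cu m.d; have := cu m.c; have := cu m.e
  grind

theorem cm_c (s m : Co) : (cm s m).c = s.b * m.a - s.a * m.b := by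
  simp only [cm, mul_b, mul_a, mul_d, mul_c, mul_e, mul_f, mul_g, mul_h, mul_i, mul_j,
    inv_b, inv_a, inv_d, inv_c, inv_e, inv_f, inv_g, inv_h, inv_i, inv_j]
  have := cu s.b; have := cu s.a; have := cu s.d; have := cu s.c; have := cu s.e
  have := cu m.b; have := cu m.a; have := cu m.d; have := cu m.c; have := cu m.e
  grind

theorem cm_e (s m : Co) : (cm s m).e = s.b * m.d - s.d * m.b - s.b ^ 2 * m.a - s.b * s.a * m.b - s.a * m.b ^ 2 := by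
  simp only [cm, mul_b, mul_a, mul_d, mul_c, mul_e, mul_f, mul_g, mul_h, mul_i, mul_j,
    inv_b, inv_a, inv_d, inv_c, inv_e, inv_f, inv_g, inv_h, inv_i, inv_j]
  have := cu s.b; have := cu s.a; have := cu s.d; have := cu s.c; have := cu s.e
  have := cu m.b; have := cu m.a; have := cu m.d; have := cu m.c; have := cu m.e
  grind

theorem cm_f (s m : Co) : (cm s m).f = s.a * m.c - s.c * m.a + s.b * m.a ^ 2 + s.a ^ 2 * m.b + s.a * m.b * m.a := by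
  simp only [cm, mul_b, mul_a, mul_d, mul_c, mul_e, mul_f, mul_g, mul_h, mul_i, mul_j,
    inv_b, inv_a, inv_d, inv_c, inv_e, inv_f, inv_g, inv_h, inv_i, inv_j]
  have := cu s.b; have := cu s.a; have := cu s.d; have := cu s.c; have := cu s.e
  have := cu m.b; have := cu m.a; have := cu m.d; have := cu m.c; have := cu m.e
  grind

theorem cm_g (s m : Co) : (cm s m).g = -s.b * m.f - s.a * m.e - s.d * m.c + s.c * m.d + s.e * m.a + s.f * m.b - s.b * s.a * m.c +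
    s.b * s.c * m.a + s.b * m.a * m.d - s.b * m.a * m.c + s.a * s.d * m.b - s.a * m.b * m.d +
    s.a * m.b * m.c - s.d * m.b * m.a - s.b * s.a ^ 2 * m.b + s.b * s.a * m.b * m.a + s.a ^ 2 * m.b ^ 2 -
    s.a * m.b ^ 2 * m.a := by
  simp only [cm, mul_b, mul_a, mul_d, mul_c, mul_e, mul_f, mul_g, mul_h, mul_i, mul_j,
    inv_b, inv_a, inv_d, inv_c, inv_e, inv_f, inv_g, inv_h, inv_i, inv_j]
  have := cu s.b; have := cu s.a; have := cu s.d; have := cu s.c; have := cu s.e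
  have := cu m.b; have := cu m.a; have := cu m.d; have := cu m.c; have := cu m.e
  grind

theorem cm_h (s m : Co) : (cm s m).h = s.b * m.g - s.a * m.c + s.d * m.e + s.c * m.a + s.c * m.e - s.e * m.d - s.e * m.c - s.g * m.b +
    s.b ^ 2 * m.f - s.b * s.a * m.e - s.b * s.d * m.c + s.b * s.c * m.d + s.b * s.e * m.a +
    s.b * s.f * m.b - s.b * m.a * m.e + s.b * m.d ^ 2 - s.b * m.d * m.c + s.a ^ 2 * m.b -
    s.a * m.b * m.a + s.a * m.b * m.e + s.d ^ 2 * m.b + s.d * m.b * m.d + s.d * m.b * m.c +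
    s.f * m.b ^ 2 + s.b ^ 2 * s.a * m.c - s.b ^ 2 * s.c * m.a + s.b ^ 2 * m.a * m.d +
    s.b ^ 2 * m.a * m.c + s.b * s.a * s.d * m.b + s.b * s.a * m.b * m.d + s.b * s.a * m.b * m.c -
    s.b * s.d * m.b * m.a + s.a * m.b ^ 2 * m.d + s.a * m.b ^ 2 * m.c + s.b ^ 2 * s.a ^ 2 * m.b -
    s.b ^ 2 * s.a * m.b * m.a + s.b * s.a ^ 2 * m.b ^ 2 - s.b * s.a * m.b ^ 2 * m.a := by
  simp only [cm, mul_b, mul_a, mul_d, mul_c, mul_e, mul_f, mul_g, mul_h, mul_i, mul_j,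
    inv_b, inv_a, inv_d, inv_c, inv_e, inv_f, inv_g, inv_h, inv_i, inv_j]
  have := cu s.b; have := cu s.a; have := cu s.d; have := cu s.c; have := cu s.e
  have := cu m.b; have := cu m.a; have := cu m.d; have := cu m.c; have := cu m.e
  grind

theorem cm_i (s m : Co) : (cm s m).i = -s.b * m.e - s.a * m.h + s.d * m.g + s.e * m.b + s.e * m.f - s.f * m.e - s.g * m.d + s.h * m.a +
    s.b ^ 2 * m.d + s.b * s.d * m.b + s.b * m.a * m.g + s.b * m.d * m.f - s.a ^ 2 * m.c -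
    s.a * s.d * m.e - s.a * s.c * m.a - s.a * s.c * m.e + s.a * s.e * m.d + s.a * s.e * m.c +
    s.a * s.g * m.b - s.a * m.b * m.g - s.a * m.c * m.e + s.d ^ 2 * m.c + s.d * s.c * m.d +
    s.d * s.e * m.a + s.d * s.f * m.b + s.d * m.b ^ 2 - s.d * m.b * m.f - s.c * m.a ^ 2 +
    s.c * m.a * m.e + s.c * m.d ^ 2 - s.e * m.a * m.d - s.f * m.b * m.d - s.g * m.b * m.a -
    s.b ^ 2 * s.a * m.b - s.b ^ 2 * m.a * m.f + s.b * s.a * m.b ^ 2 - s.b * s.a * m.b * m.f -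
    s.b * m.a ^ 2 * m.e + s.b * m.a * m.d ^ 2 - s.a ^ 2 * m.b * m.a - s.a ^ 2 * m.b * m.e -
    s.a * s.d ^ 2 * m.b - s.a * s.d * m.b * m.d - s.a * s.f * m.b ^ 2 - s.a * m.b ^ 2 * m.f +
    s.a * m.b * m.a ^ 2 - s.a * m.b * m.a * m.e - s.a * m.b * m.d ^ 2 + s.d ^ 2 * m.b * m.a +
    s.d * m.b * m.a * m.d + s.f * m.b ^ 2 * m.a - s.b ^ 2 * m.a ^ 2 * m.d - s.b ^ 2 * m.a ^ 2 * m.c +
    s.b * s.a * m.b * m.a * m.d - s.b * s.a * m.b * m.a * m.c + s.b * s.d * m.b * m.a ^ 2 +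
    s.a ^ 2 * s.d * m.b ^ 2 - s.a ^ 2 * m.b ^ 2 * m.d - s.a ^ 2 * m.b ^ 2 * m.c +
    s.a * s.d * m.b ^ 2 * m.a + s.a * m.b ^ 2 * m.a * m.d + s.b ^ 2 * s.a * m.b * m.a ^ 2 +
    s.b * s.a ^ 2 * m.b ^ 2 * m.a + s.b * s.a * m.b ^ 2 * m.a ^ 2 := by
  simp only [cm, mul_b, mul_a, mul_d, mul_c, mul_e, mul_f, mul_g, mul_h, mul_i, mul_j,
    inv_b, inv_a, inv_d, inv_c, inv_e, inv_f, inv_g, inv_h, inv_i, inv_j]
  have := cu s.b; have := cu s.a; have := cu s.d; have := cu s.c; have := cu s.e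
  have := cu m.b; have := cu m.a; have := cu m.d; have := cu m.c; have := cu m.e
  grind

theorem cm_j (s m : Co) : (cm s m).j = s.b * m.d + s.b * m.i - s.a * m.g - s.d * m.b - s.d * m.h + s.c * m.f - s.e * m.g - s.f * m.c +
    s.g * m.a + s.g * m.e + s.h * m.d - s.i * m.b + s.b ^ 2 * m.e - s.b * s.a * m.h + s.b * s.d * m.g +
    s.b * s.e * m.b + s.b * s.e * m.f - s.b * s.f * m.e - s.b * s.g * m.d + s.b * s.h * m.a +
    s.b * m.a * m.d + s.b * m.a * m.f - s.b * m.a * m.h - s.b * m.d * m.g - s.a ^ 2 * m.e -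
    s.a * s.d * m.b + s.a * s.d * m.c - s.a * s.c * m.d - s.a * s.e * m.a - s.a * s.f * m.b -
    s.a * m.b * m.f + s.a * m.b * m.h + s.a * m.c ^ 2 + s.a * m.e ^ 2 + s.d ^ 2 * m.e - s.d * s.c * m.a -
    s.d * s.c * m.e + s.d * s.e * m.d + s.d * s.e * m.c + s.d * s.g * m.b + s.d * m.b * m.g -
    s.d * m.c * m.e + s.c ^ 2 * m.a + s.c * m.a * m.d + s.c * m.a * m.c + s.c * m.d * m.e +
    s.e ^ 2 * m.a - s.e * s.f * m.b + s.e * m.b ^ 2 - s.e * m.a ^ 2 + s.e * m.a * m.e + s.e * m.d ^ 2 +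
    s.f * m.b * m.a + s.f * m.b * m.e - s.g * m.b * m.d - s.b ^ 2 * s.d * m.b + s.b ^ 2 * m.a ^ 2 +
    s.b ^ 2 * m.a * m.g + s.b ^ 2 * m.d ^ 2 - s.b * s.a ^ 2 * m.b - s.b * s.a ^ 2 * m.c -
    s.b * s.a * s.d * m.e - s.b * s.a * s.c * m.a - s.b * s.a * s.c * m.e + s.b * s.a * s.e * m.d +
    s.b * s.a * s.e * m.c + s.b * s.a * s.g * m.b - s.b * s.a * m.b * m.a + s.b * s.a * m.b * m.g -
    s.b * s.a * m.c * m.e + s.b * s.d ^ 2 * m.c + s.b * s.d * s.c * m.d + s.b * s.d * s.e * m.a +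
    s.b * s.d * s.f * m.b + s.b * s.d * m.b ^ 2 + s.b * s.d * m.b * m.d - s.b * s.c * m.a ^ 2 +
    s.b * s.c * m.a * m.e + s.b * s.c * m.d ^ 2 - s.b * s.e * m.a * m.d - s.b * s.f * m.b * m.d -
    s.b * s.g * m.b * m.a + s.b * m.a ^ 2 * m.d + s.b * m.a * m.d * m.e - s.b * m.a * m.c * m.e +
    s.a ^ 2 * s.d * m.b + s.a ^ 2 * m.b ^ 2 - s.a ^ 2 * m.b * m.d + s.a ^ 2 * m.b * m.c -
    s.a * s.d * m.b * m.a + s.a * s.d * m.b * m.e + s.a * m.b ^ 2 * m.g - s.a * m.b * m.a * m.d -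
    s.a * m.b * m.a * m.c - s.a * m.b * m.d * m.e + s.a * m.b * m.c * m.e + s.d ^ 2 * m.b ^ 2 +
    s.d ^ 2 * m.b * m.d - s.d * s.f * m.b ^ 2 + s.d * m.b * m.a ^ 2 - s.d * m.b * m.a * m.e -
    s.d * m.b * m.d ^ 2 + s.f * m.b ^ 2 * m.d + s.b ^ 2 * s.a * m.b * m.d - s.b ^ 2 * s.d * m.b * m.a -
    s.b ^ 2 * m.a ^ 2 * m.e + s.b ^ 2 * m.a * m.d ^ 2 - s.b ^ 2 * m.a * m.d * m.c -
    s.b * s.a ^ 2 * m.b * m.a - s.b * s.a ^ 2 * m.b * m.e - s.b * s.a * s.d * m.b ^ 2 -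
    s.b * s.a * s.f * m.b ^ 2 + s.b * s.a * m.b ^ 2 * m.d + s.b * s.a * m.b * m.a ^ 2 -
    s.b * s.a * m.b * m.d ^ 2 + s.b * s.a * m.b * m.d * m.c + s.b * s.d ^ 2 * m.b * m.a +
    s.b * s.d * m.b * m.a * m.d + s.b * s.d * m.b * m.a * m.c + s.b * s.f * m.b ^ 2 * m.a -
    s.a ^ 2 * m.b ^ 2 * m.a - s.a * s.d ^ 2 * m.b ^ 2 + s.a * s.d * m.b ^ 2 * m.d -
    s.a * s.d * m.b ^ 2 * m.c + s.a * m.b ^ 2 * m.a ^ 2 - s.a * m.b ^ 2 * m.a * m.e -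
    s.a * m.b ^ 2 * m.d ^ 2 - s.d ^ 2 * m.b ^ 2 * m.a + s.b ^ 2 * s.a ^ 2 * s.d * m.b +
    s.b ^ 2 * s.a ^ 2 * m.b ^ 2 + s.b ^ 2 * s.a ^ 2 * m.b * m.d - s.b ^ 2 * s.a * s.d * m.b * m.a -
    s.b ^ 2 * s.a * m.b ^ 2 * m.a + s.b ^ 2 * s.a * m.b * m.a * m.d + s.b ^ 2 * s.d * m.b * m.a ^ 2 +
    s.b ^ 2 * s.d * m.b * m.d ^ 2 + s.b * s.a ^ 2 * m.b ^ 2 * m.d - s.b * s.a ^ 2 * m.b ^ 2 * m.c +
    s.b * s.a * s.d * m.b ^ 2 * m.a + s.b * s.a * m.b ^ 2 * m.a * m.d + s.b * s.a * m.b ^ 2 * m.a * m.c -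
    s.b * s.d ^ 2 * m.b ^ 2 * m.d - s.b ^ 2 * s.a ^ 2 * m.b ^ 2 * m.a +
    s.b ^ 2 * s.a * s.d * m.b ^ 2 * m.d + s.b ^ 2 * s.a * m.b ^ 2 * m.a ^ 2 +
    s.b ^ 2 * s.a * m.b ^ 2 * m.d ^ 2 + s.b ^ 2 * s.d ^ 2 * m.b ^ 2 * m.a := by
  simp only [cm, mul_b, mul_a, mul_d, mul_c, mul_e, mul_f, mul_g, mul_h, mul_i, mul_j,
    inv_b, inv_a, inv_d, inv_c, inv_e, inv_f, inv_g, inv_h, inv_i, inv_j]
  have := cu s.b; have := cu s.a; have := cu s.d; have := cu s.c; have := cu s.e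
  have := cu m.b; have := cu m.a; have := cu m.d; have := cu m.c; have := cu m.e
  grind

theorem cb_b (u : Co) : (u ^ 3).b = 0 := by
  simp only [pow_three, mul_b, mul_a, mul_d, mul_c, mul_e, mul_f, mul_g, mul_h, mul_i, mul_j]
  have := cu u.b; have := cu u.a; have := cu u.d; have := cu u.c; have := cu u.e
  grind

theorem cb_a (u : Co) : (u ^ 3).a = 0 := by
  simp only [pow_three, mul_b, mul_a, mul_d, mul_c, mul_e, mul_f, mul_g, mul_h, mul_i, mul_j]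
  have := cu u.b; have := cu u.a; have := cu u.d; have := cu u.c; have := cu u.e
  grind

theorem cb_d (u : Co) : (u ^ 3).d = 0 := by
  simp only [pow_three, mul_b, mul_a, mul_d, mul_c, mul_e, mul_f, mul_g, mul_h, mul_i, mul_j]
  have := cu u.b; have := cu u.a; have := cu u.d; have := cu u.c; have := cu u.e
  grind

theorem cb_c (u : Co) : (u ^ 3).c = 0 := by
  simp only [pow_three, mul_b, mul_a, mul_d, mul_c, mul_e, mul_f, mul_g, mul_h, mul_i, mul_j]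
  have := cu u.b; have := cu u.a; have := cu u.d; have := cu u.c; have := cu u.e
  grind

theorem cb_e (u : Co) : (u ^ 3).e = u.b ^ 2 * u.a := by
  simp only [pow_three, mul_b, mul_a, mul_d, mul_c, mul_e, mul_f, mul_g, mul_h, mul_i, mul_j]
  have := cu u.b; have := cu u.a; have := cu u.d; have := cu u.c; have := cu u.e
  grind

theorem cb_f (u : Co) : (u ^ 3).f = -u.b * u.a ^ 2 := by
  simp only [pow_three, mul_b, mul_a, mul_d, mul_c, mul_e, mul_f, mul_g, mul_h, mul_i, mul_j]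
  have := cu u.b; have := cu u.a; have := cu u.d; have := cu u.c; have := cu u.e
  grind

theorem cb_g (u : Co) : (u ^ 3).g = -u.b * u.a * u.d - u.b * u.a * u.c - u.b ^ 2 * u.a ^ 2 := by
  simp only [pow_three, mul_b, mul_a, mul_d, mul_c, mul_e, mul_f, mul_g, mul_h, mul_i, mul_j]
  have := cu u.b; have := cu u.a; have := cu u.d; have := cu u.c; have := cu u.e
  grind

theorem cb_h (u : Co) : (u ^ 3).h = -u.b ^ 2 * u.f - u.b * u.a ^ 2 - u.b * u.a * u.e - u.b * u.d ^ 2 - u.b * u.d * u.c +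
    u.b ^ 2 * u.a * u.d - u.b ^ 2 * u.a * u.c := by
  simp only [pow_three, mul_b, mul_a, mul_d, mul_c, mul_e, mul_f, mul_g, mul_h, mul_i, mul_j]
  have := cu u.b; have := cu u.a; have := cu u.d; have := cu u.c; have := cu u.e
  grind

theorem cb_i (u : Co) : (u ^ 3).i = -u.b ^ 2 * u.d - u.b * u.a * u.g - u.b * u.d * u.f + u.a ^ 2 * u.c + u.a * u.d * u.e -
    u.a * u.c * u.e - u.d ^ 2 * u.c - u.b * u.a ^ 2 * u.e + u.b ^ 2 * u.a ^ 2 * u.d -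
    u.b ^ 2 * u.a ^ 2 * u.c := by
  simp only [pow_three, mul_b, mul_a, mul_d, mul_c, mul_e, mul_f, mul_g, mul_h, mul_i, mul_j]
  have := cu u.b; have := cu u.a; have := cu u.d; have := cu u.c; have := cu u.e
  grind

theorem cb_j (u : Co) : (u ^ 3).j = u.e + u.b * u.d + u.b ^ 2 * u.a - u.b ^ 2 * u.e - u.b * u.a * u.h - u.b * u.e * u.f + u.a ^ 2 * u.e -
    u.a * u.d * u.c - u.a * u.c ^ 2 - u.a * u.e ^ 2 - u.d ^ 2 * u.e - u.d * u.c * u.e +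
    u.b ^ 2 * u.a ^ 2 + u.b ^ 2 * u.a * u.g + u.b ^ 2 * u.d * u.f + u.b * u.d ^ 2 * u.c -
    u.b ^ 2 * u.a * u.d * u.c := by
  simp only [pow_three, mul_b, mul_a, mul_d, mul_c, mul_e, mul_f, mul_g, mul_h, mul_i, mul_j]
  have := cu u.b; have := cu u.a; have := cu u.d; have := cu u.c; have := cu u.e
  grind

/-- the coordinates -/
def Co.eqv : Co ≃ (Fin 10 → ZMod 3) where
  toFun u := ![u.b, u.a, u.d, u.c, u.e, u.f, u.g, u.h, u.i, u.j]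
  invFun v := ⟨v 0, v 1, v 2, v 3, v 4, v 5, v 6, v 7, v 8, v 9⟩
  left_inv _ := rfl
  right_inv v := by funext k; fin_cases k <;> rfl

instance instFiniteCo : Finite Co := Finite.of_equiv _ Co.eqv.symm

theorem card_Co : Nat.card Co = 3 ^ 10 := by rw [Nat.card_congr Co.eqv]; simp

/-- one coordinate -/
def xb (t : ZMod 3) : Co := ⟨t, 0, 0, 0, 0, 0, 0, 0, 0, 0⟩
/-- one coordinate -/
def xa (t : ZMod 3) : Co := ⟨0, t, 0, 0, 0, 0, 0, 0, 0, 0⟩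
/-- one coordinate -/
def xd (t : ZMod 3) : Co := ⟨0, 0, t, 0, 0, 0, 0, 0, 0, 0⟩
/-- one coordinate -/
def xc (t : ZMod 3) : Co := ⟨0, 0, 0, t, 0, 0, 0, 0, 0, 0⟩
/-- one coordinate -/
def xe (t : ZMod 3) : Co := ⟨0, 0, 0, 0, t, 0, 0, 0, 0, 0⟩
/-- one coordinate -/
def xf (t : ZMod 3) : Co := ⟨0, 0, 0, 0, 0, t, 0, 0, 0, 0⟩
/-- one coordinate -/
def xg (t : ZMod 3) : Co := ⟨0, 0, 0, 0, 0, 0, t, 0, 0, 0⟩
/-- one coordinate -/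
def xh (t : ZMod 3) : Co := ⟨0, 0, 0, 0, 0, 0, 0, t, 0, 0⟩
/-- one coordinate -/
def xi (t : ZMod 3) : Co := ⟨0, 0, 0, 0, 0, 0, 0, 0, t, 0⟩
/-- one coordinate -/
def xj (t : ZMod 3) : Co := ⟨0, 0, 0, 0, 0, 0, 0, 0, 0, t⟩

/-- the coordinates `b` vanish -/
def sE2 : Subgroup Co where
  carrier := {u | u.b = 0}
  one_mem' := by simp
  mul_mem' := by
    rintro u w (p0 : u.b = 0) (q0 : w.b = 0)
    simp [p0, q0]
  inv_mem' := by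
    rintro u (p0 : u.b = 0)
    simp [p0]

theorem mem_sE2 {u : Co} : u ∈ sE2 ↔ u.b = 0 := Iff.rfl

/-- the coordinates `a` vanish -/
def sE1 : Subgroup Co where
  carrier := {u | u.a = 0}
  one_mem' := by simp
  mul_mem' := by
    rintro u w (p0 : u.a = 0) (q0 : w.a = 0)
    simp [p0, q0]
  inv_mem' := by
    rintro u (p0 : u.a = 0)
    simp [p0]

theorem mem_sE1 {u : Co} : u ∈ sE1 ↔ u.a = 0 := Iff.rfl

/-- the coordinates `ba` vanish -/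
def sZ6 : Subgroup Co where
  carrier := {u | u.b = 0 ∧ u.a = 0}
  one_mem' := by simp
  mul_mem' := by
    rintro u w ⟨p0, p1⟩ ⟨q0, q1⟩
    simp [p0, p1, q0, q1]
  inv_mem' := by
    rintro u ⟨p0, p1⟩
    simp [p0, p1]

theorem mem_sZ6 {u : Co} : u ∈ sZ6 ↔ u.b = 0 ∧ u.a = 0 := Iff.rfl

/-- the coordinates `bad` vanish -/
def sC3 : Subgroup Co where
  carrier := {u | u.b = 0 ∧ u.a = 0 ∧ u.d = 0}
  one_mem' := by simp
  mul_mem' := by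
    rintro u w ⟨p0, p1, p2⟩ ⟨q0, q1, q2⟩
    simp [p0, p1, p2, q0, q1, q2]
  inv_mem' := by
    rintro u ⟨p0, p1, p2⟩
    simp [p0, p1, p2]

theorem mem_sC3 {u : Co} : u ∈ sC3 ↔ u.b = 0 ∧ u.a = 0 ∧ u.d = 0 := Iff.rfl

/-- the coordinates `bade` vanish -/
def sC4 : Subgroup Co where
  carrier := {u | u.b = 0 ∧ u.a = 0 ∧ u.d = 0 ∧ u.e = 0}
  one_mem' := by simp
  mul_mem' := by
    rintro u w ⟨p0, p1, p2, p3⟩ ⟨q0, q1, q2, q3⟩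
    simp [p0, p1, p2, p3, q0, q1, q2, q3]
  inv_mem' := by
    rintro u ⟨p0, p1, p2, p3⟩
    simp [p0, p1, p2, p3]

theorem mem_sC4 {u : Co} : u ∈ sC4 ↔ u.b = 0 ∧ u.a = 0 ∧ u.d = 0 ∧ u.e = 0 := Iff.rfl

/-- the coordinates `badc` vanish -/
def sZ5 : Subgroup Co where
  carrier := {u | u.b = 0 ∧ u.a = 0 ∧ u.d = 0 ∧ u.c = 0}
  one_mem' := by simp
  mul_mem' := by
    rintro u w ⟨p0, p1, p2, p3⟩ ⟨q0, q1, q2, q3⟩
    simp [p0, p1, p2, p3, q0, q1, q2, q3]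
  inv_mem' := by
    rintro u ⟨p0, p1, p2, p3⟩
    simp [p0, p1, p2, p3]

theorem mem_sZ5 {u : Co} : u ∈ sZ5 ↔ u.b = 0 ∧ u.a = 0 ∧ u.d = 0 ∧ u.c = 0 := Iff.rfl

/-- the coordinates `badce` vanish -/
def sD2 : Subgroup Co where
  carrier := {u | u.b = 0 ∧ u.a = 0 ∧ u.d = 0 ∧ u.c = 0 ∧ u.e = 0}
  one_mem' := by simp
  mul_mem' := by
    rintro u w ⟨p0, p1, p2, p3, p4⟩ ⟨q0, q1, q2, q3, q4⟩
    simp [p0, p1, p2, p3, p4, q0, q1, q2, q3, q4]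
  inv_mem' := by
    rintro u ⟨p0, p1, p2, p3, p4⟩
    simp [p0, p1, p2, p3, p4]

theorem mem_sD2 {u : Co} : u ∈ sD2 ↔ u.b = 0 ∧ u.a = 0 ∧ u.d = 0 ∧ u.c = 0 ∧ u.e = 0 := Iff.rfl

/-- the coordinates `badcf` vanish -/
def sD1 : Subgroup Co where
  carrier := {u | u.b = 0 ∧ u.a = 0 ∧ u.d = 0 ∧ u.c = 0 ∧ u.f = 0}
  one_mem' := by simp
  mul_mem' := by
    rintro u w ⟨p0, p1, p2, p3, p4⟩ ⟨q0, q1, q2, q3, q4⟩
    simp [p0, p1, p2, p3, p4, q0, q1, q2, q3, q4]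
  inv_mem' := by
    rintro u ⟨p0, p1, p2, p3, p4⟩
    simp [p0, p1, p2, p3, p4]

theorem mem_sD1 {u : Co} : u ∈ sD1 ↔ u.b = 0 ∧ u.a = 0 ∧ u.d = 0 ∧ u.c = 0 ∧ u.f = 0 := Iff.rfl

/-- the coordinates `badcef` vanish -/
def sZ4 : Subgroup Co where
  carrier := {u | u.b = 0 ∧ u.a = 0 ∧ u.d = 0 ∧ u.c = 0 ∧ u.e = 0 ∧ u.f = 0}
  one_mem' := by simp
  mul_mem' := by
    rintro u w ⟨p0, p1, p2, p3, p4, p5⟩ ⟨q0, q1, q2, q3, q4, q5⟩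
    simp [p0, p1, p2, p3, p4, p5, q0, q1, q2, q3, q4, q5]
  inv_mem' := by
    rintro u ⟨p0, p1, p2, p3, p4, p5⟩
    simp [p0, p1, p2, p3, p4, p5]

theorem mem_sZ4 {u : Co} : u ∈ sZ4 ↔ u.b = 0 ∧ u.a = 0 ∧ u.d = 0 ∧ u.c = 0 ∧ u.e = 0 ∧ u.f = 0 := Iff.rfl

/-- the coordinates `badcefg` vanish -/
def sZ3 : Subgroup Co where
  carrier := {u | u.b = 0 ∧ u.a = 0 ∧ u.d = 0 ∧ u.c = 0 ∧ u.e = 0 ∧ u.f = 0 ∧ u.g = 0}
  one_mem' := by simp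
  mul_mem' := by
    rintro u w ⟨p0, p1, p2, p3, p4, p5, p6⟩ ⟨q0, q1, q2, q3, q4, q5, q6⟩
    simp [p0, p1, p2, p3, p4, p5, p6, q0, q1, q2, q3, q4, q5, q6]
  inv_mem' := by
    rintro u ⟨p0, p1, p2, p3, p4, p5, p6⟩
    simp [p0, p1, p2, p3, p4, p5, p6]

theorem mem_sZ3 {u : Co} : u ∈ sZ3 ↔ u.b = 0 ∧ u.a = 0 ∧ u.d = 0 ∧ u.c = 0 ∧ u.e = 0 ∧ u.f = 0 ∧ u.g = 0 := Iff.rfl

/-- the coordinates `badcefgh` vanish -/
def sZ2 : Subgroup Co where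
  carrier := {u | u.b = 0 ∧ u.a = 0 ∧ u.d = 0 ∧ u.c = 0 ∧ u.e = 0 ∧ u.f = 0 ∧ u.g = 0 ∧ u.h = 0}
  one_mem' := by simp
  mul_mem' := by
    rintro u w ⟨p0, p1, p2, p3, p4, p5, p6, p7⟩ ⟨q0, q1, q2, q3, q4, q5, q6, q7⟩
    simp [p0, p1, p2, p3, p4, p5, p6, p7, q0, q1, q2, q3, q4, q5, q6, q7]
  inv_mem' := by
    rintro u ⟨p0, p1, p2, p3, p4, p5, p6, p7⟩
    simp [p0, p1, p2, p3, p4, p5, p6, p7]

theorem mem_sZ2 {u : Co} : u ∈ sZ2 ↔ u.b = 0 ∧ u.a = 0 ∧ u.d = 0 ∧ u.c = 0 ∧ u.e = 0 ∧ u.f = 0 ∧ u.g = 0 ∧ u.h = 0 := Iff.rfl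

/-- the coordinates `badcefghi` vanish -/
def sZ1 : Subgroup Co where
  carrier := {u | u.b = 0 ∧ u.a = 0 ∧ u.d = 0 ∧ u.c = 0 ∧ u.e = 0 ∧ u.f = 0 ∧ u.g = 0 ∧ u.h = 0 ∧ u.i = 0}
  one_mem' := by simp
  mul_mem' := by
    rintro u w ⟨p0, p1, p2, p3, p4, p5, p6, p7, p8⟩ ⟨q0, q1, q2, q3, q4, q5, q6, q7, q8⟩
    simp [p0, p1, p2, p3, p4, p5, p6, p7, p8, q0, q1, q2, q3, q4, q5, q6, q7, q8]
  inv_mem' := by
    rintro u ⟨p0, p1, p2, p3, p4, p5, p6, p7, p8⟩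
    simp [p0, p1, p2, p3, p4, p5, p6, p7, p8]

theorem mem_sZ1 {u : Co} : u ∈ sZ1 ↔ u.b = 0 ∧ u.a = 0 ∧ u.d = 0 ∧ u.c = 0 ∧ u.e = 0 ∧ u.f = 0 ∧ u.g = 0 ∧ u.h = 0 ∧ u.i = 0 := Iff.rfl

/-- the coordinates `bce` vanish -/
def sN : Subgroup Co where
  carrier := {u | u.b = 0 ∧ u.c = 0 ∧ u.e = 0}
  one_mem' := by simp
  mul_mem' := by
    rintro u w ⟨p0, p1, p2⟩ ⟨q0, q1, q2⟩
    simp [p0, p1, p2, q0, q1, q2]
  inv_mem' := by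
    rintro u ⟨p0, p1, p2⟩
    simp [p0, p1, p2]

theorem mem_sN {u : Co} : u ∈ sN ↔ u.b = 0 ∧ u.c = 0 ∧ u.e = 0 := Iff.rfl

/-- the coordinates `bcegh` vanish -/
def sW : Subgroup Co where
  carrier := {u | u.b = 0 ∧ u.c = 0 ∧ u.e = 0 ∧ u.g = 0 ∧ u.h = 0}
  one_mem' := by simp
  mul_mem' := by
    rintro u w ⟨p0, p1, p2, p3, p4⟩ ⟨q0, q1, q2, q3, q4⟩
    simp [p0, p1, p2, p3, p4, q0, q1, q2, q3, q4]
  inv_mem' := by
    rintro u ⟨p0, p1, p2, p3, p4⟩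
    simp [p0, p1, p2, p3, p4]

theorem mem_sW {u : Co} : u ∈ sW ↔ u.b = 0 ∧ u.c = 0 ∧ u.e = 0 ∧ u.g = 0 ∧ u.h = 0 := Iff.rfl

/-- the coordinates `badcegh` vanish -/
def sV : Subgroup Co where
  carrier := {u | u.b = 0 ∧ u.a = 0 ∧ u.d = 0 ∧ u.c = 0 ∧ u.e = 0 ∧ u.g = 0 ∧ u.h = 0}
  one_mem' := by simp
  mul_mem' := by
    rintro u w ⟨p0, p1, p2, p3, p4, p5, p6⟩ ⟨q0, q1, q2, q3, q4, q5, q6⟩
    simp [p0, p1, p2, p3, p4, p5, p6, q0, q1, q2, q3, q4, q5, q6]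
  inv_mem' := by
    rintro u ⟨p0, p1, p2, p3, p4, p5, p6⟩
    simp [p0, p1, p2, p3, p4, p5, p6]

theorem mem_sV {u : Co} : u ∈ sV ↔ u.b = 0 ∧ u.a = 0 ∧ u.d = 0 ∧ u.c = 0 ∧ u.e = 0 ∧ u.g = 0 ∧ u.h = 0 := Iff.rfl

/-- the derived subgroup -/
def sP : Subgroup Co where
  carrier := {u | u.b = 0 ∧ u.a = 0 ∧ u.c = u.d}
  one_mem' := by simp
  mul_mem' := by
    rintro u w ⟨p0, p1, p2⟩ ⟨q0, q1, q2⟩
    simp [p0, p1, p2, q0, q1, q2]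
  inv_mem' := by
    rintro u ⟨p0, p1, p2⟩
    simp [p0, p1, p2]

theorem mem_sP {u : Co} : u ∈ sP ↔ u.b = 0 ∧ u.a = 0 ∧ u.c = u.d := Iff.rfl

theorem cm_P (s m : Co) : cm s m ∈ sP := ⟨cm_b s m, cm_a s m, by rw [cm_c, cm_d]⟩

theorem cm_Z1 (s : Co) {m : Co} (hm : m ∈ sZ1) : cm s m = 1 := by
  obtain ⟨p0, p1, p2, p3, p4, p5, p6, p7, p8⟩ := hm
  ext <;> simp [cm_b, cm_a, cm_d, cm_c, cm_e, cm_f, cm_g, cm_h, cm_i, cm_j, p0, p1, p2, p3, p4, p5, p6, p7, p8]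

theorem cm_Z2 (s : Co) {m : Co} (hm : m ∈ sZ2) : cm s m ∈ sZ1 := by
  obtain ⟨p0, p1, p2, p3, p4, p5, p6, p7⟩ := hm
  simp [mem_sZ1, cm_b, cm_a, cm_d, cm_c, cm_e, cm_f, cm_g, cm_h, cm_i, cm_j, p0, p1, p2, p3, p4, p5, p6, p7]

theorem cm_Z3 (s : Co) {m : Co} (hm : m ∈ sZ3) : cm s m ∈ sZ2 := by
  obtain ⟨p0, p1, p2, p3, p4, p5, p6⟩ := hm
  simp [mem_sZ2, cm_b, cm_a, cm_d, cm_c, cm_e, cm_f, cm_g, cm_h, cm_i, cm_j, p0, p1, p2, p3, p4, p5, p6]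

theorem cm_Z4 (s : Co) {m : Co} (hm : m ∈ sZ4) : cm s m ∈ sZ3 := by
  obtain ⟨p0, p1, p2, p3, p4, p5⟩ := hm
  simp [mem_sZ3, cm_b, cm_a, cm_d, cm_c, cm_e, cm_f, cm_g, cm_h, cm_i, cm_j, p0, p1, p2, p3, p4, p5]

theorem cm_D2 (s : Co) {m : Co} (hm : m ∈ sD2) : cm s m ∈ sZ4 := by
  obtain ⟨p0, p1, p2, p3, p4⟩ := hm
  simp [mem_sZ4, cm_b, cm_a, cm_d, cm_c, cm_e, cm_f, cm_g, cm_h, cm_i, cm_j, p0, p1, p2, p3, p4]

theorem cm_D1 (s : Co) {m : Co} (hm : m ∈ sD1) : cm s m ∈ sZ4 := by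
  obtain ⟨p0, p1, p2, p3, p4⟩ := hm
  simp [mem_sZ4, cm_b, cm_a, cm_d, cm_c, cm_e, cm_f, cm_g, cm_h, cm_i, cm_j, p0, p1, p2, p3, p4]

theorem cm_Z5 (s : Co) {m : Co} (hm : m ∈ sZ5) : cm s m ∈ sZ4 := by
  obtain ⟨p0, p1, p2, p3⟩ := hm
  simp [mem_sZ4, cm_b, cm_a, cm_d, cm_c, cm_e, cm_f, cm_g, cm_h, cm_i, cm_j, p0, p1, p2, p3]

theorem cm_C4 (s : Co) {m : Co} (hm : m ∈ sC4) : cm s m ∈ sD2 := by
  obtain ⟨p0, p1, p2, p3⟩ := hm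
  simp [mem_sD2, cm_b, cm_a, cm_d, cm_c, cm_e, cm_f, cm_g, cm_h, cm_i, cm_j, p0, p1, p2, p3]

theorem cm_C3 (s : Co) {m : Co} (hm : m ∈ sC3) : cm s m ∈ sD2 := by
  obtain ⟨p0, p1, p2⟩ := hm
  simp [mem_sD2, cm_b, cm_a, cm_d, cm_c, cm_e, cm_f, cm_g, cm_h, cm_i, cm_j, p0, p1, p2]

theorem cm_Z6 (s : Co) {m : Co} (hm : m ∈ sZ6) : cm s m ∈ sZ5 := by
  obtain ⟨p0, p1⟩ := hm
  simp [mem_sZ5, cm_b, cm_a, cm_d, cm_c, cm_e, cm_f, cm_g, cm_h, cm_i, cm_j, p0, p1]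

theorem Z1_le_Z2 : sZ1 ≤ sZ2 := fun _ ⟨pb, pa, pd, pc, pe, pf, pg, ph, _⟩ => ⟨pb, pa, pd, pc, pe, pf, pg, ph⟩
theorem Z2_le_Z3 : sZ2 ≤ sZ3 := fun _ ⟨pb, pa, pd, pc, pe, pf, pg, _⟩ => ⟨pb, pa, pd, pc, pe, pf, pg⟩
theorem Z3_le_Z4 : sZ3 ≤ sZ4 := fun _ ⟨pb, pa, pd, pc, pe, pf, _⟩ => ⟨pb, pa, pd, pc, pe, pf⟩
theorem Z4_le_D2 : sZ4 ≤ sD2 := fun _ ⟨pb, pa, pd, pc, pe, _⟩ => ⟨pb, pa, pd, pc, pe⟩
theorem Z4_le_D1 : sZ4 ≤ sD1 := fun _ ⟨pb, pa, pd, pc, _, pf⟩ => ⟨pb, pa, pd, pc, pf⟩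
theorem D2_le_Z5 : sD2 ≤ sZ5 := fun _ ⟨pb, pa, pd, pc, _⟩ => ⟨pb, pa, pd, pc⟩
theorem D1_le_Z5 : sD1 ≤ sZ5 := fun _ ⟨pb, pa, pd, pc, _⟩ => ⟨pb, pa, pd, pc⟩
theorem D2_le_C4 : sD2 ≤ sC4 := fun _ ⟨pb, pa, pd, _, pe⟩ => ⟨pb, pa, pd, pe⟩
theorem C4_le_C3 : sC4 ≤ sC3 := fun _ ⟨pb, pa, pd, _⟩ => ⟨pb, pa, pd⟩
theorem Z5_le_C3 : sZ5 ≤ sC3 := fun _ ⟨pb, pa, pd, _⟩ => ⟨pb, pa, pd⟩
theorem C3_le_Z6 : sC3 ≤ sZ6 := fun _ ⟨pb, pa, _⟩ => ⟨pb, pa⟩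
theorem Z6_le_E1 : sZ6 ≤ sE1 := fun _ ⟨_, pa⟩ => pa
theorem Z6_le_E2 : sZ6 ≤ sE2 := fun _ ⟨pb, _⟩ => pb
theorem Z2_le_V : sZ2 ≤ sV := fun _ ⟨pb, pa, pd, pc, pe, _, pg, ph⟩ => ⟨pb, pa, pd, pc, pe, pg, ph⟩
theorem V_le_W : sV ≤ sW := fun _ ⟨pb, _, _, pc, pe, pg, ph⟩ => ⟨pb, pc, pe, pg, ph⟩
theorem V_le_D2 : sV ≤ sD2 := fun _ ⟨pb, pa, pd, pc, pe, _, _⟩ => ⟨pb, pa, pd, pc, pe⟩
theorem W_le_N : sW ≤ sN := fun _ ⟨pb, pc, pe, _, _⟩ => ⟨pb, pc, pe⟩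
theorem D2_le_N : sD2 ≤ sN := fun _ ⟨pb, _, _, pc, pe⟩ => ⟨pb, pc, pe⟩
theorem N_le_E2 : sN ≤ sE2 := fun _ ⟨pb, _, _⟩ => pb
theorem Z5_le_P : sZ5 ≤ sP := fun _ ⟨pb, pa, pd, pc⟩ => ⟨pb, pa, pc.trans pd.symm⟩
theorem P_le_Z6 : sP ≤ sZ6 := fun _ ⟨pb, pa, _⟩ => ⟨pb, pa⟩

/-- a conjugate of `sC4` under an automorphism of `sE2` -/
def sK : Subgroup Co where
  carrier := {u | u.b = 0 ∧ u.d = 0 ∧ u.c = 0 ∧ u.e = -u.a}
  one_mem' := by simp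
  mul_mem' := by
    rintro u w ⟨p0, p1, p2, p3⟩ ⟨q0, q1, q2, q3⟩
    simp [p0, p1, p2, p3, q0, q1, q2, q3, add_comm]
  inv_mem' := by
    rintro u ⟨p0, p1, p2, p3⟩
    simp [p0, p1, p2, p3]

theorem mem_sK {u : Co} : u ∈ sK ↔ u.b = 0 ∧ u.d = 0 ∧ u.c = 0 ∧ u.e = -u.a := Iff.rfl

/-- the centre of `sK` -/
def sY : Subgroup Co where
  carrier := {u | u.b = 0 ∧ u.a = 0 ∧ u.d = 0 ∧ u.c = 0 ∧ u.e = 0 ∧ u.h = -u.f}
  one_mem' := by simp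
  mul_mem' := by
    rintro u w ⟨p0, p1, p2, p3, p4, p5⟩ ⟨q0, q1, q2, q3, q4, q5⟩
    simp [p0, p1, p2, p3, p4, p5, q0, q1, q2, q3, q4, q5, add_comm]
  inv_mem' := by
    rintro u ⟨p0, p1, p2, p3, p4, p5⟩
    simp [p0, p1, p2, p3, p4, p5]

theorem mem_sY {u : Co} : u ∈ sY ↔ u.b = 0 ∧ u.a = 0 ∧ u.d = 0 ∧ u.c = 0 ∧ u.e = 0 ∧ u.h = -u.f := Iff.rfl

/-- it is to `sK` what `sZ5` is to `sC4` -/
def sB : Subgroup Co where
  carrier := {u | u.b = 0 ∧ u.a = 0 ∧ u.e = 0 ∧ u.c = -u.d}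
  one_mem' := by simp
  mul_mem' := by
    rintro u w ⟨p0, p1, p2, p3⟩ ⟨q0, q1, q2, q3⟩
    simp [p0, p1, p2, p3, q0, q1, q2, q3, add_comm]
  inv_mem' := by
    rintro u ⟨p0, p1, p2, p3⟩
    simp [p0, p1, p2, p3]

theorem mem_sB {u : Co} : u ∈ sB ↔ u.b = 0 ∧ u.a = 0 ∧ u.e = 0 ∧ u.c = -u.d := Iff.rfl

/-- the pairing of `E₂ / D₂` and `D₂ / Z₂` -/
theorem cm_ED {s m : Co} (hs : s ∈ sE2) (hm : m ∈ sD2) : cm s m = ⟨0, 0, 0, 0, 0, 0, 0, 0,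
    -s.a * m.h + s.d * m.g + s.e * m.f, -s.a * m.g - s.d * m.h + s.c * m.f - s.e * m.g⟩ := by
  obtain ⟨p0, p1, p2, p3, p4⟩ := hm
  have q : s.b = 0 := hs
  ext <;> simp [cm_b, cm_a, cm_d, cm_c, cm_e, cm_f, cm_g, cm_h, cm_i, cm_j, p0, p1, p2, p3, p4, q]

theorem cm_EE {s m : Co} (hs : s ∈ sE2) (hm : m ∈ sE2) : cm s m ∈ sD2 := by
  have p : m.b = 0 := hm
  have q : s.b = 0 := hs
  simp [mem_sD2, cm_b, cm_a, cm_d, cm_c, cm_e, p, q]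

theorem cm_EZ {s m : Co} (hs : s ∈ sE2) (hm : m ∈ sZ2) : cm s m = 1 := by
  obtain ⟨p0, p1, p2, p3, p4, p5, p6, p7⟩ := hm
  rw [cm_ED hs ⟨p0, p1, p2, p3, p4⟩]
  ext <;> simp [p5, p6, p7]

instance nZ1 : sZ1.Normal := H90.U5.normal_of_cm fun s _ h => by rw [cm_Z1 s h]; exact one_mem _
instance nZ2 : sZ2.Normal := H90.U5.normal_of_cm fun s _ h => Z1_le_Z2 (cm_Z2 s h)
instance nZ3 : sZ3.Normal := H90.U5.normal_of_cm fun s _ h => Z2_le_Z3 (cm_Z3 s h)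
instance nZ4 : sZ4.Normal := H90.U5.normal_of_cm fun s _ h => Z3_le_Z4 (cm_Z4 s h)
instance nD2 : sD2.Normal := H90.U5.normal_of_cm fun s _ h => Z4_le_D2 (cm_D2 s h)
instance nD1 : sD1.Normal := H90.U5.normal_of_cm fun s _ h => Z4_le_D1 (cm_D1 s h)
instance nZ5 : sZ5.Normal := H90.U5.normal_of_cm fun s _ h => D2_le_Z5 (Z4_le_D2 (cm_Z5 s h))
instance nC4 : sC4.Normal := H90.U5.normal_of_cm fun s _ h => D2_le_C4 (cm_C4 s h)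
instance nC3 : sC3.Normal := H90.U5.normal_of_cm fun s _ h => C4_le_C3 (D2_le_C4 (cm_C3 s h))
instance nP : sP.Normal := H90.U5.normal_of_cm fun s m _ => cm_P s m
instance nZ6 : sZ6.Normal := H90.U5.normal_of_cm fun s m _ => P_le_Z6 (cm_P s m)
instance nE1 : sE1.Normal := H90.U5.normal_of_cm fun s m _ => cm_a s m
instance nE2 : sE2.Normal := H90.U5.normal_of_cm fun s m _ => cm_b s m

/-- a chief series -/
def z0 : ℕ → Subgroup Co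
  | 0 => ⊥ | 1 => sZ1 | 2 => sZ2 | 3 => sZ3 | 4 => sZ4 | 5 => sD2 | 6 => sC4 | 7 => sC3 | 8 => sZ6 | 9 => sE2
  | _ => ⊤

/-- the chain of the dichotomy -/
def zA : ℕ → Subgroup Co
  | 0 => ⊥ | 1 => sZ1 | 2 => sZ2 | 3 => sZ3 | 4 => sZ4 | _ => sD2

theorem z0_mono (k : ℕ) : z0 k ≤ z0 (k + 1) := by
  rcases k with _ | _ | _ | _ | _ | _ | _ | _ | _ | _ | k
  exacts [bot_le, Z1_le_Z2, Z2_le_Z3, Z3_le_Z4, Z4_le_D2, D2_le_C4, C4_le_C3, C3_le_Z6, Z6_le_E2, le_top, le_top]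

theorem z0_normal (k : ℕ) : (z0 k).Normal := by
  rcases k with _ | _ | _ | _ | _ | _ | _ | _ | _ | _ | k
  exacts [normal_bot, nZ1, nZ2, nZ3, nZ4, nD2, nC4, nC3, nZ6, nE2, normal_top]

theorem z0_cm : ∀ k < 10, ∀ u ∈ z0 (k + 1), ∀ s, cm s u ∈ z0 k := fun k hk u hu s => by
  interval_cases k
  exacts [cm_Z1 s hu, cm_Z2 s hu, cm_Z3 s hu, cm_Z4 s hu, cm_D2 s hu, cm_C4 s hu, D2_le_C4 (cm_C3 s hu),
    Z5_le_C3 (cm_Z6 s hu), P_le_Z6 (cm_P s u), cm_b s u]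

theorem cb_Z5 (u : Co) : u ^ 3 ∈ sZ5 := ⟨cb_b u, cb_a u, cb_d u, cb_c u⟩

theorem cb_Z1 {u : Co} (h : u ∈ sC3) : u ^ 3 ∈ sZ1 := by
  obtain ⟨p0, p1, p2⟩ := h
  simp [mem_sZ1, cb_b, cb_a, cb_d, cb_c, cb_e, cb_f, cb_g, cb_h, cb_i, p0, p1, p2]

theorem cb_C4 {u : Co} (h : u ∈ sC4) : u ^ 3 = 1 := by
  obtain ⟨p0, p1, p2, p3⟩ := h
  ext <;> simp [cb_b, cb_a, cb_d, cb_c, cb_e, cb_f, cb_g, cb_h, cb_i, cb_j, p0, p1, p2, p3]

theorem cb_N {u : Co} (h : u ∈ sN) : u ^ 3 = 1 := by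
  obtain ⟨p0, p1, p2⟩ := h
  ext <;> simp [cb_b, cb_a, cb_d, cb_c, cb_e, cb_f, cb_g, cb_h, cb_i, cb_j, p0, p1, p2]

theorem pgroup_Co : IsPGroup 3 Co := fun u => ⟨3, by
  rw [show 3 ^ 3 = 3 * 3 * 3 by rfl, pow_mul, pow_mul]
  exact cb_C4 (D2_le_C4 (Z4_le_D2 (Z3_le_Z4 (Z2_le_Z3 (Z1_le_Z2 (cb_Z1 (Z5_le_C3 (cb_Z5 u))))))))⟩

end H11.T3
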