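/- T3 tower (row S5228): fusion systems on a Sylow 3-subgroup of the Thompson group.
Proofs: blueprints/T3.md. -/
import Cfsg.Agent.H11.T3Co
import Cfsg.Prelude.Def_Spor_Th

set_option autoImplicit false
set_option linter.unusedSectionVars false

open Subgroup H90.RF H90.U5 Cfsg

universe v

namespace H11.T3

/-- `t⁻¹ X t` -/
def cjS {P : Type*} [Group P] (t : P) (X : Subgroup P) : Subgroup P := X.comap (MulAut.conj t).toMonoidHom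

theorem mem_cjS {P : Type*} [Group P] {t u : P} {X : Subgroup P} : u ∈ cjS t X ↔ t * u * t⁻¹ ∈ X := Iff.rfl

/-- the signs of an automorphism on the chief factors: `x` on `a`, `y` on `b` -/
structure Lay (θ : Co → Co) (x y : ZMod 3) : Prop where
  b : ∀ u, (θ u).b = y * u.b
  a : ∀ u, (θ u).a = x * u.a
  d : ∀ u ∈ sZ6, (θ u).d = x * y * u.d
  c : ∀ u ∈ sZ6, (θ u).c = x * y * u.c
  e : ∀ u ∈ sC3, (θ u).e = x * u.e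
  f : ∀ u ∈ sD2, (θ u).f = y * u.f
  g : ∀ u ∈ sZ4, (θ u).g = u.g
  h : ∀ u ∈ sZ3, (θ u).h = y * u.h
  i : ∀ u ∈ sZ2, (θ u).i = x * y * u.i
  j : ∀ u ∈ sZ1, (θ u).j = x * u.j

/-- an automorphism of order eight of `Z₂` -/
def M8 (n : Co → Co) : Prop := ∀ u ∈ sZ2, (n u).i = u.i - u.j ∧ (n u).j = u.i + u.j

/-- the power-commutator presentation: `x y = y x w` -/
structure Rel {G : Type*} [Group G] (b a d c e f g h i j : G) : Prop where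
  pb : b ^ 3 = 1
  pa : a ^ 3 = 1
  pd : d ^ 3 = 1
  pc : c ^ 3 = 1
  pe : e ^ 3 = j
  pf : f ^ 3 = 1
  pg : g ^ 3 = 1
  ph : h ^ 3 = 1
  pi : i ^ 3 = 1
  pj : j ^ 3 = 1
  qab : a * b = b * a * d ^ 2 * c ^ 2 * e ^ 2 * f ^ 2 * j
  qdb : d * b = b * d * e ^ 2 * h ^ 2 * i
  qcb : c * b = b * c
  qeb : e * b = b * e * i * j
  qfb : f * b = b * f * g * h
  qgb : g * b = b * g * h ^ 2
  qhb : h * b = b * h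
  qib : i * b = b * i * j ^ 2
  qjb : j * b = b * j
  qda : d * a = a * d
  qca : c * a = a * c * f ^ 2 * h * i ^ 2 * j ^ 2
  qea : e * a = a * e * g * j
  qfa : f * a = a * f
  qga : g * a = a * g * j
  qha : h * a = a * h * i
  qia : i * a = a * i
  qja : j * a = a * j
  qcd : c * d = d * c * g * i
  qed : e * d = d * e * h ^ 2 * j
  qfd : f * d = d * f
  qgd : g * d = d * g * i ^ 2
  qhd : h * d = d * h * j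
  qid : i * d = d * i
  qjd : j * d = d * j
  qec : e * c = c * e * h ^ 2
  qfc : f * c = c * f * j ^ 2
  qgc : g * c = c * g
  qhc : h * c = c * h
  qic : i * c = c * i
  qjc : j * c = c * j
  qfe : f * e = e * f * i ^ 2
  qge : g * e = e * g * j
  qhe : h * e = e * h
  qie : i * e = e * i
  qje : j * e = e * j
  qgf : g * f = f * g
  qhf : h * f = f * h
  qif : i * f = f * i
  qjf : j * f = f * j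
  qhg : h * g = g * h
  qig : i * g = g * i
  qjg : j * g = g * j
  qih : i * h = h * i
  qjh : j * h = h * j
  qji : j * i = i * j

/-! ### The essential subgroups -/

def JobCj : Prop := ∀ (k : ℕ) (E M : Subgroup Co) (t : Co), Bq 3 zA k E M → Bq 3 zA k (cjS t E) (cjS t M)

def JobO3 : Prop := ∀ m ∈ sE2, m ^ 3 = 1 → ∃ t, t⁻¹ * m * t ∈ sW ∨ t⁻¹ * m * t ∈ sC4 ∨ t⁻¹ * m * t ∈ sK

def JobL43 : Prop := (∀ E M, Bq 3 zA 4 E M → E = sE1) ∧ ∀ E M, ¬ Bq 3 zA 3 E M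

def JobL2 : Prop := JobCj → JobO3 → ∀ E M, Bq 3 zA 2 E M → E = sE2 ∨ ∃ t, cjS t E = sN

def JobL1 : Prop := ∀ E M, Bq 3 zA 1 E M → ¬ E ≤ sE2 → E = sE1

def JobL0 : Prop := ∀ E M, Bq 3 zA 0 E M → E ≤ sE2

/-- levels zero and one inside `E₂`, when `M ≤ D₂` -/
def JobXa : Prop := ∀ k ≤ 1, ∀ E M, Bq 3 zA k E M → E ≤ sE2 → (∀ s ∈ E, ∀ m ∈ M, cm s m = 1) →
  M ≤ sD2 → M ≤ sZ2

/-- levels zero and one inside `E₂`, elements of `C₄` and `K` -/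
def JobXb : Prop := ∀ k ≤ 1, ∀ E M, Bq 3 zA k E M → E ≤ sE2 → (∀ s ∈ E, ∀ m ∈ M, cm s m = 1) →
  ∀ m ∈ M, m ∈ sC4 ∨ m ∈ sK → m ∈ sD2

def JobXc : Prop := JobCj → JobO3 → JobXa → JobXb →
  (∀ E M, Bq 3 zA 0 E M → E ≤ sE2 → E = sE2 ∨ ∃ t, cjS t E = sW) ∧ ∀ E M, Bq 3 zA 1 E M → ¬ E ≤ sE2

def JobNN : Prop := ∀ Y H, ¬ Dt 3 sN Y H

/-! ### Automorphisms -/

def JobC6 : Prop := ∀ β, Au sZ6 β → ∀ k ≤ 8, Pr β (z0 k)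

def JobCE : Prop :=
  (∀ β, Au sE1 β → Pr β sZ1 ∧ Pr β sZ3 ∧ (Pr β sZ2 → Pr β sZ6)) ∧
  (∀ β, Au sE2 β → Pr β sZ2 ∧ (Pr β sZ1 → Pr β sZ6)) ∧
  ∀ θ, Au ⊤ θ → Pr θ sE1 ∧ Pr θ sE2

def JobAS : Prop := ∀ θ, Au ⊤ θ → Pr θ sE1 → (∀ k, Pr θ (z0 k)) → ∃ x y, x ≠ 0 ∧ y ≠ 0 ∧ Lay θ x y

/-- what the three jobs give -/
structure AS : Prop where
  z6 : ∀ β, Au sZ6 β → ∀ k ≤ 8, Pr β (z0 k)
  e1 : ∀ β, Au sE1 β → Pr β sZ1 ∧ Pr β sZ3 ∧ (Pr β sZ2 → Pr β sZ6)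
  e2 : ∀ β, Au sE2 β → Pr β sZ2 ∧ (Pr β sZ1 → Pr β sZ6)
  top : ∀ θ, Au ⊤ θ → Pr θ sE1 ∧ (∀ k, Pr θ (z0 k)) ∧ ∃ x y, x ≠ 0 ∧ y ≠ 0 ∧ Lay θ x y

/-! ### The automizers -/

def JobB1 : Prop := AS → ∀ F : FusionSystem (⊤ : Subgroup Co), F.IsSaturated 3 →
  ∀ X : Subgroup Co, sP ≤ X → (∀ α ∈ aY F sE1, ∀ u ∈ sE1, u ∈ X → α u ∈ X) →
  (∃ α ∈ aY F sE1, ¬ Pr α sZ2) → ∃ y ∈ aY F ⊤, Lay y 1 (-1) ∧ ∀ u ∈ sE1, u⁻¹ * y u ∈ X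

def JobB2 : Prop := AS → ∀ F : FusionSystem (⊤ : Subgroup Co), F.IsSaturated 3 →
  ∀ X : Subgroup Co, sP ≤ X → (∀ α ∈ aY F sE2, ∀ u ∈ sE2, u ∈ X → α u ∈ X) →
  (∃ α ∈ aY F sE2, ¬ Pr α sZ1) → ∃ y ∈ aY F ⊤, Lay y (-1) 1 ∧ ∀ u ∈ sE2, u⁻¹ * y u ∈ X

/-- distinct conjugates of `Z₂` in `W` -/
def TI (Y : Subgroup (Equiv.Perm Co)) : Prop := ∀ g ∈ Y, ¬ Pr g sZ2 → ∀ c ∈ sV, g c ∈ sZ2 → c = 1

def JobW1 : Prop := ∀ F : FusionSystem (⊤ : Subgroup Co), F.IsSaturated 3 → F.IsEssential 3 sW →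
  (∃ g ∈ aY F sW, ¬ Pr g sZ2) ∧ TI (aY F sW)

def JobW2 : Prop := ∀ Y N : Subgroup (Equiv.Perm Co), Lg sW Y → TI Y → N ≤ Y →
  (∀ y ∈ Y, ∀ n ∈ N, y * n * y⁻¹ ∈ N) → (∀ s ∈ sZ4, ∃ n ∈ N, ∀ u ∈ sW, n u = s * u * s⁻¹) →
  ∀ g ∈ Y, ¬ Pr g sZ2 → (∀ a d, ∃ u ∈ sZ2, (g u).a = a ∧ (g u).d = d) ∧ ∃ n ∈ N, Pr n sZ2 ∧ M8 n

def JobGZ : Prop := AS → ∀ F : FusionSystem (⊤ : Subgroup Co), F.IsSaturated 3 →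
  (∃ n ∈ aY F sZ2, M8 n) → (∃ y ∈ aY F ⊤, Lay y 1 (-1)) ∧ ∃ y ∈ aY F ⊤, Lay y (-1) 1

def JobCZ : Prop := ∀ (F : FusionSystem (⊤ : Subgroup Co)) (T : Subgroup Co) (E : FusionSystem T),
  E.IsSaturated 3 → E.IsInvariantIn F → sZ2 ≤ T → T ≤ sE2 → ∀ n, H92.Mor E sZ2 n → Pr n sZ2 → ¬ M8 n

def JobK0 : Prop := AS → ∀ E F : FusionSystem (⊤ : Subgroup Co), F.IsSaturated 3 → aY E ⊤ ≤ aY F ⊤ →
  (∃ y ∈ aY E ⊤, Lay y 1 (-1)) → (∃ y ∈ aY E ⊤, Lay y (-1) 1) → aY F ⊤ ≤ aY E ⊤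

/-! ### Normal subgroups -/

def JobTS : Prop := ∀ T : Subgroup Co, T.Normal → (T ≠ ⊥ → sZ1 ≤ T) ∧ (¬ T ≤ sZ6 → sP ≤ T) ∧
  (sZ2 ≤ T → (∃ w ∈ T, w ∈ sW ∧ w.a = 0 ∧ w.d = 1) → sZ4 ≤ T) ∧
  (sP ≤ T → (∀ a d, ∃ w ∈ T, w ∈ sW ∧ w.a = a ∧ w.d = d) → sE2 ≤ T) ∧
  (sP ≤ T → ∀ y : Co → Co, Lay y 1 (-1) → Pr y sZ6 → (∀ u ∈ sE1, u⁻¹ * y u ∈ T) → sE1 ≤ T) ∧
  (sP ≤ T → ∀ y : Co → Co, Lay y (-1) 1 → Pr y sZ6 → (∀ u ∈ sE2, u⁻¹ * y u ∈ T) → sE2 ≤ T) ∧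
  (sE1 ≤ T → ¬ T ≤ sE1 → T = ⊤) ∧ (sE2 ≤ T → ¬ T ≤ sE2 → T = ⊤)

/-! ### The model -/

def JobPc : Prop := ∀ (G : Type v) [Group G] (b a d c e f g h i j : G), Rel b a d c e f g h i j →
  ∃ φ : Co →* G, φ (xj 1) = j

def JobTh : Prop := ∃ b a d c e f g h i j : Spor.Th, Rel b a d c e f g h i j ∧ j ≠ 1

def JobMod : Prop := JobPc.{0} → JobTh → ∀ [Fact (Nat.Prime 3)] (S : Sylow 3 Spor.Th),
  Nonempty ((S : Subgroup Spor.Th) ≃* Co)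

end H11.T3
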