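/- T3 tower: assembly. -/
import Cfsg.Agent.H11.T3Spec
import Cfsg.Agent.H92.Inv2
import Cfsg.Agent.H92.Core

set_option autoImplicit false
set_option linter.unusedSectionVars false

open Subgroup H92 Cfsg Cfsg.FusionSystem H90.RF H90.U5

universe u

namespace H11.T3

/-- the slots -/
structure Jobs : Prop where
  Cj : JobCj
  O3 : JobO3
  L43 : JobL43
  L2 : JobL2
  L1 : JobL1
  L0 : JobL0
  Xa : JobXa
  Xb : JobXb
  Xc : JobXc
  NN : JobNN
  C6 : JobC6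
  CE : JobCE
  AS : JobAS
  B1 : JobB1
  B2 : JobB2
  W1 : JobW1
  W2 : JobW2
  GZ : JobGZ
  CZ : JobCZ
  K0 : JobK0
  TS : JobTS

theorem ess_cj {P : Type*} [Group P] {p : ℕ} {F : FusionSystem (⊤ : Subgroup P)} {E : Subgroup P} (t : P)
    (h : F.IsEssential p E) : F.IsEssential p (cjS t E) := by
  have k : ∀ (s r : P), s * r = 1 → ∀ (X : Subgroup P) (f : P → P), Mor F X f →
      Mor F (img X fun x => s * x * s⁻¹) fun y => s * f (r * y * r⁻¹) * s⁻¹ := fun s r e X f hf =>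
    hf.transport (mor_conj F le_rfl (mem_top s)) le_top (fun _ _ => trivial) fun x _ => by
      obtain rfl := eq_inv_of_mul_eq_one_right e
      simp [mul_assoc]
  have tr : H94.Tr (fun x => t⁻¹ * x * t⁻¹⁻¹) (fun x => t * x * t⁻¹) F F :=
    ⟨⟨fun _ _ => trivial, fun _ _ => trivial, fun x _ => by group, fun x _ => by group,
      fun x _ y _ => by group⟩, k _ _ (inv_mul_cancel t), k _ _ (mul_inv_cancel t)⟩
  have := tr.isEssential h
  rwa [show img E (fun x => t⁻¹ * x * t⁻¹⁻¹) = cjS t E from Subgroup.ext fun y => by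
    rw [tr.iso.mem_img' le_top]; exact ⟨fun h => h.2, fun h => ⟨trivial, h⟩⟩] at this

local instance fact3 : Fact (Nat.Prime 3) := ⟨Nat.prime_three⟩

theorem hS : IsPGroup 3 (⊤ : Subgroup Co) := pgroup_Co.to_subgroup _

theorem cen_D2 (s : Co) (h : ∀ c ∈ sD2, s * c = c * s) : s ∈ sD2 := by
  have h1 := cm_eq_one.2 (h (xf 1) (by simp [mem_sD2, xf]))
  have h2 := cm_eq_one.2 (h (xh 1) (by simp [mem_sD2, xh]))
  have b : s.b = 0 := by simpa [cm_g, xf] using congrArg Co.g h1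
  have a : s.a = 0 := by simpa [cm_i, xh] using congrArg Co.i h2
  exact ⟨b, a, by simpa [cm_j, xh, a] using congrArg Co.j h2, by simpa [cm_j, xf, a, b] using congrArg Co.j h1,
    by simpa [cm_i, xf, b] using congrArg Co.i h1⟩

namespace Jobs
variable (J : Jobs) {F : FusionSystem (⊤ : Subgroup Co)}
include J

theorem as : T3.AS :=
  ⟨J.C6, J.CE.1, J.CE.2.1, fun θ a => by
    obtain ⟨h1, h2⟩ := J.CE.2.2 θ a
    have h6 : Pr θ sZ6 := fun c hc => ⟨h2 c hc.1, h1 c hc.2⟩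
    have k : ∀ k, Pr θ (z0 k) := fun k => by
      by_cases hk : k ≤ 8
      · exact J.C6 θ (a.restrict le_top h6) k hk
      · obtain ⟨k, rfl⟩ : ∃ n, k = n + 9 := ⟨k - 9, by omega⟩
        rcases k with _ | k
        exacts [h2, fun _ _ => trivial]
    exact ⟨h1, k, J.AS θ a h1 k⟩⟩

theorem ess (hF : F.IsSaturated 3) (hW : ¬ F.IsEssential 3 sW) {E : Subgroup Co} (hE : F.IsEssential 3 E) :
    E = sE1 ∨ E = sE2 := by
  obtain ⟨i, hi, M, h⟩ := jobD jobQ 3 Co pgroup_Co F hF E hE zA 5 rfl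
    (fun i => by
      rcases i with _ | _ | _ | _ | _ | i
      exacts [bot_le, Z1_le_Z2, Z2_le_Z3, Z3_le_Z4, Z4_le_D2, le_rfl])
    (fun i hi c hc => by
      have l : c ∈ sD2 := by
        interval_cases i
        exacts [Z4_le_D2 (Z3_le_Z4 (Z2_le_Z3 (Z1_le_Z2 hc))), Z4_le_D2 (Z3_le_Z4 (Z2_le_Z3 hc)),
          Z4_le_D2 (Z3_le_Z4 hc), Z4_le_D2 hc, hc]
      refine ⟨by rw [cb_C4 (D2_le_C4 l)]; exact one_mem _, fun s => ?_⟩
      interval_cases i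
      exacts [cm_Z1 s hc, cm_Z2 s hc, cm_Z3 s hc, cm_Z4 s hc, cm_D2 s hc])
    cen_D2
  have X := J.Xc J.Cj J.O3 J.Xa J.Xb
  interval_cases i
  · rcases X.1 E M h (J.L0 E M h) with k | ⟨t, k⟩
    exacts [Or.inr k, absurd (k ▸ ess_cj t hE) hW]
  · exact Or.inl (J.L1 E M h (X.2 E M h))
  · rcases J.L2 J.Cj J.O3 E M h with k | ⟨t, k⟩
    · exact Or.inr k
    · obtain ⟨Y, H, D⟩ := exists_dt pgroup_Co hF (k ▸ ess_cj t hE)
      exact absurd D (J.NN Y H)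
  · exact absurd h (J.L43.2 E M)
  · exact Or.inl (J.L43.1 E M h)

omit J in
theorem eq_bot (hc : F.core = ⊥) {Q : Subgroup Co} (h : F.IsNormal Q) : Q = ⊥ :=
  le_bot_iff.1 (hc ▸ le_sSup h)

theorem moves (hF : F.IsSaturated 3) (hc : F.core = ⊥) (hW : ¬ F.IsEssential 3 sW) :
    (∃ α ∈ aY F sE1, ¬ Pr α sZ2) ∧ ∃ α ∈ aY F sE2, ¬ Pr α sZ1 := by
  have ne : ∀ Q : Subgroup Co, sZ1 ≤ Q → ¬ F.IsNormal Q := fun Q l h => by
    have := l (show xj 1 ∈ sZ1 by simp [mem_sZ1, xj])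
    rw [eq_bot hc h] at this
    exact absurd (congrArg Co.j this) (by decide)
  have l2 : sZ2 ≤ sZ6 := Z2_le_Z3.trans (Z3_le_Z4.trans (Z4_le_D2.trans (D2_le_C4.trans (C4_le_C3.trans C3_le_Z6))))
  refine ⟨by_contra fun k => ne sZ2 Z1_le_Z2 (isNormal_of_essential hS hF fun P h => ?_),
    by_contra fun k => ne sZ1 le_rfl (isNormal_of_essential hS hF fun P h => ?_)⟩ <;> push Not at k
  · rcases h with rfl | h
    · exact ⟨le_top, fun α _ => (J.as.top _ (au_af α)).2.1 2⟩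
    rcases J.ess hF hW h with rfl | rfl
    · exact ⟨l2.trans Z6_le_E1, fun α hα => k _ ⟨α, hα, rfl⟩⟩
    · exact ⟨l2.trans Z6_le_E2, fun α _ => (J.as.e2 _ (au_af α)).1⟩
  · rcases h with rfl | h
    · exact ⟨le_top, fun α _ => (J.as.top _ (au_af α)).2.1 1⟩
    rcases J.ess hF hW h with rfl | rfl
    · exact ⟨Z1_le_Z2.trans (l2.trans Z6_le_E1), fun α _ => (J.as.e1 _ (au_af α)).1⟩
    · exact ⟨Z1_le_Z2.trans (l2.trans Z6_le_E2), fun α hα => k _ ⟨α, hα, rfl⟩⟩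

omit J in
theorem conj_W {s : Co} (hs : s ∈ sZ4) :
    ∃ n ∈ aY F sW, ∀ u ∈ sW, n u = s * u * s⁻¹ :=
  exists_aY (mor_conj F le_top (mem_top s)) fun c hc => by
    obtain ⟨p0, p1, p2, p3, p4, p5⟩ := hs
    obtain ⟨q0, q1, q2, q3, q4⟩ := hc
    simp [mem_sW, *]

theorem m8 (hF : F.IsSaturated 3) (hW : F.IsEssential 3 sW) : ∃ n ∈ aY F sW, Pr n sZ2 ∧ M8 n := by
  obtain ⟨⟨g, hg, hg'⟩, ti⟩ := J.W1 F hF hW
  exact (J.W2 _ _ (lg_aY _) ti le_rfl (fun y hy n hn => mul_mem (mul_mem hy hn) (inv_mem hy))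
    (fun s hs => conj_W hs) g hg hg').2

theorem full (hF : F.IsSaturated 3) (hc : F.core = ⊥) :
    (∃ y ∈ aY F ⊤, Lay y 1 (-1)) ∧ ∃ y ∈ aY F ⊤, Lay y (-1) 1 := by
  by_cases hW : F.IsEssential 3 sW
  · obtain ⟨n, hn, p, m⟩ := J.m8 hF hW
    obtain ⟨y, hy, e⟩ := exists_aY ((mor_aY hn).mono (Z2_le_V.trans V_le_W)) p
    exact J.GZ J.as F hF ⟨y, hy, fun u hu => by rw [e u hu]; exact m u hu⟩
  · obtain ⟨h1, h2⟩ := J.moves hF hc hW
    obtain ⟨y, hy, k, -⟩ := J.B1 J.as F hF ⊤ le_top (fun _ _ _ _ _ => trivial) h1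
    obtain ⟨y', hy', k', -⟩ := J.B2 J.as F hF ⊤ le_top (fun _ _ _ _ _ => trivial) h2
    exact ⟨⟨y, hy, k⟩, y', hy', k'⟩

theorem top (hF : F.IsSaturated 3) (hc : F.core = ⊥) {T : Subgroup Co} {E : FusionSystem T}
    (hE : E.IsSaturated 3) (hI : E.IsInvariantIn F) (hT : T ≠ ⊥) : T = ⊤ := by
  have sc := hI.2.1
  have nT : T.Normal := ⟨fun x hx s => conj_mem_of_stronglyClosed sc trivial hx⟩
  have pT : ∀ {X : Subgroup Co}, ∀ α ∈ aY F X, ∀ u ∈ X, u ∈ T → α u ∈ T := fun α hα u hu h =>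
    (mor_aY hα).mem_of_stronglyClosed sc hu h
  obtain ⟨t1, t2, t3, t4, t5, t6, t7, t8⟩ := J.TS T nT
  by_cases hW : F.IsEssential 3 sW
  · obtain ⟨n, hn, p, m⟩ := J.m8 hF hW
    obtain ⟨⟨g, hg, hg'⟩, ti⟩ := J.W1 F hF hW
    have lW : sZ2 ≤ sW := Z2_le_V.trans V_le_W
    have l2 : sZ2 ≤ T := fun u hu => by
      have a : xj (-u.i) ∈ sZ1 := by simp [mem_sZ1, xj]
      have b := p _ (Z1_le_Z2 a)
      have c := (m _ (Z1_le_Z2 a)).1
      refine (mul_mem_cancel_left (inv_mem (pT n hn _ (lW (Z1_le_Z2 a)) (t1 hT a)))).1 (t1 hT ?_)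
      generalize n (xj (-u.i)) = w at b c
      obtain ⟨p0, p1, p2, p3, p4, p5, p6, p7⟩ := hu
      obtain ⟨q0, q1, q2, q3, q4, q5, q6, q7⟩ := b
      simp only [xj, zero_sub, neg_neg] at c
      simp [mem_sZ1, *]
    have cov : ∀ a d, ∃ w ∈ T, w ∈ sW ∧ w.a = a ∧ w.d = d := fun a d => by
      obtain ⟨u, hu, h⟩ := (J.W2 _ _ (lg_aY _) ti le_rfl (fun y hy n hn => mul_mem (mul_mem hy hn) (inv_mem hy))
        (fun s hs => conj_W hs) g hg hg').1 a d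
      exact ⟨g u, pT g hg u (lW hu) (l2 hu), ((lg_aY _).au g hg).mem u (lW hu), h⟩
    by_cases h2 : T ≤ sE2
    swap
    · exact t8 (t4 (t2 fun k => h2 (k.trans Z6_le_E2)) cov) h2
    have l4 := t3 l2 (cov 0 1)
    have pW : ∀ y ∈ aY F sW, Pr y (sW ⊓ T) := fun y hy c hc =>
      ⟨((lg_aY _).au y hy).mem c hc.1, pT y hy c hc.1 hc.2⟩
    have im : ∀ y ∈ aY F sW, img (sW ⊓ T) y = sW ⊓ T := fun y hy =>
      ((mor_aY hy).mono inf_le_left).img_eq_of_maps (pW y hy)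
    let N : Subgroup (Equiv.Perm Co) :=
      { carrier := {y | y ∈ aY F sW ∧ Mor E (sW ⊓ T) y}
        one_mem' := ⟨one_mem _, mor_of_fix _ inf_le_right fun _ _ => rfl⟩
        mul_mem' := fun {a b} ha hb => ⟨mul_mem ha.1 hb.1, hb.2.perm_mul ha.2 (pW b hb.1)⟩
        inv_mem' := fun {a} ha => ⟨inv_mem ha.1, im a ha.1 ▸ ha.2.perm_inv⟩ }
    obtain ⟨-, n', hn', p', m'⟩ := J.W2 _ N (lg_aY _) ti (fun _ h => h.1)
      (fun y hy n hn => ⟨mul_mem (mul_mem hy hn.1) (inv_mem hy), im y hy ▸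
        mor_conj_of_invariant hI hn.2 ((mor_aY hy).mono inf_le_left) le_rfl (pW n hn.1) fun x _ => by simp⟩)
      (fun s hs => by
        obtain ⟨n, hn, e⟩ := conj_W (F := F) hs
        exact ⟨n, ⟨hn, (mor_conj E inf_le_right (l4 hs)).congr fun x hx => (e x hx.1).symm⟩, e⟩) g hg hg'
    exact absurd m' (J.CZ F T E hE hI l2 h2 n' (hn'.2.mono (le_inf lW l2)) p')
  obtain ⟨m1, m2⟩ := J.moves hF hc hW
  have h6 : ¬ T ≤ sZ6 := fun k => hT (eq_bot hc (isNormal_of_stronglyClosed hS hF sc fun P h => by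
    rcases J.ess hF hW h with rfl | rfl
    exacts [k.trans Z6_le_E1, k.trans Z6_le_E2]))
  have lP := t2 h6
  obtain ⟨y, hy, k, e⟩ := J.B1 J.as F hF T lP pT m1
  obtain ⟨y', hy', k', e'⟩ := J.B2 J.as F hF T lP pT m2
  have l1 := t5 lP y k ((J.as.top y ((lg_aY _).au y hy)).2.1 8) e
  have l2 := t6 lP y' k' ((J.as.top y' ((lg_aY _).au y' hy')).2.1 8) e'
  exact t7 l1 fun k => absurd (mem_sE1.1 (k (l2 (show xa 1 ∈ sE2 from rfl)))) (by decide)

theorem simple (hF : F.IsSaturated 3) (hc : F.core = ⊥) : F.IsSimple 3 := by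
  refine ⟨hF, fun h => ?_, fun T E ⟨⟨hE, _, hI⟩, _⟩ => or_iff_not_imp_left.2 fun hT => ?_⟩
  · exact absurd (congrArg Co.j (mem_bot.1 (h ▸ mem_top (xj 1)))) (by decide)
  obtain rfl := J.top hF hc hE hI hT
  obtain ⟨h1, h2⟩ := J.full hE (eq_bot hc (isNormal_core_of_invariant hS hF hI))
  have l : aY E ⊤ ≤ aY F ⊤ := map_mono fun α hα =>
    ((mor_af le_rfl hα).of_sub hI.1).mem_autGroup fun _ _ => rfl
  rw [eq_of_invariant_of_autGroup hI (aut_le' (J.K0 J.as E F hF l h1 h2))]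
  exact ⟨rfl, fun _ => rfl⟩

theorem main {Ω : Type u} [Group Ω] {S : Subgroup Ω} (F : FusionSystem S) (hF : F.IsSaturated 3)
    (e : S ≃* Co) (hc : F.core = ⊥) : F.IsSimple 3 := by
  let ψ : S →* Co := e.toMonoidHom
  obtain ⟨b, hi⟩ := H94.exists_pIso (mulOn_ext1 ψ) fun x hx y hy h => by
    rw [ext1_of_mem ψ hx, ext1_of_mem ψ hy] at h
    exact congrArg Subtype.val (e.injective h)
  rw [← range_eq_img ψ fun x => (ext1_coe ψ x).symm, MonoidHom.range_eq_top.2 e.surjective] at hi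
  obtain ⟨E, tr⟩ := hi.exists_tr F
  exact tr.symm.isSimple (J.simple (tr.isSaturated hF) (tr.core_eq_bot hc))

end Jobs

end H11.T3
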