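/- T3 tower: the presentation holds in the Thompson group. -/
import Cfsg.Agent.H11.T3Spec
import Cfsg.Agent.H88.ThM

set_option autoImplicit false
set_option maxRecDepth 100000
set_option Elab.async false

open H73

namespace H11.T3

/-- entry number `n` -/
noncomputable def nk {α : Type*} (d : α) (l : List α) : ℕ → α :=
  List.rec (fun _ => d) (fun a _ ih n => Nat.rec a (fun m _ => ih m) n) l

/-- `acc` times a word -/
noncomputable def wv (mul : ℕ → ℕ → ℕ) (one : ℕ) (st w : List ℕ) : ℕ → ℕ :=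
  List.rec (fun x => x) (fun a _ ih acc => frc (mul acc (nk one st a)) ih) w

/-- the value of a word -/
noncomputable def wv1 (mul : ℕ → ℕ → ℕ) (one : ℕ) (st w : List ℕ) : ℕ :=
  List.rec one (fun a l _ => wv mul one st l (nk one st a)) w

/-- a straight line program followed by `k` -/
noncomputable def slp (mul : ℕ → ℕ → ℕ) (one : ℕ) (k : List ℕ → ℕ) (ws : List (List ℕ)) : List ℕ → ℕ :=
  List.rec k (fun w _ ih st => frc (wv1 mul one st w) fun x => ih (x :: st)) ws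

/-- all pairs of words have equal values -/
noncomputable def eqs (mul : ℕ → ℕ → ℕ) (one : ℕ) (st : List ℕ) (rs : List (List ℕ × List ℕ)) : Bool :=
  List.rec true (fun r _ ih => band (Nat.beq (wv1 mul one st r.1) (wv1 mul one st r.2)) ih) rs

/-- the final test -/
noncomputable def fin (mul : ℕ → ℕ → ℕ) (one : ℕ) (rs : List (List ℕ × List ℕ)) (st : List ℕ) : ℕ :=
  Bool.rec 0 (Bool.rec 1 0 (Nat.beq (mul (nk one st 9) (nk one st 9)) (mul (nk one st 9) one))) (eqs mul one st rs)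

section
variable {G M : Type*} [Group G] [Monoid M] {S : Sys G M} {st : List ℕ} {γ : ℕ → G}

theorem wv_spec (h : ∀ n, S.R (nk S.one st n) (γ n)) (w : List ℕ) {x : ℕ} {g : G} (hx : S.R x g) :
    S.R (wv S.mul S.one st w x) (g * (w.map γ).prod) := by
  induction w generalizing x g with
  | nil => rw [List.map_nil, List.prod_nil, mul_one]; exact hx
  | cons a l ih =>
    rw [List.map_cons, List.prod_cons, ← mul_assoc]
    show S.R (frc (S.mul x (nk S.one st a)) (wv S.mul S.one st l)) _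
    rw [frc_eq]
    exact ih (hx.mul (h a))

theorem wv1_spec (h : ∀ n, S.R (nk S.one st n) (γ n)) (w : List ℕ) :
    S.R (wv1 S.mul S.one st w) (w.map γ).prod := by
  cases w with
  | nil => exact S.R_one
  | cons a l => exact wv_spec h l (h a)

theorem slp_spec (k : List ℕ → ℕ) (ws : List (List ℕ)) (h : ∀ n, S.R (nk S.one st n) (γ n)) :
    ∃ (st' : List ℕ) (γ' : ℕ → G), (∀ n, S.R (nk S.one st' n) (γ' n)) ∧ slp S.mul S.one k ws st = k st' := by
  induction ws generalizing st γ with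
  | nil => exact ⟨st, γ, h, rfl⟩
  | cons w l ih =>
    obtain ⟨s, δ, h1, h2⟩ := ih (st := wv1 S.mul S.one st w :: st)
      (γ := fun n => Nat.rec (w.map γ).prod (fun m _ => γ m) n) fun n => by
        cases n with
        | zero => exact wv1_spec h w
        | succ n => exact h n
    exact ⟨s, δ, h1, (frc_eq _ fun x => slp S.mul S.one k l (x :: st)).trans h2⟩

theorem eqs_spec (h : ∀ n, S.R (nk S.one st n) (γ n)) {rs : List (List ℕ × List ℕ)}
    (e : eqs S.mul S.one st rs = true) : ∀ r ∈ rs, (r.1.map γ).prod = (r.2.map γ).prod := by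
  induction rs with
  | nil => simp
  | cons r l ih =>
    obtain ⟨a, b⟩ := band_spec.1 e
    exact List.forall_mem_cons.2 ⟨(wv1_spec h _).eq_of_beq (wv1_spec h _) a, ih b⟩

theorem fin_spec (h : ∀ n, S.R (nk S.one st n) (γ n)) {rs : List (List ℕ × List ℕ)}
    (e : fin S.mul S.one rs st = 1) : (∀ r ∈ rs, (r.1.map γ).prod = (r.2.map γ).prod) ∧ γ 9 ≠ 1 := by
  unfold fin at e
  cases h1 : eqs S.mul S.one st rs <;> rw [h1] at e
  · exact absurd e Nat.zero_ne_one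
  cases h2 : Nat.beq (S.mul (nk S.one st 9) (nk S.one st 9)) (S.mul (nk S.one st 9) S.one) <;> rw [h2] at e
  · exact ⟨eqs_spec h h1, fun k => ((h 9).mul (h 9)).ne_of_beq ((h 9).mul S.R_one) h2 (by rw [k])⟩
  · exact absurd e Nat.zero_ne_one

end

/-- the words -/
def wsT : List (List ℕ) := [[1, 10, 9, 8], [9, 10, 11, 1], [6, 4, 11, 2, 7, 9, 2, 7, 7, 5, 11, 5, 2, 8, 9, 7, 8, 7, 4, 11, 12, 4, 4, 8,
  11, 3, 10, 9], [7, 10, 11, 12, 8, 12, 8, 10, 4, 9, 12, 10, 9, 12, 7, 9, 4, 13, 4, 10, 12, 6, 11, 4, 10, 7, 10,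
  3], [3, 3, 3], [1, 3, 2, 1, 2, 3, 3], [0, 4, 0, 5, 0], [5, 4, 5, 0, 4], [7, 7, 0, 7, 0, 0], [8, 3, 6, 5, 1, 6,
  5], [4, 3, 0, 2, 8, 4], [10, 1, 9, 1, 1, 3], [2, 2, 9, 10, 2, 10, 9], [9, 11, 9, 11, 9, 1, 9]]

/-- the relations -/
def rsT : List (List ℕ × List ℕ) := [([1, 1, 1], []), ([4, 4, 4], []), ([8, 8, 8], []), ([3, 3, 3], []), ([0, 0, 0], [9]), ([2, 2, 2], []), ([7,
  7, 7], []), ([6, 6, 6], []), ([5, 5, 5], []), ([9, 9, 9], []), ([4, 1], [1, 4, 8, 8, 3, 3, 0, 0, 2, 2, 9]),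
  ([8, 1], [1, 8, 0, 0, 6, 6, 5]), ([3, 1], [1, 3]), ([0, 1], [1, 0, 5, 9]), ([2, 1], [1, 2, 7, 6]), ([7, 1],
  [1, 7, 6, 6]), ([6, 1], [1, 6]), ([5, 1], [1, 5, 9, 9]), ([9, 1], [1, 9]), ([8, 4], [4, 8]), ([3, 4], [4, 3,
  2, 2, 6, 5, 5, 9, 9]), ([0, 4], [4, 0, 7, 9]), ([2, 4], [4, 2]), ([7, 4], [4, 7, 9]), ([6, 4], [4, 6, 5]),
  ([5, 4], [4, 5]), ([9, 4], [4, 9]), ([3, 8], [8, 3, 7, 5]), ([0, 8], [8, 0, 6, 6, 9]), ([2, 8], [8, 2]), ([7,
  8], [8, 7, 5, 5]), ([6, 8], [8, 6, 9]), ([5, 8], [8, 5]), ([9, 8], [8, 9]), ([0, 3], [3, 0, 6, 6]), ([2, 3],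
  [3, 2, 9, 9]), ([7, 3], [3, 7]), ([6, 3], [3, 6]), ([5, 3], [3, 5]), ([9, 3], [3, 9]), ([2, 0], [0, 2, 5, 5]),
  ([7, 0], [0, 7, 9]), ([6, 0], [0, 6]), ([5, 0], [0, 5]), ([9, 0], [0, 9]), ([7, 2], [2, 7]), ([6, 2], [2, 6]),
  ([5, 2], [2, 5]), ([9, 2], [2, 9]), ([6, 7], [7, 6]), ([5, 7], [7, 5]), ([9, 7], [7, 9]), ([5, 6], [6, 5]),
  ([9, 6], [6, 9]), ([9, 5], [5, 9])]

/-- the letters -/
def stf (f : ℕ → ℕ) : List ℕ := [f 0, f 1, f 2, f 3, f 4, f 5, f 6, f 7, f 8, f 9, f 10]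

theorem rel_of {G M : Type*} [Group G] [Monoid M] {S : Sys G M} {f : ℕ → ℕ} {v : ℕ → G}
    (k : ∀ l < 11, S.R (f l) (v l)) {m : ℕ → ℕ → ℕ} {o : ℕ} (hm : S.mul = m) (ho : S.one = o)
    (c : Nat.beq (slp m o (fin m o rsT) wsT (stf f)) 1 = true) :
    ∃ b a d c e f g h i j : G, Rel b a d c e f g h i j ∧ j ≠ 1 := by
  subst hm ho
  obtain ⟨st, γ, h, e⟩ := slp_spec (S := S) (st := stf f) (γ := fun n => if n < 11 then v n else 1)
    (fin S.mul S.one rsT) wsT fun n => by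
      rcases n with _ | _ | _ | _ | _ | _ | _ | _ | _ | _ | _ | n
      iterate 11 exact k _ (by decide)
      rw [if_neg (by omega)]
      exact S.R_one
  obtain ⟨h1, h2⟩ := fin_spec h (e.symm.trans (Nat.eq_of_beq_eq_true c))
  simp only [rsT, List.forall_mem_cons, List.map_cons, List.map_nil, List.prod_cons, List.prod_nil, mul_one] at h1
  refine ⟨γ 1, γ 4, γ 8, γ 3, γ 0, γ 2, γ 7, γ 6, γ 5, γ 9, ?_, h2⟩
  constructor <;> (try simp only [pow_three, pow_two, mul_assoc]) <;> tauto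

theorem cmp_eq {G G' M : Type*} [Group G] [Group G'] [Monoid M] (S : Sys G M) (f : G' →* G)
    (hf : Function.Injective f) : (S.comap f hf).mul = S.mul ∧ (S.comap f hf).one = S.one := ⟨rfl, rfl⟩

open H74.ThT

theorem chkT : Nat.beq (slp SB.mul SB.one (fin SB.mul SB.one rsT) wsT (stf (get2 492032 CB))) 1 = true := by
  decide +kernel

theorem jobTh : JobTh :=
  rel_of (S := SB.comap ρ H88.ThT.ρ_inj) (f := get2 492032 CB) (v := Ths.val) (fun l hl =>
    have k : l ∈ LB := (by decide : ∀ l < 11, l ∈ LB) l hl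
    (hπ l k).trans (congrArg SB.ι (hρ l k).symm)) (cmp_eq _ _ _).1 (cmp_eq _ _ _).2 chkT

end H11.T3
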